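import Mathlib.GroupTheory.Sylow
import Mathlib.GroupTheory.Transfer
import Mathlib.Algebra.Order.BigOperators.Group.Finset
import Mathlib.Combinatorics.Enumerative.DoubleCounting
import Mathlib.Tactic
import Cfsg.Prelude.Def_Transfer

/-! If `G` has no normal `p`-complement, at least half of its elements have class size divisible
by `p` (`H20.Cs.half`); double counting bounds the primes dividing class sizes (`H20.Cs.main`). -/

set_option autoImplicit false
set_option linter.unusedSectionVars false

namespace H20.Cs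

open Finset
open scoped Classical

variable {G : Type*} [Group G] [Fintype G]

theorem cent_le {p : ℕ} [Fact p.Prime] (h : ¬ Cfsg.HasNormalPComplement p G) (Q : Sylow p G) :
    2 * Nat.card (Sylow p G) * Nat.card (Subgroup.centralizer ((Q : Subgroup G) : Set G))
      ≤ Nat.card G := by
  have hle : Subgroup.centralizer ((Q : Subgroup G) : Set G) ≤
      Subgroup.normalizer ((Q : Subgroup G) : Set G) := Subgroup.centralizer_le_normalizer _
  have hne : ¬ Subgroup.normalizer ((Q : Subgroup G) : Set G) ≤
      Subgroup.centralizer ((Q : Subgroup G) : Set G) := fun e =>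
    h ⟨Q, _, inferInstance, MonoidHom.ker_transferSylow_isComplement' Q e⟩
  obtain ⟨k, hk⟩ := Subgroup.card_dvd_of_le hle
  have hk2 : 2 ≤ k := by
    by_contra hc
    have hk0 : k ≠ 0 := by
      rintro rfl
      rw [mul_zero] at hk
      exact Nat.card_pos.ne' hk
    have hk1 : k = 1 := by omega
    rw [hk1, mul_one] at hk
    exact hne (Subgroup.eq_of_le_of_card_ge hle hk.le).ge
  have h1 : Nat.card (Sylow p G) = (Subgroup.normalizer ((Q : Subgroup G) : Set G)).index :=
    Q.card_eq_index_normalizer
  have h2 := (Subgroup.normalizer ((Q : Subgroup G) : Set G)).card_mul_index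
  rw [← h2, ← h1, hk]
  have := Nat.mul_le_mul_left
    (Nat.card (Subgroup.centralizer ((Q : Subgroup G) : Set G)) * Nat.card (Sylow p G)) hk2
  nlinarith

theorem exists_sylow {p : ℕ} [hp : Fact p.Prime] {x : G}
    (hx : ¬ p ∣ (Subgroup.centralizer ({x} : Set G)).index) :
    ∃ Q : Sylow p G, x ∈ Subgroup.centralizer ((Q : Subgroup G) : Set G) := by
  set C := Subgroup.centralizer ({x} : Set G) with hC
  obtain ⟨R⟩ : Nonempty (Sylow p C) := inferInstance
  have h1 : IsPGroup p ((R : Subgroup C).map C.subtype) := R.isPGroup'.map _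
  have h2 : ¬ p ∣ ((R : Subgroup C).map C.subtype).index := by
    rw [Subgroup.index_map_subtype]
    intro h
    rcases (Nat.Prime.dvd_mul hp.out).1 h with h | h
    · exact R.not_dvd_index h
    · exact hx h
  refine ⟨h1.toSylow h2, ?_⟩
  rw [Subgroup.mem_centralizer_iff]
  intro y hy
  have hy' : y ∈ (R : Subgroup C).map C.subtype := hy
  obtain ⟨z, -, rfl⟩ := hy'
  have := Subgroup.mem_centralizer_singleton_iff.1 z.2
  exact this

theorem half {p : ℕ} [hp : Fact p.Prime] (h : ¬ Cfsg.HasNormalPComplement p G) :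
    Fintype.card G ≤
      2 * #(univ.filter fun x : G => p ∣ (Subgroup.centralizer ({x} : Set G)).index) := by
  haveI : Fintype (Sylow p G) := Fintype.ofFinite _
  have hsub : (univ.filter fun x : G => ¬ p ∣ (Subgroup.centralizer ({x} : Set G)).index) ⊆
      (univ : Finset (Sylow p G)).biUnion fun Q =>
        univ.filter fun x : G => x ∈ Subgroup.centralizer ((Q : Subgroup G) : Set G) := by
    intro x hx
    obtain ⟨Q, hQ⟩ := exists_sylow (mem_filter.1 hx).2
    exact mem_biUnion.2 ⟨Q, mem_univ _, mem_filter.2 ⟨mem_univ _, hQ⟩⟩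
  have h1 := (card_le_card hsub).trans card_biUnion_le
  have h2 : ∀ Q ∈ (univ : Finset (Sylow p G)), 2 * Nat.card (Sylow p G) *
      #(univ.filter fun x : G => x ∈ Subgroup.centralizer ((Q : Subgroup G) : Set G))
        ≤ Nat.card G := by
    intro Q _
    have := cent_le h Q
    rwa [Nat.card_eq_fintype_card (α := Subgroup.centralizer ((Q : Subgroup G) : Set G)),
      Fintype.card_subtype] at this
  have h3 := sum_le_card_nsmul _ _ _ h2
  rw [← mul_sum, card_univ, smul_eq_mul, ← Nat.card_eq_fintype_card] at h3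
  have hpos : 0 < Nat.card (Sylow p G) := Nat.card_pos
  have h4 : 2 * ∑ Q : Sylow p G,
      #(univ.filter fun x : G => x ∈ Subgroup.centralizer ((Q : Subgroup G) : Set G))
        ≤ Nat.card G := by
    apply Nat.le_of_mul_le_mul_left _ hpos
    calc _ = 2 * Nat.card (Sylow p G) * ∑ Q : Sylow p G,
        #(univ.filter fun x : G => x ∈ Subgroup.centralizer ((Q : Subgroup G) : Set G)) := by ring
      _ ≤ _ := h3
  have h5 := card_filter_add_card_filter_not (s := (univ : Finset G))
    (fun x : G => p ∣ (Subgroup.centralizer ({x} : Set G)).index)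
  rw [card_univ] at h5
  rw [Nat.card_eq_fintype_card] at h4
  omega

theorem main (σ : ℕ)
    (hσ : ∀ x : G, ((Subgroup.centralizer ({x} : Set G)).index).primeFactors.card ≤ σ)
    (hnil : ∀ p q : ℕ, p.Prime → q.Prime → p ∣ Nat.card G → q ∣ Nat.card G →
      Cfsg.HasNormalPComplement p G → Cfsg.HasNormalPComplement q G → p = q) :
    Nat.card {p : ℕ | p.Prime ∧ ∃ x : G, p ∣ (Subgroup.centralizer ({x} : Set G)).index}
      ≤ 2 * σ := by
  set R : Finset ℕ := (Nat.card G).primeFactors.filter fun p =>
    ∃ x : G, p ∣ (Subgroup.centralizer ({x} : Set G)).index with hR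
  have hG : Nat.card G ≠ 0 := Nat.card_pos.ne'
  have hset : {p : ℕ | p.Prime ∧ ∃ x : G, p ∣ (Subgroup.centralizer ({x} : Set G)).index}
      = (R : Set ℕ) := by
    ext p
    simp only [Set.mem_setOf_eq, hR, coe_filter, Nat.mem_primeFactors]
    constructor
    · rintro ⟨hp, x, hx⟩
      exact ⟨⟨hp, hx.trans (Subgroup.index_dvd_card _), hG⟩, x, hx⟩
    · rintro ⟨⟨hp, -⟩, hx⟩
      exact ⟨hp, hx⟩
  rw [hset, Nat.card_coe_set_eq, Set.ncard_coe_finset]
  rcases Nat.eq_zero_or_pos σ with rfl | hσ0
  · have : R = ∅ := by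
      rw [eq_empty_iff_forall_notMem]
      intro p hp
      obtain ⟨hp1, x, hx⟩ := mem_filter.1 hp
      have h0 := card_eq_zero.1 (Nat.le_zero.1 (hσ x))
      have : p ∈ ((Subgroup.centralizer ({x} : Set G)).index).primeFactors :=
        Nat.mem_primeFactors.2 ⟨(Nat.mem_primeFactors.1 hp1).1, hx, Subgroup.index_ne_zero_of_finite⟩
      rw [h0] at this
      exact notMem_empty _ this
    simp [this]
  set T : Finset ℕ := R.filter fun p => ¬ Cfsg.HasNormalPComplement p G with hT
  have hRT : #R ≤ #T + 1 := by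
    have h1 := card_filter_add_card_filter_not (s := R) fun p => Cfsg.HasNormalPComplement p G
    have h2 : #(R.filter fun p => Cfsg.HasNormalPComplement p G) ≤ 1 := by
      rw [card_le_one]
      intro a ha b hb
      obtain ⟨ha1, ha2⟩ := mem_filter.1 ha
      obtain ⟨hb1, hb2⟩ := mem_filter.1 hb
      have ha3 := Nat.mem_primeFactors.1 (mem_filter.1 ha1).1
      have hb3 := Nat.mem_primeFactors.1 (mem_filter.1 hb1).1
      exact hnil a b ha3.1 hb3.1 ha3.2.1 hb3.2.1 ha2 hb2
    rw [← hT] at h1
    omega
  have hdc := sum_card_bipartiteAbove_eq_sum_card_bipartiteBelow (s := T) (t := (univ : Finset G))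
    (fun p x => p ∣ (Subgroup.centralizer ({x} : Set G)).index)
  have hlow : #T * Fintype.card G ≤ 2 * ∑ p ∈ T,
      #(bipartiteAbove (fun p x => p ∣ (Subgroup.centralizer ({x} : Set G)).index) univ p) := by
    rw [mul_sum, ← smul_eq_mul]
    apply card_nsmul_le_sum
    intro p hp
    obtain ⟨hp1, hp2⟩ := mem_filter.1 hp
    haveI : Fact p.Prime := ⟨(Nat.mem_primeFactors.1 (mem_filter.1 hp1).1).1⟩
    exact half hp2
  have hup : ∑ x : G,
      #(bipartiteBelow (fun p x => p ∣ (Subgroup.centralizer ({x} : Set G)).index) T x)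
        < Fintype.card G * σ := by
    have hb : ∀ x : G,
        #(bipartiteBelow (fun p x => p ∣ (Subgroup.centralizer ({x} : Set G)).index) T x)
          ≤ ((Subgroup.centralizer ({x} : Set G)).index).primeFactors.card := by
      intro x
      apply card_le_card
      intro p hp
      obtain ⟨hp1, hp2⟩ := (mem_bipartiteBelow _).1 hp
      exact Nat.mem_primeFactors.2 ⟨(Nat.mem_primeFactors.1 (mem_filter.1 (mem_filter.1 hp1).1).1).1,
        hp2, Subgroup.index_ne_zero_of_finite⟩
    rw [← card_univ, ← smul_eq_mul, ← sum_const]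
    refine sum_lt_sum (fun x _ => (hb x).trans (hσ x)) ⟨1, mem_univ _, (hb 1).trans_lt ?_⟩
    have : Subgroup.centralizer ({1} : Set G) = ⊤ := by
      rw [eq_top_iff]
      intro y _
      rw [Subgroup.mem_centralizer_singleton_iff]
      simp
    rw [this]
    simpa using hσ0
  rw [hdc] at hlow
  have h3 : #T * Fintype.card G < 2 * σ * Fintype.card G := by nlinarith
  have h4 := Nat.lt_of_mul_lt_mul_right h3
  omega

end H20.Cs
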