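import Cfsg.Agent.H11.JD
import Cfsg.Agent.H11.Levi

/-! Elusivity engine, linear part: invariant subspaces with given elementary divisors (`HasED`),
maps whose `r`-th power is scalar (`all_of`, `jt_of_pow`, `irr_spec`, `exists_irr`, `exists_phi`), the
arithmetic condition `Good`, orbit counting (`card_mul_dvd`, `card_sub`). -/

set_option autoImplicit false
namespace H20.El
open H11 Module Polynomial

universe u
variable {F : Type u} [Field F] {V W : Type*} [AddCommGroup V] [Module F V] [AddCommGroup W]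
  [Module F W] [FiniteDimensional F V] [FiniteDimensional F W]

/-- `U` is `f`-invariant, with elementary divisors `s` -/
def HasED (f : End F V) (U : Submodule F V) (s : Multiset F[X]) : Prop :=
  ∃ h : ∀ x ∈ U, f x ∈ U, ED (f.restrict h) = s

/-- total degree -/
def dg (s : Multiset F[X]) : ℕ := (s.map natDegree).sum

@[simp] theorem dg_add (s t : Multiset F[X]) : dg (s + t) = dg s + dg t := by simp [dg]
@[simp] theorem dg_zero : dg (0 : Multiset F[X]) = 0 := rfl
@[simp] theorem dg_cons (P : F[X]) (s : Multiset F[X]) : dg (P ::ₘ s) = P.natDegree + dg s := by simp [dg]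
@[simp] theorem dg_singleton (P : F[X]) : dg {P} = P.natDegree := by simp [dg]
@[simp] theorem dg_replicate (k : ℕ) (P : F[X]) : dg (Multiset.replicate k P) = k * P.natDegree := by
  simp [dg]
@[simp] theorem dg_nsmul (k : ℕ) (s : Multiset F[X]) : dg (k • s) = k * dg s := by
  simp [dg, Multiset.map_nsmul, Multiset.sum_nsmul]
theorem dg_ED (f : End F V) : dg (ED f) = finrank F V := (finrank_eq_ED f).symm
theorem dg_mono {s t : Multiset F[X]} (h : s ≤ t) : dg s ≤ dg t := by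
  obtain ⟨u, rfl⟩ := Multiset.le_iff_exists_add.1 h
  simp

theorem map_le_iff {f : End F V} {U : Submodule F V} : U.map f ≤ U ↔ ∀ x ∈ U, f x ∈ U :=
  Submodule.map_le_iff_le_comap

theorem hasED_of {f : End F V} {U : Submodule F V} (h : ∀ x ∈ U, f x ∈ U) : ∃ s, HasED f U s :=
  ⟨_, h, rfl⟩

theorem hasED_top (f : End F V) : HasED f ⊤ (ED f) :=
  ⟨fun _ _ => trivial, sim_iff_ED.1 ⟨Submodule.topEquiv, fun _ => rfl⟩⟩

theorem ED_eq_zero [Subsingleton V] (f : End F V) : ED f = 0 := by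
  by_contra h
  obtain ⟨P, hP⟩ := Multiset.exists_mem_of_ne_zero h
  have h1 := natDegree_le_of_mem_ED hP
  obtain ⟨π, e, h2, h3, rfl⟩ := pp_ED f P hP
  rw [finrank_zero_of_subsingleton, h2.natDegree_pow] at h1
  have := h3.natDegree_pos
  have : 0 < (e + 1) * π.natDegree := by positivity
  omega

theorem hasED_bot (f : End F V) : HasED f ⊥ 0 :=
  ⟨fun x hx => by simp [(Submodule.mem_bot F).1 hx], ED_eq_zero _⟩

namespace HasED
variable {f : End F V} {g : End F W} {U U' : Submodule F V} {s t : Multiset F[X]}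

theorem inv (h : HasED f U s) : ∀ x ∈ U, f x ∈ U := h.1
theorem map_le (h : HasED f U s) : U.map f ≤ U := map_le_iff.2 h.1
theorem finrank_eq (h : HasED f U s) : finrank F U = dg s := by
  obtain ⟨h, rfl⟩ := h
  exact (dg_ED _).symm
theorem unique (h : HasED f U s) (h' : HasED f U t) : s = t := h.2.symm.trans h'.2
theorem pp (h : HasED f U s) : ∀ P ∈ s, PP P := by
  obtain ⟨h, rfl⟩ := h
  exact pp_ED _

theorem map {e : V →ₗ[F] W} (he : Function.Injective e) (hc : ∀ x, e (f x) = g (e x))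
    (h : HasED f U s) : HasED g (U.map e) s := by
  obtain ⟨h, rfl⟩ := h
  refine ⟨?_, (sim_iff_ED.1 ⟨Submodule.equivMapOfInjective e he U, fun x => Subtype.ext ?_⟩).symm⟩
  · rintro _ ⟨x, hx, rfl⟩
    exact ⟨f x, h x hx, hc x⟩
  · exact hc x

theorem range {e : V →ₗ[F] W} (he : Function.Injective e) (hc : ∀ x, e (f x) = g (e x)) :
    HasED g (LinearMap.range e) (ED f) := by
  rw [← Submodule.map_top]
  exact (hasED_top f).map he hc

theorem eq_top (h : HasED f ⊤ s) : ED f = s := (hasED_top f).unique h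

theorem comap (h : HasED f U s) (hU' : ∀ x ∈ U', f x ∈ U') (hle : U ≤ U') :
    HasED (f.restrict hU') (U.comap U'.subtype) s := by
  obtain ⟨h, rfl⟩ := h
  exact ⟨fun x hx => h x hx, sim_iff_ED.1 ⟨Submodule.comapSubtypeEquivOfLe hle, fun x => rfl⟩⟩

theorem add (hc : IsCompl U U') (h : HasED f U s) (h' : HasED f U' t) : ED f = s + t := by
  obtain ⟨h, rfl⟩ := h
  obtain ⟨h', rfl⟩ := h'
  rw [sim_iff_ED.1 (sim_of_isCompl hc h h'), ED_prodMap]

theorem sup (hd : Disjoint U U') (h : HasED f U s) (h' : HasED f U' t) : HasED f (U ⊔ U') (s + t) := by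
  have hi : ∀ x ∈ U ⊔ U', f x ∈ U ⊔ U' := map_le_iff.1 (by
    rw [Submodule.map_sup]; exact sup_le_sup h.map_le h'.map_le)
  refine ⟨hi, add ?_ (h.comap hi le_sup_left) (h'.comap hi le_sup_right)⟩
  refine ⟨?_, ?_⟩
  · rw [Submodule.disjoint_def] at hd ⊢
    exact fun x h1 h2 => Subtype.ext (hd _ h1 h2)
  · rw [codisjoint_iff, eq_top_iff]
    rintro ⟨x, hx⟩ -
    obtain ⟨a, ha, b, hb, rfl⟩ := Submodule.mem_sup.1 hx
    exact Submodule.mem_sup.2 ⟨⟨a, Submodule.mem_sup_left ha⟩, ha, ⟨b, Submodule.mem_sup_right hb⟩, hb, rfl⟩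

end HasED

theorem exists_split {f : End F V} {s t : Multiset F[X]} (h : ED f = s + t) :
    ∃ U U', IsCompl U U' ∧ HasED f U s ∧ HasED f U' t := by
  have hp : ∀ P ∈ s + t, PP P := h ▸ pp_ED f
  obtain ⟨e, he⟩ := (((ED_eq_iff hp).1 h).trans (sim_std_add s t)).symm
  refine ⟨_, _, (Submodule.orderIsoMapComap e).isCompl LinearMap.isCompl_range_inl_inr, ?_, ?_⟩
  · have := (HasED.range (f := std s) (g := (std s).prodMap (std t)) LinearMap.inl_injective
      (fun x => by simp)).map (e := e.toLinearMap) e.injective he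
    rwa [ED_std fun P hP => hp P (by simp [hP])] at this
  · have := (HasED.range (f := std t) (g := (std s).prodMap (std t)) LinearMap.inr_injective
      (fun x => by simp)).map (e := e.toLinearMap) e.injective he
    rwa [ED_std fun P hP => hp P (by simp [hP])] at this

theorem exists_hasED {f : End F V} {s : Multiset F[X]} (h : s ≤ ED f) : ∃ U, HasED f U s := by
  obtain ⟨t, ht⟩ := Multiset.le_iff_exists_add.1 h
  obtain ⟨U, -, -, h, -⟩ := exists_split ht
  exact ⟨U, h⟩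

theorem HasED.exists_split {f : End F V} {U : Submodule F V} {s t : Multiset F[X]}
    (h : HasED f U (s + t)) :
    ∃ A B, Disjoint A B ∧ A ⊔ B = U ∧ HasED f A s ∧ HasED f B t := by
  obtain ⟨h, h'⟩ := h
  obtain ⟨A, B, h1, h2, h3⟩ := El.exists_split h'
  refine ⟨_, _, ?_, ?_, h2.map (e := U.subtype) U.subtype_injective fun _ => rfl,
    h3.map (e := U.subtype) U.subtype_injective fun _ => rfl⟩
  · exact Submodule.disjoint_map U.subtype_injective h1.disjoint
  · rw [← Submodule.map_sup, h1.sup_eq_top, Submodule.map_top, Submodule.range_subtype]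

theorem ss_compl {f : End F V} (h : SS f) {U : Submodule F V} (hU : ∀ x ∈ U, f x ∈ U) :
    ∃ U', IsCompl U U' ∧ ∀ x ∈ U', f x ∈ U' := by
  classical
  have h1 : f.IsSemisimple := End.isSemisimple_of_squarefree_aeval_eq_zero
    (p := ∏ P ∈ (ED f).toFinset, P) (Finset.squarefree_prod_of_pairwise_isCoprime
    (fun P hP Q hQ hPQ => by
      simp only [Finset.mem_coe, Multiset.mem_toFinset] at hP hQ
      exact (coprime_of_ne (pp_ED f P hP).monic (h P hP) (pp_ED f Q hQ).monic (h Q hQ) hPQ).isRelPrime)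
    fun P hP => (h P (by simpa using hP)).squarefree) ((aeval_eq_zero_iff_ED (f := f)).2 fun P hP =>
      Finset.dvd_prod_of_mem (fun P => P) (Multiset.mem_toFinset.2 hP))
  obtain ⟨U', h2, h3⟩ := End.isSemisimple_iff.1 h1 U hU
  exact ⟨U', h3, h2⟩

theorem HasED.le {f : End F V} (hf : SS f) {U : Submodule F V} {s : Multiset F[X]} (h : HasED f U s) :
    s ≤ ED f := by
  obtain ⟨U', h1, h2⟩ := ss_compl hf h.inv
  obtain ⟨t, ht⟩ := hasED_of h2
  rw [h.add h1 ht]
  exact Multiset.le_add_right _ _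

theorem HasED.mono {f : End F V} (hf : SS f) {U U' : Submodule F V} {s t : Multiset F[X]}
    (h : HasED f U s) (h' : HasED f U' t) (hle : U ≤ U') : s ≤ t := by
  have := (h.comap h'.inv hle).le (hf.restrict _)
  rwa [h'.2] at this

theorem exists_le_map {α β : Type*} {φ : α → β} {s : Multiset α} {ν : Multiset β} (h : ν ≤ s.map φ) :
    ∃ t ≤ s, t.map φ = ν := by
  classical
  induction ν using Multiset.induction_on generalizing s with
  | empty => exact ⟨0, Multiset.zero_le _, rfl⟩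
  | cons b ν ih =>
    obtain ⟨a, ha, rfl⟩ := Multiset.mem_map.1 (Multiset.mem_of_le h (Multiset.mem_cons_self _ _))
    obtain ⟨s, rfl⟩ := Multiset.exists_cons_of_mem ha
    rw [Multiset.map_cons, Multiset.cons_le_cons_iff] at h
    obtain ⟨t, h1, h2⟩ := ih h
    exact ⟨a ::ₘ t, Multiset.cons_le_cons _ h1, by simp [h2]⟩

theorem exists_add_map {α β : Type*} {φ : α → β} {s : Multiset α} {ν μ : Multiset β}
    (h : s.map φ = ν + μ) : ∃ t u, s = t + u ∧ t.map φ = ν ∧ u.map φ = μ := by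
  obtain ⟨t, h1, h2⟩ := exists_le_map (h ▸ Multiset.le_add_right ν μ)
  obtain ⟨u, rfl⟩ := Multiset.le_iff_exists_add.1 h1
  rw [Multiset.map_add, h2, add_right_inj] at h
  exact ⟨t, u, rfl, h2, h⟩

theorem compl_iff {f : End F V} {m : ℕ} :
    (∃ U U' : Submodule F V, IsCompl U U' ∧ finrank F U = m ∧ U.map f ≤ U ∧ U'.map f ≤ U') ↔
      ∃ ν ≤ JT f, ν.sum = m := by
  constructor
  · rintro ⟨U, U', h1, rfl, h2, h3⟩
    obtain ⟨s, hs⟩ := hasED_of (map_le_iff.1 h2)
    obtain ⟨t, ht⟩ := hasED_of (map_le_iff.1 h3)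
    exact ⟨s.map natDegree, Multiset.map_le_map (hs.add h1 ht ▸ Multiset.le_add_right _ _),
      hs.finrank_eq.symm⟩
  · rintro ⟨ν, h1, rfl⟩
    obtain ⟨s, h2, rfl⟩ := exists_le_map h1
    obtain ⟨t, ht⟩ := Multiset.le_iff_exists_add.1 h2
    obtain ⟨U, U', h3, h4, h5⟩ := exists_split ht
    exact ⟨U, U', h3, h4.finrank_eq, h4.map_le, h5.map_le⟩

theorem inv_iff {f : End F V} (hf : SS f) {m : ℕ} :
    (∃ U : Submodule F V, finrank F U = m ∧ U.map f ≤ U) ↔ ∃ ν ≤ JT f, ν.sum = m := by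
  rw [← compl_iff]
  refine ⟨fun ⟨U, h1, h2⟩ => ?_, fun ⟨U, _, _, h1, h2, _⟩ => ⟨U, h1, h2⟩⟩
  obtain ⟨U', h3, h4⟩ := ss_compl hf (map_le_iff.1 h2)
  exact ⟨U, U', h3, h1, h2, map_le_iff.2 h4⟩

theorem flag_iff {f : End F V} (hf : SS f) {m k : ℕ} :
    (∃ U U' : Submodule F V, U ≤ U' ∧ finrank F U = m ∧ finrank F U' = k ∧ U.map f ≤ U ∧ U'.map f ≤ U') ↔
      ∃ ν μ, ν + μ ≤ JT f ∧ ν.sum = m ∧ (ν + μ).sum = k := by
  constructor
  · rintro ⟨U, U', h1, rfl, rfl, h2, h3⟩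
    obtain ⟨s, hs⟩ := hasED_of (map_le_iff.1 h2)
    obtain ⟨t, ht⟩ := hasED_of (map_le_iff.1 h3)
    obtain ⟨u, rfl⟩ := Multiset.le_iff_exists_add.1 (hs.mono hf ht h1)
    refine ⟨s.map natDegree, u.map natDegree, ?_, hs.finrank_eq.symm, ?_⟩
    · rw [← Multiset.map_add]; exact Multiset.map_le_map (ht.le hf)
    · rw [← Multiset.map_add]; exact ht.finrank_eq.symm
  · rintro ⟨ν, μ, h1, rfl, rfl⟩
    obtain ⟨s, h2, h3⟩ := exists_le_map h1
    obtain ⟨t, u, rfl, rfl, rfl⟩ := exists_add_map h3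
    obtain ⟨U', h4⟩ := exists_hasED h2
    obtain ⟨A, B, -, h5, h6, -⟩ := h4.exists_split
    exact ⟨A, U', h5 ▸ le_sup_left, h6.finrank_eq, by rw [h4.finrank_eq, ← h3]; rfl, h6.map_le, h4.map_le⟩

omit [FiniteDimensional F V] in
theorem map_smul_le {f : End F V} {U U' : Submodule F V} (c : F) (h : U.map f ≤ U') : U.map (c • f) ≤ U' :=
  Submodule.map_le_iff_le_comap.2 fun x hx => U'.smul_mem c (h ⟨x, hx, rfl⟩)

/-! ### maps with scalar `r`-th power -/

theorem ne_zero_of_pow {f : End F V} (hd : LinearMap.det f ≠ 0) {r : ℕ} (hr : r ≠ 0) {z : F}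
    (h : f ^ r = z • 1) (hn : ∀ z : F, f ≠ z • 1) : z ≠ 0 := by
  rintro rfl
  have h1 : IsUnit (f ^ r) := ((LinearMap.isUnit_iff_isUnit_det f).2 hd.isUnit).pow r
  rw [h, zero_smul] at h1
  exact hn 0 (by rw [← mul_one f, ← isUnit_zero_iff.1 h1]; simp)

theorem all_of {r : ℕ} (hr : r.Prime) {Φ : End F V → Prop} (hΦ : ∀ f (c : F), c ≠ 0 → Φ f → Φ (c • f))
    (h1 : ∀ g : End F V, g ^ r = 1 → (∀ z : F, g ≠ z • 1) → Φ g)
    (h2 : ∀ (g : End F V) (z : F), Irreducible (X ^ r - C z) → g ^ r = z • 1 → LinearMap.det g = 1 →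
      (∀ z : F, g ≠ z • 1) → Φ g)
    (f : End F V) (hd : LinearMap.det f = 1) (hp : ∃ z : F, f ^ r = z • 1) (hn : ∀ z : F, f ≠ z • 1) : Φ f := by
  obtain ⟨z, hz⟩ := hp
  have h0 := ne_zero_of_pow (hd ▸ one_ne_zero) hr.ne_zero hz hn
  by_cases h : ∃ c, c ^ r = z
  · obtain ⟨c, rfl⟩ := h
    have hc : c ≠ 0 := fun h => h0 (by simp [h, hr.ne_zero])
    have := hΦ _ c hc (h1 (c⁻¹ • f) (by rw [_root_.smul_pow, hz, smul_smul]; simp [h0]) fun w hw =>
      hn (c * w) (by rw [← smul_smul, ← hw, smul_smul]; simp [hc]))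
    rwa [smul_smul, mul_inv_cancel₀ hc, one_smul] at this
  · exact h2 f z (X_pow_sub_C_irreducible_of_prime hr (not_exists.1 h)) hz hd hn

theorem ne_one_of {g : End F V} (h : ∀ z : F, g ≠ z • 1) : g ≠ 1 := by simpa using h 1

theorem natDegree_X_sub_one : (X - 1 : F[X]).natDegree = 1 := by simpa using natDegree_X_sub_one_pow (F := F) 1

theorem ed_of_pow {r : ℕ} (hr : r.Prime) (h0 : (r : F) ≠ 0) {g : End F V} (h : g ^ r = 1) :
    SS g ∧ ∃ e s, ED g = Multiset.replicate e (X - 1) + s ∧ (∀ P ∈ s, P ∈ PhiF F r) ∧ (g ≠ 1 → s ≠ 0) := by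
  obtain ⟨e, he⟩ := ED_eq_nED g
  exact ⟨ss_of_pow_eq_one h0 h, e, _, he, mem_PhiF_of_pow hr h0 h, fun h1 h2 => h1 (nED_eq_zero.1 h2)⟩

theorem map_deg_phi [Finite F] {r : ℕ} (hr : r.Prime) (h0 : (r : F) ≠ 0) {s : Multiset F[X]}
    (hs : ∀ P ∈ s, P ∈ PhiF F r) :
    s.map natDegree = Multiset.replicate s.card (orderOf (Nat.card F : ZMod r)) :=
  Multiset.eq_replicate.2 ⟨by simp, fun b hb => by
    obtain ⟨P, hP, rfl⟩ := Multiset.mem_map.1 hb
    exact (PhiF_spec hr h0).1 P (hs P hP)⟩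

theorem jt_of_pow [Finite F] {r : ℕ} (hr : r.Prime) (h0 : (r : F) ≠ 0) {g : End F V} (h : g ^ r = 1) :
    SS g ∧ ∃ e s, JT g = Multiset.replicate e 1 + Multiset.replicate s (orderOf (Nat.card F : ZMod r)) ∧
      (g ≠ 1 → 0 < s) := by
  obtain ⟨h1, e, s, h2, h3, h4⟩ := ed_of_pow hr h0 h
  refine ⟨h1, e, s.card, ?_, fun h => Multiset.card_pos.2 (h4 h)⟩
  rw [JT, h2, Multiset.map_add, map_deg_phi hr h0 h3, Multiset.map_replicate, natDegree_X_sub_one]

theorem det_eq_ED (f : End F V) :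
    LinearMap.det f = (-1) ^ finrank F V * ((ED f).map fun P => P.coeff 0).prod := by
  rw [LinearMap.det_eq_sign_charpoly_coeff, charpoly_eq_prod_ED, coeff_zero_multiset_prod]

theorem irr_spec {r : ℕ} (hr : r ≠ 0) {z : F} (hz : Irreducible (X ^ r - C z)) {g : End F V}
    (h : g ^ r = z • 1) : SS g ∧ ∃ s, ED g = Multiset.replicate s (X ^ r - C z) ∧ s * r = finrank F V ∧
      JT g = Multiset.replicate s r ∧ LinearMap.det g = ((-1) ^ (r + 1) * z) ^ s := by
  have h1 : aeval g (X ^ r - C z) = 0 := by simp [h, Algebra.algebraMap_eq_smul_one]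
  have h2 := ss_of_squarefree hz.squarefree h1
  have h3 : ED g = Multiset.replicate (ED g).card (X ^ r - C z) :=
    Multiset.eq_replicate.2 ⟨rfl, fun P hP => eq_of_monic_of_associated (pp_ED g P hP).monic
      (monic_X_pow_sub_C z hr) ((h2 P hP).associated_of_dvd hz (aeval_eq_zero_iff_ED.1 h1 P hP))⟩
  have h4 : (ED g).card * r = finrank F V := by
    rw [← dg_ED g, h3]; simp
  refine ⟨h2, _, h3, h4, by rw [JT, h3]; simp, ?_⟩
  rw [det_eq_ED, ← h4]
  generalize (ED g).card = s at h3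
  rw [h3]
  simp [hr.symm, coeff_X_pow, mul_pow, ← pow_mul, neg_pow z]
  ring

theorem exists_irr {r : ℕ} (hr : 2 ≤ r) {z : F} (hz : Irreducible (X ^ r - C z)) {s : ℕ} (hs : 0 < s)
    (h : s * r = finrank F V) : ∃ g : End F V, g ^ r = z • 1 ∧ ∀ c : F, g ≠ c • 1 := by
  obtain ⟨g, hg⟩ := exists_ED_eq (V := V) (s := Multiset.replicate s (X ^ r - C z))
    (fun P hP => Multiset.eq_of_mem_replicate hP ▸ PP.of_irr (monic_X_pow_sub_C z (by omega)) hz)
    (by simpa using h)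
  refine ⟨g, ?_, fun c hc => ?_⟩
  · have : aeval g (X ^ r - C z) = 0 := aeval_eq_zero_iff_ED.2 fun P hP => by
      rw [hg] at hP; rw [Multiset.eq_of_mem_replicate hP]
    simpa [sub_eq_zero, Algebra.algebraMap_eq_smul_one] using this
  · have : aeval g (X - C c) = 0 := by simp [hc, Algebra.algebraMap_eq_smul_one]
    have := natDegree_le_of_dvd (aeval_eq_zero_iff_ED.1 this (X ^ r - C z)
      (hg ▸ Multiset.mem_replicate.2 ⟨hs.ne', rfl⟩)) (X_sub_C_ne_zero c)
    simp at this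
    omega

theorem not_scalar_of_mem {g : End F V} {P : F[X]} (hP : P ∈ ED g) (h : 2 ≤ P.natDegree) (c : F) :
    g ≠ c • 1 := fun hc => by
  have : aeval g (X - C c) = 0 := by simp [hc, Algebra.algebraMap_eq_smul_one]
  have := natDegree_le_of_dvd (aeval_eq_zero_iff_ED.1 this P hP) (X_sub_C_ne_zero c)
  simp at this
  omega

theorem not_scalar_of_two {g : End F V} {P Q : F[X]} (hP : P ∈ ED g) (hQ : Q ∈ ED g) (h : P ≠ Q) (c : F) :
    g ≠ c • 1 := fun hc => by
  have h1 : aeval g (X - C c) = 0 := by simp [hc, Algebra.algebraMap_eq_smul_one]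
  have h2 : ∀ P ∈ ED g, P = X - C c := fun P hP => by
    obtain ⟨π, e, h3, h4, rfl⟩ := pp_ED g P hP
    refine eq_of_monic_of_associated (h3.pow _) (monic_X_sub_C c) ?_
    rcases (irreducible_X_sub_C c).dvd_iff.1 (aeval_eq_zero_iff_ED.1 h1 _ hP) with h | h
    · exact absurd ((isUnit_pow_iff (by omega)).1 h) h4.not_isUnit
    · exact h.symm
  exact h ((h2 P hP).trans (h2 Q hQ).symm)

theorem orderOf_eq_one_iff {q r : ℕ} (hq : 0 < q) : orderOf (q : ZMod r) = 1 ↔ r ∣ q - 1 := by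
  rw [_root_.orderOf_eq_one_iff, ← ZMod.natCast_eq_zero_iff, Nat.cast_sub hq, sub_eq_zero, Nat.cast_one]

theorem eq_one_of_pow [Finite F] {r : ℕ} (hr : r.Prime) (hi : orderOf (Nat.card F : ZMod r) ≠ 1) {c : F}
    (h : c ^ r = 1) : c = 1 := by
  have := Fintype.ofFinite F
  have h0 : c ≠ 0 := by rintro rfl; simp [hr.ne_zero] at h
  have h1 := FiniteField.pow_card_sub_one_eq_one c h0
  rw [Ne, orderOf_eq_one_iff Nat.card_pos, Nat.card_eq_fintype_card] at hi
  rw [← _root_.orderOf_eq_one_iff, ← Nat.dvd_one, ← ((Nat.Prime.coprime_iff_not_dvd hr).2 hi).gcd_eq_one]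
  exact Nat.dvd_gcd (orderOf_dvd_of_pow_eq_one h) (orderOf_dvd_of_pow_eq_one h1)

theorem exists_phi {r : ℕ} {e : ℕ} {s : Multiset F[X]} (hs : ∀ P ∈ s, P ∈ PhiF F r)
    (h : e + dg s = finrank F V) : ∃ g : End F V, ED g = Multiset.replicate e (X - 1) + s ∧ g ^ r = 1 := by
  obtain ⟨g, hg⟩ := exists_ED_eq (V := V) (s := Multiset.replicate e (X - 1) + s) (fun P hP => by
    rcases Multiset.mem_add.1 hP with hP | hP
    · exact Multiset.eq_of_mem_replicate hP ▸ PP.of_irr monic_X_sub_one irreducible_X_sub_one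
    · exact PP.of_irr (mem_PhiF.1 (hs P hP)).2.1 (mem_PhiF.1 (hs P hP)).1)
    (by rw [← h]; change dg _ = _; simp [natDegree_X_sub_one])
  refine ⟨g, hg, pow_eq_one_iff_ED.2 fun P hP => ?_⟩
  rcases Multiset.mem_add.1 (hg ▸ hP) with hP | hP
  · rw [Multiset.eq_of_mem_replicate hP]; simpa using sub_dvd_pow_sub_pow (X : F[X]) 1 r
  · exact dvd_of_mem_PhiF (hs P hP)

theorem exists_mem_PhiF [Finite F] {r : ℕ} (hr : r.Prime) (h0 : (r : F) ≠ 0) : ∃ P, P ∈ PhiF F r := by
  have h := (PhiF_spec hr h0).2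
  have := hr.two_le
  refine Finset.card_pos.1 (Nat.pos_of_ne_zero fun h1 => ?_)
  rw [h1] at h; omega

theorem exists_jt [Finite F] {r : ℕ} (hr : r.Prime) (h0 : (r : F) ≠ 0)
    (hi : 2 ≤ orderOf (Nat.card F : ZMod r)) {e s : ℕ} (hs : 0 < s)
    (h : e + s * orderOf (Nat.card F : ZMod r) = finrank F V) {P : F[X]} (hP : P ∈ PhiF F r) :
    ∃ g : End F V, LinearMap.det g = 1 ∧ g ^ r = 1 ∧ (∀ c : F, g ≠ c • 1) ∧
      ED g = Multiset.replicate e (X - 1) + Multiset.replicate s P ∧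
      JT g = Multiset.replicate e 1 + Multiset.replicate s (orderOf (Nat.card F : ZMod r)) := by
  have h1 := (PhiF_spec hr h0).1 P hP
  obtain ⟨g, h2, h3⟩ := exists_phi (V := V) (r := r) (e := e) (s := Multiset.replicate s P)
    (fun Q hQ => Multiset.eq_of_mem_replicate hQ ▸ hP) (by simpa [h1] using h)
  refine ⟨g, eq_one_of_pow hr (by omega) (by rw [← map_pow, h3, map_one]), h3,
    not_scalar_of_mem (P := P) (by simp [h2, Multiset.mem_replicate, hs.ne']) (by omega), h2, ?_⟩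
  simp [JT, h2, h1, natDegree_X_sub_one]

/-! ### arithmetic -/

theorem cyc_iff {G : Type*} [CommGroup G] [Finite G] [IsCyclic G] {r : ℕ} [hr : Fact r.Prime]
    (h : r ∣ Nat.card G) {s : ℕ} (hs : s ≠ 0) :
    (∃ w : G, (∀ c, c ^ r ≠ w) ∧ w ^ s = 1) ↔ padicValNat r (Nat.card G) ≤ padicValNat r s := by
  obtain ⟨γ, hγ⟩ := IsCyclic.exists_ofOrder_eq_natCard (α := G)
  have hN : Nat.card G ≠ 0 := Nat.card_pos.ne'
  have hgen : ∀ x : G, ∃ j : ℕ, γ ^ j = x := fun x => by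
    have : Subgroup.zpowers γ = ⊤ := Subgroup.eq_top_of_card_eq _ (by rw [Nat.card_zpowers, hγ])
    exact (mem_powers_iff_mem_zpowers.2 (this ▸ Subgroup.mem_top x) :)
  rw [← padicValNat_dvd_iff_le hs]
  constructor
  · rintro ⟨w, h1, h2⟩
    obtain ⟨j, rfl⟩ := hgen w
    have h3 : ¬ r ∣ j := by
      rintro ⟨k, rfl⟩
      exact h1 (γ ^ k) (by rw [← pow_mul, mul_comm])
    rw [← pow_mul, ← orderOf_dvd_iff_pow_eq_one, hγ] at h2
    exact (((Nat.Prime.coprime_iff_not_dvd hr.out).2 h3).pow_left _).dvd_of_dvd_mul_left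
      (pow_padicValNat_dvd.trans h2)
  · rintro ⟨k, rfl⟩
    obtain ⟨m, hm⟩ := pow_padicValNat_dvd (p := r) (n := Nat.card G)
    have h3 : ¬ r ∣ m := fun ⟨l, hl⟩ => pow_succ_padicValNat_not_dvd (p := r) hN
      ⟨l, by rw [pow_succ, mul_assoc, ← hl, ← hm]⟩
    refine ⟨γ ^ m, fun c hc => h3 ?_, ?_⟩
    · obtain ⟨j, rfl⟩ := hgen c
      rw [← pow_mul, pow_eq_pow_iff_modEq, hγ] at hc
      exact (Nat.modEq_zero_iff_dvd.1 (((hc.of_dvd h).symm.trans
        (Nat.modEq_zero_iff_dvd.2 (Dvd.intro_left _ rfl)))))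
    · rw [← pow_mul, ← orderOf_dvd_iff_pow_eq_one, hγ]
      exact ⟨k, by conv_lhs => rw [← mul_assoc, mul_comm m, ← hm]⟩

/-- no element of `SL_n(q)` has irreducible `X ^ r - z` as its minimal polynomial -/
def Good (r n q : ℕ) : Prop := padicValNat r n ≤ padicValNat r (q - 1) ∧ (r = 2 → Even n → q % 4 = 1)

theorem units_iff [Finite F] {r : ℕ} [hr : Fact r.Prime] (h : r ∣ Nat.card F - 1) {s : ℕ} (hs : s ≠ 0) :
    (∃ w : F, (∀ c, c ^ r ≠ w) ∧ w ^ s = 1) ↔ padicValNat r (Nat.card F - 1) ≤ padicValNat r s := by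
  classical
  rw [← Nat.card_units] at h ⊢
  rw [← cyc_iff h hs]
  constructor
  · rintro ⟨w, h1, h2⟩
    have h0 : w ≠ 0 := by rintro rfl; exact h1 0 (by simp [hr.out.ne_zero])
    exact ⟨Units.mk0 w h0, fun c hc => h1 c (by simpa using congrArg Units.val hc), Units.ext (by simpa)⟩
  · rintro ⟨w, h1, h2⟩
    refine ⟨w, fun c hc => ?_, by simpa using congrArg Units.val h2⟩
    have h0 : c ≠ 0 := by rintro rfl; exact w.ne_zero (by simpa [hr.out.ne_zero] using hc.symm)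
    exact h1 (Units.mk0 c h0) (Units.ext (by simpa))

theorem dvd_of_not_pow [Finite F] {r : ℕ} (hr : r.Prime) {z : F} (h : ∀ c, c ^ r ≠ z) :
    orderOf (Nat.card F : ZMod r) = 1 := by
  by_contra hi
  have : Function.Injective fun c : F => c ^ r := fun a b hab => by
    by_cases hb : b = 0
    · simpa [hb, hr.ne_zero] using hab
    · have := eq_one_of_pow hr hi (c := a / b) (by rw [div_pow, div_eq_one_iff_eq (pow_ne_zero _ hb)]; exact hab)
      exact (div_eq_one_iff_eq hb).1 this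
  obtain ⟨c, hc⟩ := Finite.injective_iff_surjective.1 this z
  exact h c hc

theorem bad_iff [Finite F] {r : ℕ} [hr : Fact r.Prime] (h : orderOf (Nat.card F : ZMod r) = 1) {s : ℕ}
    (hs : s ≠ 0) : (∃ z : F, (∀ c, c ^ r ≠ z) ∧ ((-1) ^ (r + 1) * z) ^ s = 1) ↔ ¬ Good r (s * r) (Nat.card F) := by
  have := Fintype.ofFinite F
  rw [orderOf_eq_one_iff Nat.card_pos] at h
  have h1 := units_iff h hs
  have h2 : padicValNat r (s * r) = padicValNat r s + 1 := by
    rw [padicValNat.mul hs hr.out.ne_zero, padicValNat_self]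
  rcases hr.out.eq_two_or_odd' with rfl | h3
  · have h4 : 1 < Nat.card F := Finite.one_lt_card
    by_cases h5 : Nat.card F % 4 = 3
    · refine iff_of_true ⟨-1, fun c hc => ?_, by norm_num⟩ fun h => by have := h.2 rfl (by simp); omega
      have := FiniteField.isSquare_neg_one_iff.1 ⟨c, by rw [← hc, sq]⟩
      rw [← Nat.card_eq_fintype_card] at this
      exact this h5
    · obtain ⟨j, hj⟩ := (FiniteField.isSquare_neg_one_iff (F := F)).2 (by rwa [← Nat.card_eq_fintype_card])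
      have h6 : ¬ Good 2 (s * 2) (Nat.card F) ↔ padicValNat 2 (Nat.card F - 1) ≤ padicValNat 2 s := by
        rw [Good, h2]; omega
      rw [h6, ← h1]
      constructor
      · rintro ⟨z, h7, h8⟩
        exact ⟨-z, fun c hc => h7 (j * c) (by rw [mul_pow, hc, sq, ← hj]; ring), by rw [← h8]; ring⟩
      · rintro ⟨z, h7, h8⟩
        exact ⟨-z, fun c hc => h7 (j * c) (by rw [mul_pow, hc, sq, ← hj]; ring),
          by rw [show (-1 : F) ^ (2 + 1) * -z = z by ring, h8]⟩
  · have h6 : ¬ Good r (s * r) (Nat.card F) ↔ padicValNat r (Nat.card F - 1) ≤ padicValNat r s := by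
      have : r ≠ 2 := by rintro rfl; exact absurd h3 (by decide)
      rw [Good, h2]; simp [this]
    simp only [h6, ← h1, h3.add_one.neg_one_pow, one_mul]

theorem dvd_of_bad {r n q : ℕ} [Fact r.Prime] (h : ¬ Good r n q) : r ∣ n := by
  by_contra h1
  refine h ⟨by simp [padicValNat.eq_zero_of_not_dvd h1], ?_⟩
  rintro rfl h2
  exact absurd h2.two_dvd h1

theorem exists_bad [Finite F] {r : ℕ} [hr : Fact r.Prime] (h : orderOf (Nat.card F : ZMod r) = 1)
    (hV : 0 < finrank F V) (hb : ¬ Good r (finrank F V) (Nat.card F)) :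
    ∃ (g : End F V) (z : F), LinearMap.det g = 1 ∧ g ^ r = z • 1 ∧ (∀ c : F, g ≠ c • 1) ∧
      Irreducible (X ^ r - C z) := by
  obtain ⟨s, hs⟩ := dvd_of_bad hb
  rw [mul_comm] at hs
  have h0 : s ≠ 0 := by rintro rfl; omega
  obtain ⟨z, h1, h2⟩ := (bad_iff h h0).2 (hs ▸ hb)
  have h3 := X_pow_sub_C_irreducible_of_prime hr.out h1
  obtain ⟨g, h4, h5⟩ := exists_irr (V := V) hr.out.two_le h3 (Nat.pos_of_ne_zero h0) hs.symm
  obtain ⟨-, s', -, h6, -, h7⟩ := irr_spec hr.out.ne_zero h3 h4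
  obtain rfl : s' = s := Nat.eq_of_mul_eq_mul_right hr.out.pos (h6.trans hs)
  exact ⟨g, z, h7.trans h2, h4, h5, h3⟩

theorem not_pow_of_irr {r : ℕ} (hr : 2 ≤ r) {z : F} (h : Irreducible (X ^ r - C z)) (c : F) : c ^ r ≠ z :=
  pow_ne_of_irreducible_X_pow_sub_C h dvd_rfl (by omega) c

theorem bad_of [Finite F] {r : ℕ} [hr : Fact r.Prime] {g : End F V} {z : F} (h : Irreducible (X ^ r - C z))
    (h1 : g ^ r = z • 1) (h2 : LinearMap.det g = 1) (hV : 0 < finrank F V) :
    orderOf (Nat.card F : ZMod r) = 1 ∧ ¬ Good r (finrank F V) (Nat.card F) := by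
  have h3 := not_pow_of_irr hr.out.two_le h
  obtain ⟨-, s, -, h6, -, h7⟩ := irr_spec hr.out.ne_zero h h1
  have h0 : s ≠ 0 := by rintro rfl; omega
  exact ⟨dvd_of_not_pow hr.out h3, h6 ▸ (bad_iff (dvd_of_not_pow hr.out h3) h0).1 ⟨z, h3, h7.symm.trans h2⟩⟩

theorem le_rep_iff {a b e s : ℕ} {ν : Multiset ℕ} :
    ν ≤ Multiset.replicate e a + Multiset.replicate s b ↔
      ∃ e' ≤ e, ∃ s' ≤ s, ν = Multiset.replicate e' a + Multiset.replicate s' b := by
  constructor
  · intro h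
    obtain ⟨e', h1, h2⟩ := Multiset.le_replicate_iff.1 (Multiset.inter_le_right (s := ν) (t := .replicate e a))
    obtain ⟨s', h3, h4⟩ := Multiset.le_replicate_iff.1 (show ν - .replicate e a ≤ .replicate s b from
      Multiset.sub_le_iff_le_add.2 (by rwa [add_comm]))
    exact ⟨e', h1, s', h3, by rw [← h2, ← h4, add_comm, Multiset.sub_add_inter]⟩
  · rintro ⟨e', h1, s', h2, rfl⟩
    exact add_le_add ((Multiset.replicate_le_replicate _).2 h1) ((Multiset.replicate_le_replicate _).2 h2)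

theorem sum_rep_iff {b e s m : ℕ} : (∃ ν ≤ Multiset.replicate e 1 + Multiset.replicate s b, ν.sum = m) ↔
    ∃ e' ≤ e, ∃ s' ≤ s, e' + s' * b = m := by
  simp only [le_rep_iff]
  constructor
  · rintro ⟨_, ⟨e', h1, s', h2, rfl⟩, h⟩
    exact ⟨e', h1, s', h2, by simpa using h⟩
  · rintro ⟨e', h1, s', h2, rfl⟩
    exact ⟨_, ⟨e', h1, s', h2, rfl⟩, by simp⟩

/-! ### counting -/

theorem card_mul_dvd {G X K : Type*} [Group G] [MulAction G X] [Group K] (x : X) (p : X → Prop)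
    (hs : ∀ y, p y ↔ ∃ g : G, g • x = y) (φ : K →* G) (hφ : Function.Injective φ) (h : ∀ k, φ k • x = x) :
    Nat.card {y // p y} * Nat.card K ∣ Nat.card G := by
  rw [card_eq_orbit_mul x p hs]
  exact Nat.mul_dvd_mul_left _ (Subgroup.card_dvd_of_injective (φ.codRestrict (MulAction.stabilizer G x) h)
    fun a b hab => hφ (congrArg Subtype.val hab))

theorem card_sub [Finite F] (U : Submodule F V) {m : ℕ} (hm : m ≤ finrank F U) :
    Nat.card {A : Submodule F V // A ≤ U ∧ finrank F A = m} * ∏ i : Fin m, (Nat.card F ^ m - Nat.card F ^ i.1) =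
      ∏ i : Fin m, (Nat.card F ^ finrank F U - Nat.card F ^ i.1) := by
  have := Fintype.ofFinite F
  have : Finite V := Module.finite_of_finite F
  rw [Nat.card_eq_fintype_card (α := F), ← card_linearIndependent hm]
  symm
  refine card_eq_of_fibers (fun s => ⟨(Submodule.span F (Set.range s.1)).map U.subtype, Submodule.map_subtype_le _ _,
    by rw [Submodule.finrank_map_subtype_eq, finrank_span_eq_card s.2, Fintype.card_fin]⟩) _ fun ⟨A, h1, h2⟩ => ?_
  subst h2
  rw [← card_linearIndependent le_rfl]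
  refine Nat.card_congr ⟨fun s => ⟨fun i => ⟨s.1.1 i, ?_⟩, ?_⟩,
    fun s => ⟨⟨fun i => ⟨s.1 i, h1 (s.1 i).2⟩, ?_⟩, ?_⟩, fun _ => rfl, fun _ => rfl⟩
  · exact (congrArg Subtype.val s.2).le ⟨_, Submodule.subset_span ⟨i, rfl⟩, rfl⟩
  · exact LinearIndependent.of_comp A.subtype (s.1.2.map' U.subtype U.ker_subtype)
  · exact LinearIndependent.of_comp U.subtype (s.2.map' A.subtype A.ker_subtype)
  · refine Subtype.ext (Submodule.eq_of_le_of_finrank_eq ?_ ?_)
    · dsimp only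
      rw [Submodule.map_span, Submodule.span_le]
      rintro _ ⟨_, ⟨i, rfl⟩, rfl⟩
      exact (s.1 i).2
    · dsimp only
      rw [Submodule.finrank_map_subtype_eq, finrank_span_eq_card, Fintype.card_fin]
      exact LinearIndependent.of_comp U.subtype (s.2.map' A.subtype A.ker_subtype)

theorem exists_sub {m : ℕ} (h : m ≤ finrank F V) : ∃ U : Submodule F V, finrank F U = m := by
  obtain ⟨s, hs⟩ := exists_linearIndependent_of_le_finrank h
  exact ⟨_, (finrank_span_eq_card hs).trans (Fintype.card_fin _)⟩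

/-- the `p'`-part of `|GL_n(q)|` -/
def gO (q n : ℕ) : ℕ := ∏ j ∈ Finset.range n, (q ^ (j + 1) - 1)

theorem gO_pos {q : ℕ} (hq : 1 < q) (n : ℕ) : 0 < gO q n :=
  Finset.prod_pos fun j _ => Nat.sub_pos_of_lt (Nat.one_lt_pow (by omega) hq)

theorem gO_succ (q n : ℕ) : gO q (n + 1) = gO q n * (q ^ (n + 1) - 1) := Finset.prod_range_succ _ _

theorem prod_sub_mul (q : ℕ) {n m : ℕ} (h : m ≤ n) :
    (∏ i : Fin m, (q ^ n - q ^ i.1)) * gO q (n - m) = q ^ m.choose 2 * gO q n := by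
  induction m with
  | zero => simp
  | succ m ih =>
    obtain ⟨k, rfl⟩ := Nat.exists_eq_add_of_le h
    have h1 := ih (by omega)
    rw [show m + 1 + k - m = k + 1 by omega, gO_succ] at h1
    rw [Fin.prod_univ_castSucc, show m + 1 + k - (m + 1) = k by omega, Nat.choose_succ_succ', Nat.choose_one_right,
      pow_add q m (m.choose _), mul_assoc (q ^ m), ← h1]
    simp only [Fin.val_castSucc, Fin.val_last]
    rw [show q ^ (m + 1 + k) - q ^ m = q ^ m * (q ^ (k + 1) - 1) by rw [Nat.mul_sub, ← pow_add]; congr 2 <;> omega]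
    ring

theorem card_gl [Finite F] : Nat.card (V ≃ₗ[F] V) =
    Nat.card F ^ (finrank F V).choose 2 * gO (Nat.card F) (finrank F V) := by
  rw [card_linearEquiv V rfl, ← prod_sub_mul _ le_rfl]; simp [gO]

theorem card_sub' [Finite F] (U : Submodule F V) {m : ℕ} (hm : m ≤ finrank F U) :
    Nat.card {A : Submodule F V // A ≤ U ∧ finrank F A = m} * gO (Nat.card F) m * gO (Nat.card F) (finrank F U - m) =
      gO (Nat.card F) (finrank F U) := by
  have h1 := prod_sub_mul (Nat.card F) hm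
  have h2 := prod_sub_mul (Nat.card F) (le_refl m)
  rw [Nat.sub_self, show gO (Nat.card F) 0 = 1 from rfl, mul_one] at h2
  rw [← card_sub U hm, h2] at h1
  refine Nat.eq_of_mul_eq_mul_left (pow_pos (Nat.card_pos (α := F)) (m.choose 2)) ?_
  rw [← h1]; ring

theorem card_sub_top [Finite F] {m : ℕ} (hm : m ≤ finrank F V) :
    Nat.card {A : Submodule F V // finrank F A = m} * gO (Nat.card F) m * gO (Nat.card F) (finrank F V - m) =
      gO (Nat.card F) (finrank F V) := by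
  simpa using card_sub' (⊤ : Submodule F V) (by simpa using hm)

theorem card_flag [Finite F] {m : ℕ} (hm : 2 * m ≤ finrank F V) :
    Nat.card {P : Submodule F V × Submodule F V // P.1 ≤ P.2 ∧ finrank F P.1 = m ∧ finrank F P.2 = finrank F V - m} *
      (gO (Nat.card F) m * gO (Nat.card F) m) * gO (Nat.card F) (finrank F V - 2 * m) = gO (Nat.card F) (finrank F V) := by
  have : Finite V := Module.finite_of_finite F
  have hq : 1 < Nat.card F := Finite.one_lt_card
  obtain ⟨U, hU⟩ := exists_sub (F := F) (V := V) (m := finrank F V - m) (by omega)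
  have h0 : ∀ U : Submodule F V, finrank F U = finrank F V - m →
      Nat.card {A : Submodule F V // A ≤ U ∧ finrank F A = m} * gO (Nat.card F) m * gO (Nat.card F) (finrank F V - 2 * m) =
      gO (Nat.card F) (finrank F V - m) := fun U hU => by
    have := card_sub' U (m := m) (by omega)
    rwa [hU, show finrank F V - m - m = finrank F V - 2 * m by omega] at this
  rw [card_eq_of_fibers (B := {A : Submodule F V // finrank F A = finrank F V - m})
    (A := {P : Submodule F V × Submodule F V // P.1 ≤ P.2 ∧ finrank F P.1 = m ∧ finrank F P.2 = finrank F V - m})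
    (fun P => ⟨P.1.2, P.2.2.2⟩)
    (Nat.card {A : Submodule F V // A ≤ U ∧ finrank F A = m}) fun ⟨U', hU'⟩ => ?_]
  · have h1 := card_sub_top (F := F) (V := V) (m := finrank F V - m) (by omega)
    rw [show finrank F V - (finrank F V - m) = m by omega] at h1
    rw [← h1, ← h0 U hU]; ring
  · rw [show Nat.card {A : Submodule F V // A ≤ U ∧ finrank F A = m} =
      Nat.card {A : Submodule F V // A ≤ U' ∧ finrank F A = m} from Nat.eq_of_mul_eq_mul_right (gO_pos hq _)
        (Nat.eq_of_mul_eq_mul_right (gO_pos hq _) ((h0 U hU).trans (h0 U' hU').symm))]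
    exact Nat.card_congr ⟨fun s => ⟨s.1.1.1, (s.1.2.1.trans (congrArg Subtype.val s.2).le), s.1.2.2.1⟩,
      fun A => ⟨⟨(A.1, U'), A.2.1, A.2.2, hU'⟩, rfl⟩, by rintro ⟨⟨⟨A, B⟩, h⟩, h'⟩; cases h'; rfl, fun _ => rfl⟩

theorem not_dvd_gO {q r : ℕ} (hr : r.Prime) (hq : 0 < q) (h : r ∣ q) (n : ℕ) : ¬ r ∣ gO q n := fun h1 => by
  obtain ⟨j, -, h2⟩ := (Prime.dvd_finset_prod_iff hr.prime _).1 h1
  have h3 : r ∣ q ^ (j + 1) := dvd_pow h (by omega)
  exact hr.one_lt.ne' (Nat.dvd_one.1 ((Nat.dvd_sub_iff_right (Nat.one_le_pow _ _ hq) h3).1 h2))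

theorem ord_dvd_iff {q r j : ℕ} (hq : 0 < q) : orderOf (q : ZMod r) ∣ j ↔ r ∣ q ^ j - 1 := by
  rw [orderOf_dvd_iff_pow_eq_one, ← ZMod.natCast_eq_zero_iff, Nat.cast_sub (Nat.one_le_pow _ _ hq), sub_eq_zero]
  simp

theorem ord_of_dvd {q r N k n a : ℕ} (hr : r.Prime) (hq : 1 < q) (hrq : ¬ r ∣ q) (hk : k ≤ n)
    (h : N * gO q k ∣ q ^ a * gO q n) (hN : r ∣ N) : ∃ j, k < j ∧ j ≤ n ∧ orderOf (q : ZMod r) ∣ j := by
  rw [gO, gO, ← Finset.prod_range_mul_prod_Ico _ hk, mul_left_comm, mul_comm N] at h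
  have h1 := hN.trans (Nat.dvd_of_mul_dvd_mul_left (gO_pos hq k) h)
  obtain ⟨j, h2, h3⟩ := (Prime.dvd_finset_prod_iff hr.prime _).1
    (((Nat.Prime.dvd_mul hr).1 h1).resolve_left fun h => hrq (hr.dvd_of_dvd_pow h))
  rw [Finset.mem_Ico] at h2
  exact ⟨j + 1, by omega, by omega, (ord_dvd_iff (by omega)).2 h3⟩

theorem dvd_card_iff [Finite F] (p : ℕ) [hp : Fact p.Prime] [CharP F p] {r : ℕ} (hr : r.Prime) :
    r ∣ Nat.card F ↔ r = p := by
  have := Fintype.ofFinite F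
  obtain ⟨k, -, hk⟩ := FiniteField.card F p
  rw [Nat.card_eq_fintype_card, hk]
  exact ⟨fun h => (Nat.prime_dvd_prime_iff_eq hr hp.out).1 (hr.dvd_of_dvd_pow h),
    fun h => h ▸ dvd_pow_self _ k.ne_zero⟩

/-- extension by the identity on a complement -/
noncomputable def glue2 {U U' : Submodule F V} (h : IsCompl U U') : (U' ≃ₗ[F] U') →* (V ≃ₗ[F] V) where
  toFun b := (Submodule.prodEquivOfIsCompl _ _ h).symm ≪≫ₗ (LinearEquiv.refl F U).prodCongr b ≪≫ₗ
    Submodule.prodEquivOfIsCompl _ _ h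
  map_one' := by
    ext x; obtain ⟨y, rfl⟩ := (Submodule.prodEquivOfIsCompl _ _ h).surjective x
    simp only [LinearEquiv.trans_apply, LinearEquiv.symm_apply_apply]; rfl
  map_mul' a b := by
    ext x
    simp only [LinearEquiv.trans_apply, LinearEquiv.mul_apply, LinearEquiv.symm_apply_apply]; rfl

omit [FiniteDimensional F V] in
theorem map_eq_of_compl {U U' A A' : Submodule F V} (h : IsCompl U U') (h' : IsCompl A A') (a : U ≃ₗ[F] A)
    (b : U' ≃ₗ[F] A') {g : V ≃ₗ[F] V} (hg : g = (Submodule.prodEquivOfIsCompl _ _ h).symm ≪≫ₗ a.prodCongr b ≪≫ₗ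
      Submodule.prodEquivOfIsCompl _ _ h') :
    U.map g.toLinearMap = A ∧ U'.map g.toLinearMap = A' := by
  subst hg
  refine ⟨le_antisymm ?_ fun x hx => ⟨_, (a.symm ⟨x, hx⟩).2, by simp⟩,
    le_antisymm ?_ fun x hx => ⟨_, (b.symm ⟨x, hx⟩).2, by simp⟩⟩
  · rintro _ ⟨x, hx, rfl⟩
    lift x to U using hx
    simp
  · rintro _ ⟨x, hx, rfl⟩
    lift x to U' using hx
    simp

open Pointwise in
theorem card_compl [Finite F] {m : ℕ} (hm : m ≤ finrank F V) :
    Nat.card {P : Submodule F V × Submodule F V // IsCompl P.1 P.2 ∧ finrank F P.1 = m} *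
      gO (Nat.card F) (finrank F V - m) ∣ Nat.card F ^ (finrank F V).choose 2 * gO (Nat.card F) (finrank F V) := by
  obtain ⟨U, hU⟩ := exists_sub hm
  obtain ⟨U', h⟩ := U.exists_isCompl
  have h1 := Submodule.finrank_add_eq_of_isCompl h
  have h2 := card_mul_dvd (G := V ≃ₗ[F] V) (U, U') (fun P => IsCompl P.1 P.2 ∧ finrank F P.1 = m)
    (fun ⟨A, A'⟩ => ⟨fun ⟨h2, h3⟩ => ?_, ?_⟩) (glue2 h) (fun a b hab => ?_) fun b => ?_
  · rw [card_gl, card_gl, show finrank F U' = finrank F V - m by omega] at h2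
    exact (Nat.mul_dvd_mul_left _ (Dvd.intro_left _ rfl)).trans h2
  · have h4 := Submodule.finrank_add_eq_of_isCompl h2
    obtain ⟨g, h5⟩ : ∃ g : V ≃ₗ[F] V, U.map g.toLinearMap = A ∧ U'.map g.toLinearMap = A' :=
      ⟨_, map_eq_of_compl h h2 (LinearEquiv.ofFinrankEq _ _ (hU.trans h3.symm))
      (LinearEquiv.ofFinrankEq _ _ (by dsimp only at *; omega)) rfl⟩
    exact ⟨g, Prod.ext h5.1 h5.2⟩
  · rintro ⟨g, hg⟩
    cases hg
    exact ⟨(Submodule.orderIsoMapComap g).isCompl h, (LinearEquiv.finrank_map_eq g U).trans hU⟩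
  · ext x
    simpa [glue2] using congr($hab x)
  · exact Prod.ext_iff.2 (map_eq_of_compl h h _ b rfl)

open Matrix in
theorem sl_all {n : ℕ} {r : ℕ} {Φ : End F (Fin n → F) → Prop} :
    (∀ x : SpecialLinearGroup (Fin n) F,
      (∃ c : F, ((x ^ r : SpecialLinearGroup (Fin n) F) : Matrix (Fin n) (Fin n) F) = c • (1 : Matrix (Fin n) (Fin n) F)) →
      (∀ c : F, (x : Matrix (Fin n) (Fin n) F) ≠ c • (1 : Matrix (Fin n) (Fin n) F)) → Φ (toLin' x.1)) ↔
    ∀ f : End F (Fin n → F), LinearMap.det f = 1 → (∃ z : F, f ^ r = z • 1) → (∀ z : F, f ≠ z • 1) → Φ f := by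
  constructor
  · intro h f h1 h2 h3
    obtain ⟨A, rfl⟩ := mE_surj f
    simp only [← mE_one, ← mE_smul, ← mE_pow, mE_inj, Ne] at h2 h3
    exact h ⟨A, (det_mE A).symm.trans h1⟩ h2 h3
  · intro h x h2 h3
    refine h (mE x.1) ((det_mE _).trans x.2) ?_ ?_ <;> simp only [← mE_one, ← mE_smul, ← mE_pow, mE_inj, Ne]
    exacts [h2, h3]

end H20.El
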