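import Cfsg.Agent.H11.McL
import Cfsg.Agent.H11.Symp
import Cfsg.Agent.H10.SL

/-! McLaughlin's theorem on groups generated by full transvection subgroups without unipotent normal subgroups
(fields with at least three elements): components `Comp H C` of the set of transvections, each of them is of
linear or symplectic type (`Comp.good`). -/

set_option autoImplicit false
set_option linter.unusedSectionVars false
set_option linter.unusedVariables false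

namespace H20.McL
open Module Submodule H11

variable {F V : Type*} [Field F] [AddCommGroup V] [Module F V] [FiniteDimensional F V]
  {H : Subgroup (V ≃ₗ[F] V)} {C C' : Set (V × Dual F V)} {a b : V × Dual F V} {x y : V} {φ ψ : Dual F V}

/-- the transvection with data `x, φ` lies in `H` -/
def R (H : Subgroup (V ≃ₗ[F] V)) (x : V) (φ : Dual F V) : Prop := φ x = 0 ∧ ∃ g ∈ H, ∀ v, g v = v + φ v • x
/-- invariance under the transvections of `H` -/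
def Inv (H : Subgroup (V ≃ₗ[F] V)) (X : Submodule F V) : Prop := ∀ x φ, R H x φ → ∀ v ∈ X, φ v • x ∈ X

structure Hyp (H : Subgroup (V ≃ₗ[F] V)) : Prop where
  sl : ∀ x φ (c : F), R H x φ → R H (c • x) φ
  N : ∀ X Y, Inv H X → Inv H Y → ∀ g ∈ H, (∀ v, g v - v ∈ X) → (∀ v ∈ X, g v - v ∈ Y) → (∀ v ∈ Y, g v = v) → g = 1
  big : ∃ c : F, c ≠ 0 ∧ c ≠ 1

theorem R.zl (φ : Dual F V) : R H 0 φ := ⟨by simp, 1, one_mem _, by simp⟩
theorem R.al (h : R H x φ) (h' : R H y φ) : R H (x + y) φ :=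
  let ⟨a, g, hg, e⟩ := h; let ⟨b, g', hg', e'⟩ := h'
  ⟨by simp [a, b], g * g', mul_mem hg hg', fun v => by simp [e, e', b]; abel⟩
theorem inv_apply {g : V ≃ₗ[F] V} (h : φ x = 0) (e : ∀ v, g v = v + φ v • x) (v : V) : g⁻¹ v = v - φ v • x :=
  g.injective (by simp [e (v - _), h])

theorem Hyp.tvs (h : Hyp H) : TvS LinearMap.id (R H) where
  orth a := a.1
  zl := R.zl
  zr x := ⟨by simp, 1, one_mem _, by simp⟩
  sl c a := h.sl _ _ c a
  sr c a := let ⟨_, g, hg, e⟩ := h.sl _ _ c a; ⟨by simp [a.1], g, hg, fun v => by simp [e, smul_smul, mul_comm]⟩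
  al := R.al
  ar := fun ⟨a, g, hg, e⟩ ⟨b, g', hg', e'⟩ =>
    ⟨by simp [a, b], g * g', mul_mem hg hg', fun v => by simp [e, e', a, add_smul]; abel⟩
  conj := fun ⟨a, g, hg, e⟩ ⟨b, g', hg', e'⟩ =>
    ⟨by simp [a, b, mul_comm], g * g' * g⁻¹, mul_mem (mul_mem hg hg') (inv_mem hg), fun v => by
      rw [LinearEquiv.mul_apply, LinearEquiv.mul_apply, inv_apply a e, e', e]
      simp [a]; module⟩

/-- the non-trivial transvections -/
def P (H : Subgroup (V ≃ₗ[F] V)) (a : V × Dual F V) : Prop := R H a.1 a.2 ∧ a.1 ≠ 0 ∧ a.2 ≠ 0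
/-- non-orthogonality -/
def adj (H : Subgroup (V ≃ₗ[F] V)) (a b : V × Dual F V) : Prop := P H a ∧ P H b ∧ (a.2 b.1 ≠ 0 ∨ b.2 a.1 ≠ 0)
theorem adj.symm (h : adj H a b) : adj H b a := ⟨h.2.1, h.1, h.2.2.symm⟩

theorem Hyp.partner (h : Hyp H) (ha : P H a) : ∃ b, P H b ∧ a.2 b.1 ≠ 0 ∧ b.2 a.1 ≠ 0 := by
  obtain ⟨x, φ⟩ := a
  by_contra hc
  have T := h.tvs
  let S : Set V := {u | R H u φ ∧ ∀ y ψ, R H y ψ → ψ u ≠ 0 → φ y = 0}
  have hx : x ∈ S := ⟨ha.1, fun y ψ r e => by_contra fun e' =>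
    hc ⟨(y, ψ), ⟨r, fun e0 => e' (by simp [show y = 0 from e0]), fun e0 => e (by simp [show ψ = 0 from e0])⟩, e', e⟩⟩
  have st : ∀ u ∈ S, ∀ y ψ, R H y ψ → ψ u ≠ 0 → y ∈ S := fun u hu y ψ r e => by
    have e1 := hu.2 y ψ r e
    refine ⟨T.comm r hu.1 e1 e, fun z χ r' e' => by_contra fun e2 => ?_⟩
    have e3 : χ u = 0 := by_contra fun e3 => e2 (hu.2 z χ r' e3)
    have := hu.2 _ _ (T.conj r' r) (by simpa [e3] using e)
    simp [e1, e2, e'] at this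
  have i : Inv H (span F S) := fun y ψ r v hv => by
    induction hv using span_induction with
    | mem u hu =>
      by_cases e : ψ u = 0
      · simp [e]
      · exact smul_mem _ _ (subset_span (st u hu y ψ r e))
    | zero => simp
    | add u v _ _ hu hv => rw [map_add, add_smul]; exact add_mem hu hv
    | smul c u _ hu => rw [map_smul, smul_eq_mul, mul_smul]; exact smul_mem _ _ hu
  have k : span F S ≤ LinearMap.ker φ := span_le.2 fun u hu => hu.1.1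
  obtain ⟨g, hg, e⟩ := ha.1.2
  have := h.N _ ⊥ i (fun _ _ _ v hv => by simp [(mem_bot F).1 hv]) g hg
    (fun v => by simpa [e] using smul_mem _ _ (subset_span hx)) (fun v hv => by simp [e, show φ v = 0 from k hv])
    fun v hv => by simp [(mem_bot F).1 hv]
  exact ha.2.2 (LinearMap.ext fun v => by simpa [this, show x ≠ 0 from ha.2.1] using e v)

structure Comp (H : Subgroup (V ≃ₗ[F] V)) (C : Set (V × Dual F V)) : Prop where
  sub : ∀ a ∈ C, P H a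
  cl : ∀ a ∈ C, ∀ b, adj H a b → b ∈ C
  con : ∀ a ∈ C, ∀ b ∈ C, Relation.ReflTransGen (adj H) a b

/-- span of the centres -/
def W (C : Set (V × Dual F V)) : Submodule F V := span F (Prod.fst '' C)
/-- span of the axes -/
def Φ (C : Set (V × Dual F V)) : Submodule F (Dual F V) := span F (Prod.snd '' C)
/-- the fixed space -/
def Z (C : Set (V × Dual F V)) : Submodule F V := (Φ C).dualCoannihilator

theorem mem_W (h : a ∈ C) : a.1 ∈ W C := subset_span ⟨a, h, rfl⟩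
theorem mem_Φ (h : a ∈ C) : a.2 ∈ Φ C := subset_span ⟨a, h, rfl⟩
theorem mem_Z : x ∈ Z C ↔ ∀ a ∈ C, a.2 x = 0 := by
  rw [Z, mem_dualCoannihilator]
  refine ⟨fun h a ha => h _ (mem_Φ ha), fun h φ hφ => ?_⟩
  exact (span_le (p := LinearMap.ker (Dual.eval F V x))).2 (by rintro _ ⟨a, ha, rfl⟩; exact h a ha) hφ
theorem mem_Z' : x ∈ Z C ↔ ∀ φ ∈ Φ C, φ x = 0 := mem_dualCoannihilator _
theorem zero_W (h : ∀ a ∈ C, φ a.1 = 0) {w : V} (hw : w ∈ W C) : φ w = 0 :=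
  (span_le (p := LinearMap.ker φ)).2 (by rintro _ ⟨a, ha, rfl⟩; exact h a ha) hw

theorem comp_empty : Comp H ∅ := ⟨by simp, by simp, by simp⟩
theorem exists_comp (ha : P H a) : ∃ C, Comp H C ∧ a ∈ C := by
  have s : ∀ {b c}, Relation.ReflTransGen (adj H) b c → Relation.ReflTransGen (adj H) c b :=
    fun h => by
      induction h with
      | refl => exact .refl
      | tail _ e ih => exact .head e.symm ih
  refine ⟨{b | Relation.ReflTransGen (adj H) a b}, ⟨fun b hb => ?_, fun b hb c e => hb.tail e,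
    fun b hb c hc => (s hb).trans hc⟩, .refl⟩
  induction hb with
  | refl => exact ha
  | tail _ e => exact e.2.1

/-- linear or symplectic type -/
structure Good (H : Subgroup (V ≃ₗ[F] V)) (C : Set (V × Dual F V)) : Prop where
  d1 : ∀ w ∈ W C, w ∈ Z C → w = 0
  d2 : ∀ φ ∈ Φ C, (∀ w ∈ W C, φ w = 0) → φ = 0
  ty : TBlk LinearMap.id (R H) (W C) (Φ C) ∨ ∃ f : W C →ₗ[F] Dual F V, (∀ w : W C, R H w (f w)) ∧
    (∀ w w' : W C, f w w' = -f w' w) ∧ (∀ w, (∀ w' : W C, f w w' = 0) → w = 0) ∧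
    ∀ a (ha : a ∈ C), ∃ c : F, a.2 = c • f ⟨a.1, mem_W ha⟩

namespace Comp
variable (hC : Comp H C)
include hC

theorem le (hC' : Comp H C') (ha : a ∈ C) (ha' : a ∈ C') : C ⊆ C' := fun b hb => by
  have := hC.con a ha b hb
  clear hb
  induction this with
  | refl => exact ha'
  | tail _ e ih => exact hC'.cl _ ih _ e

theorem orth (hb : P H b) (h : b ∉ C) : (∀ w ∈ W C, b.2 w = 0) ∧ b.1 ∈ Z C :=
  ⟨fun _ => zero_W fun a ha => by_contra fun e => h (hC.cl a ha b ⟨hC.sub a ha, hb, Or.inr e⟩),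
    mem_Z.2 fun a ha => by_contra fun e => h (hC.cl a ha b ⟨hC.sub a ha, hb, Or.inl e⟩)⟩

theorem W_le_Z (hC' : Comp H C') (h : C ≠ C') : W C ≤ Z C' := span_le.2 (by
  rintro _ ⟨a, ha, rfl⟩
  exact (hC'.orth (hC.sub a ha) fun ha' => h ((hC.le hC' ha ha').antisymm (hC'.le hC ha' ha))).2)

theorem invW : Inv H (W C) := fun x φ r v hv => by
  by_cases e : φ v • x = 0
  · simp [e]
  rw [smul_eq_zero, not_or] at e
  exact smul_mem _ _ (mem_W (a := (x, φ)) (by_contra fun h =>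
    e.1 ((hC.orth ⟨r, e.2, fun e0 => e.1 (by simp [show φ = 0 from e0])⟩ h).1 v hv)))

theorem invZ : Inv H (Z C) := fun x φ r v hv => by
  by_cases e : φ v • x = 0
  · simp [e]
  rw [smul_eq_zero, not_or] at e
  exact smul_mem _ _ (hC.orth (b := (x, φ)) ⟨r, e.2, fun e0 => e.1 (by simp [show φ = 0 from e0])⟩
    fun h => e.1 (mem_Z.1 hv _ h)).2

theorem partner (h : Hyp H) (ha : a ∈ C) : ∃ b ∈ C, a.2 b.1 ≠ 0 ∧ b.2 a.1 ≠ 0 :=
  let ⟨b, hb, e⟩ := h.partner (hC.sub a ha); ⟨b, hC.cl a ha b ⟨hC.sub a ha, hb, Or.inl e.1⟩, e⟩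

theorem mem_of (hb : P H b) (ha : a ∈ C) (e : a.2 b.1 ≠ 0) : b ∈ C := hC.cl a ha b ⟨hC.sub a ha, hb, Or.inl e⟩
theorem mem_of' (hb : P H b) (ha : a ∈ C) (e : b.2 a.1 ≠ 0) : b ∈ C := hC.cl a ha b ⟨hC.sub a ha, hb, Or.inr e⟩

theorem smul (h : Hyp H) (ha : a ∈ C) {c : F} (c0 : c ≠ 0) : (a.1, c • a.2) ∈ C :=
  let ⟨_, hb, e⟩ := hC.partner h ha
  hC.mem_of ⟨h.tvs.sr c (hC.sub a ha).1, (hC.sub a ha).2.1, smul_ne_zero c0 (hC.sub a ha).2.2⟩ hb e.2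

theorem good_blk (h : Hyp H) (hb : TBlk LinearMap.id (R H) (W C) (Φ C)) : Good H C := by
  refine ⟨fun w hw hz => by_contra fun w0 => ?_, fun φ hφ hz => by_contra fun w0 => ?_, Or.inl hb⟩
  · obtain ⟨a, ha⟩ := C.eq_empty_or_nonempty.resolve_left fun e => w0 (by simpa [W, e] using hw)
    obtain ⟨b, pb, e1, e2⟩ := h.partner (a := (w, a.2)) ⟨hb _ hw a.2 (mem_Φ ha) (mem_Z.1 hz a ha), w0, (hC.sub a ha).2.2⟩
    exact e2 (mem_Z.1 hz b (hC.mem_of pb ha e1))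
  · obtain ⟨a, ha⟩ := C.eq_empty_or_nonempty.resolve_left fun e => w0 (by simpa [Φ, e] using hφ)
    obtain ⟨b, pb, e1, e2⟩ := h.partner (a := (a.1, φ)) ⟨hb _ (mem_W ha) _ hφ (hz _ (mem_W ha)), (hC.sub a ha).2.1, w0⟩
    exact e1 (hz _ (mem_W (hC.mem_of' pb ha e2)))

theorem blk (h : Hyp H) {c : V × Dual F V} (ha : a ∈ C) (hb : b ∈ C) (hc : c ∈ C)
    (e : a.2 b.1 * b.2 c.1 * c.2 a.1 + a.2 c.1 * b.2 a.1 * c.2 b.1 ≠ 0) : TBlk LinearMap.id (R H) (W C) (Φ C) := by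
  obtain ⟨W', Φ', h1, h2, B, c1, c2⟩ := h.tvs.exists_blk (x := ![a.1, b.1, c.1]) (φ := ![a.2, b.2, c.2])
    (fun i => by fin_cases i; exacts [(hC.sub a ha).1, (hC.sub b hb).1, (hC.sub c hc).1]) (by
      simpa [Matrix.det_fin_three, (hC.sub a ha).1.1, (hC.sub b hb).1.1, (hC.sub c hc).1.1] using e)
  have : ∀ b ∈ C, b.1 ∈ W' ∧ b.2 ∈ Φ' := fun b hb => by
    have := hC.con a ha b hb
    clear hb
    induction this with
    | refl => exact ⟨h1 0, h2 0⟩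
    | @tail u v _ e ih =>
      rcases e.2.2 with e1 | e1
      · have h3 := c2 _ _ e.2.1.1 _ ih.2 e1
        refine ⟨by_contra fun h4 => ?_, h3⟩
        have h5 : ∀ w ∈ W', v.2 w = 0 := fun w hw => by_contra fun e' => h4 (c1 _ _ e.2.1.1 w hw e')
        obtain ⟨z, pz, e2, e3⟩ := h.partner (a := (u.1, v.2)) ⟨B _ ih.1 _ h3 (h5 _ ih.1), e.1.2.1, e.2.1.2.2⟩
        exact e2 (h5 _ (c1 _ _ pz.1 _ ih.1 e3))
      · have h3 := c1 _ _ e.2.1.1 _ ih.1 e1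
        refine ⟨h3, by_contra fun h4 => ?_⟩
        have h5 : ∀ φ ∈ Φ', φ v.1 = 0 := fun w hw => by_contra fun e' => h4 (c2 _ _ e.2.1.1 w hw e')
        obtain ⟨z, pz, e2, e3⟩ := h.partner (a := (v.1, u.2)) ⟨B _ h3 _ ih.2 (h5 _ ih.2), e.2.1.2.1, e.1.2.2⟩
        exact e3 (h5 _ (c2 _ _ pz.1 _ ih.2 e2))
  exact fun w hw φ hφ => B w (span_le.2 (by rintro _ ⟨b, hb, rfl⟩; exact (this b hb).1) hw) φ
    (span_le.2 (by rintro _ ⟨b, hb, rfl⟩; exact (this b hb).2) hφ)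

theorem exists_L (h : Hyp H) {o : V × Dual F V} (ho : o ∈ C)
    (tri : ∀ a ∈ C, ∀ b ∈ C, ∀ c ∈ C, a.2 b.1 * b.2 c.1 * c.2 a.1 + a.2 c.1 * b.2 a.1 * c.2 b.1 = 0) :
    ∃ C₀ ⊆ C, o ∈ C₀ ∧ (∀ a ∈ C₀, a = o ∨ o.2 a.1 ≠ 0) ∧ (∀ l ∈ span F C₀, ∀ m ∈ span F C₀, l.2 m.1 = -m.2 l.1) ∧
      ∀ b ∈ C, ∃ c : F, c ≠ 0 ∧ (b.1, c • b.2) ∈ span F C₀ := by
  have T := h.tvs
  have sy : ∀ a ∈ C, ∀ b ∈ C, a.2 b.1 ≠ 0 → b.2 a.1 ≠ 0 := fun a ha b hb e e' => by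
    obtain ⟨u, pu, e1, e2⟩ := h.partner (a := (a.1, b.2))
      ⟨T.comm (hC.sub a ha).1 (hC.sub b hb).1 e' e, (hC.sub a ha).2.1, (hC.sub b hb).2.2⟩
    have := tri a ha b hb u (hC.mem_of' pu ha e2)
    simp_all
  let C₀ := {a ∈ C | a = o ∨ o.2 a.1 ≠ 0 ∧ a.2 o.1 = -o.2 a.1}
  have sk : ∀ a ∈ C₀, ∀ b ∈ C₀, a.2 b.1 = -b.2 a.1 := by
    rintro a ⟨ha, rfl | ⟨h1, h2⟩⟩ b ⟨hb, rfl | ⟨h3, h4⟩⟩
    · simp [(hC.sub b hb).1.1]
    · simp [h4]
    · exact h2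
    · have := tri o ho a ha b hb
      rw [h2, h4] at this
      exact mul_left_cancel₀ (mul_ne_zero h1 h3) (by linear_combination -this)
  have sk' : ∀ S : Set (V × Dual F V), ∀ m : V × Dual F V, (∀ a ∈ S, a.2 m.1 = -m.2 a.1) →
      ∀ l ∈ span F S, l.2 m.1 = -m.2 l.1 := fun S m hS l hl => by
    induction hl using span_induction with
    | mem u hu => exact hS u hu
    | zero => simp
    | add u v _ _ hu hv => simp [hu, hv, add_comm]
    | smul c u _ hu => simp [hu]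
  have n0 : ∀ b ∈ C, o.2 b.1 ≠ 0 → (b.1, (-o.2 b.1 / b.2 o.1) • b.2) ∈ C₀ := fun b hb e =>
    ⟨hC.smul h hb (by simp [e, sy o ho b hb e]), Or.inr ⟨e, by simp [sy o ho b hb e]⟩⟩
  have n1 : ∀ b ∈ C, ∀ a ∈ C₀, b.2 a.1 ≠ 0 → ∃ c : F, c ≠ 0 ∧ (b.1, c • b.2) ∈ span F C₀ := fun b hb a ha e => by
    by_cases e0 : o.2 b.1 = 0
    swap
    · exact ⟨_, by simp [e0, sy o ho b hb e0], subset_span (n0 b hb e0)⟩
    have e1 : b.2 o.1 = 0 := by_contra fun e1 => sy b hb o ho e1 e0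
    have e2 := sy b hb a ha.1 e
    obtain ⟨h1, h2⟩ := ha.2.resolve_left fun e3 => e (e3 ▸ e1)
    have r := T.conj (hC.sub a ha.1).1 (hC.sub b hb).1
    have e4 : o.2 (b.1 + a.2 b.1 • a.1) ≠ 0 := by simp [e0, e2, h1]
    have h3 := n0 _ (hC.mem_of (b := (_, _)) ⟨r, fun e5 => e4 (by rw [show b.1 + a.2 b.1 • a.1 = 0 from e5, map_zero]),
      fun e5 => by simpa [e1, e, h2, h1] using LinearMap.congr_fun e5 o.1⟩ ho e4) e4
    refine ⟨-a.2 b.1 / b.2 a.1, by simp [e, e2], ?_⟩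
    convert sub_mem (subset_span h3) (smul_mem (span F C₀) (a.2 b.1) (subset_span ha)) using 1
    ext v
    · simp
    · simp [e0, e1, h2]; field_simp; ring
  refine ⟨C₀, fun a ha => ha.1, ⟨ho, Or.inl rfl⟩, fun a ha => ha.2.imp_right And.left,
    fun l hl m hm => sk' _ m (fun a ha => by rw [sk' _ a (fun b hb => sk b hb a ha) m hm, neg_neg]) l hl, fun b hb => ?_⟩
  have := hC.con o ho b hb
  induction this with
  | refl => exact ⟨1, one_ne_zero, by simpa using subset_span (show o ∈ C₀ from ⟨ho, Or.inl rfl⟩)⟩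
  | @tail u v _ e ih =>
    have hu := hC.cl v hb u e.symm
    obtain ⟨c, c0, hc⟩ := ih hu
    have e1 : v.2 u.1 ≠ 0 := e.2.2.elim (sy u hu v hb) id
    by_contra hn
    exact e1 ((span_le (p := LinearMap.ker (v.2 ∘ₗ LinearMap.fst F _ _))).2
      (fun a ha => by_contra fun e2 => hn (n1 v hb a ha e2)) hc :)

theorem L_all (h : Hyp H) {o : V × Dual F V} {C₀ : Set (V × Dual F V)} (h0 : C₀ ⊆ C) (ho : o ∈ C₀)
    (h1 : ∀ a ∈ C₀, a = o ∨ o.2 a.1 ≠ 0) (sk : ∀ l ∈ span F C₀, ∀ m ∈ span F C₀, l.2 m.1 = -m.2 l.1)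
    (h2 : ∀ b ∈ C, ∃ c : F, c ≠ 0 ∧ (b.1, c • b.2) ∈ span F C₀) :
    ∀ l ∈ span F C₀, R H l.1 l.2 ∧ (l = 0 ∨ ∃ m ∈ span F C₀, m.2 l.1 ≠ 0) := by
  have T := h.tvs
  let E : V × Dual F V → Prop := fun l => l ∈ span F C₀ ∧ R H l.1 l.2 ∧ (l = 0 ∨ ∃ m ∈ span F C₀, m.2 l.1 ≠ 0)
  have E0 : ∀ a ∈ C₀, E a := fun a ha => by
    obtain ⟨b, hb, -, e⟩ := hC.partner h (h0 ha)
    obtain ⟨c, c0, hc⟩ := h2 b hb
    exact ⟨subset_span ha, (hC.sub a (h0 ha)).1, Or.inr ⟨_, hc, by simp [c0, e]⟩⟩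
  have ex : ∀ v, (∃ m ∈ span F C₀, m.2 v ≠ 0) → ∃ m ∈ C₀, m.2 v ≠ 0 := fun v ⟨m, hm, e⟩ => by
    by_contra! hn
    exact e ((span_le (p := LinearMap.ker (Dual.eval F V v ∘ₗ LinearMap.snd F _ _))).2 hn hm)
  have sy : ∀ a b, E a → E b → a.2 b.1 ≠ 0 → b.2 a.1 ≠ 0 := fun a b ha hb e => by rw [sk b hb.1 a ha.1]; simpa
  have ad : ∀ a b, E a → E b → a.2 b.1 ≠ 0 → ∀ c : F, E (b + c • a) := fun a b ha hb e c => by
    refine ⟨add_mem hb.1 (smul_mem _ _ ha.1), ?_, Or.inr ⟨a, ha.1, by simpa [ha.2.1.1] using e⟩⟩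
    have := T.conj (T.sr (c / a.2 b.1) ha.2.1) hb.2.1
    simpa [sk b hb.1 a ha.1, e, smul_smul, mul_div_cancel₀] using this
  let D : V → V → Prop := fun x y => ∃ e, E e ∧ e.2 x ≠ 0 ∧ e.2 y ≠ 0
  have st : ∀ x y b, D x b.1 → E b → b.2 y ≠ 0 → D x y := fun x y b ⟨e, he, e1, e2⟩ hb e3 => by
    by_cases e4 : e.2 y = 0
    · by_cases e5 : b.2 x = 0
      · exact ⟨_, ad e b he hb e2 1, by simp [e5, e1], by simp [e4, e3]⟩
      · exact ⟨b, hb, e5, e3⟩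
    · exact ⟨e, he, e1, e4⟩
  have dd : ∀ a b, E a → E b → a ≠ 0 → b ≠ 0 → D a.1 b.1 := fun a b ha hb a0 b0 => by
    obtain ⟨c, hc, e⟩ := ex _ (ha.2.2.resolve_left a0)
    obtain ⟨c', hc', e'⟩ := ex _ (hb.2.2.resolve_left b0)
    have : D a.1 o.1 := (h1 c hc).elim (fun e1 => st _ _ a ⟨c, E0 c hc, e, e⟩ ha (sy _ _ (E0 o ho) ha (e1 ▸ e)))
      fun e1 => ⟨c, E0 c hc, e, sy _ _ (E0 o ho) (E0 c hc) e1⟩
    exact (h1 c' hc').elim (fun e1 => st _ _ o this (E0 o ho) (e1 ▸ e'))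
      fun e1 => st _ _ c' (st _ _ o this (E0 o ho) e1) (E0 c' hc') e'
  have fin : ∀ a b e, E a → E b → a.2 b.1 = 0 → E e → e.2 a.1 ≠ 0 → e.2 b.1 ≠ 0 → e.2 (a.1 + b.1) ≠ 0 → E (a + b) :=
    fun a b e ha hb e0 he e1 e2 e3 => by
      have h3 := ad a _ ha (ad b e hb he (sy _ _ he hb e2) 1) (by simpa [e0] using sy _ _ he ha e1) 1
      have h4 := ad e _ he h3 (by simpa [he.2.1.1, add_comm] using e3) (-1)
      convert h4 using 1
      module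
  have hard : ∀ a b f, E a → E b → a.2 b.1 = 0 → a ≠ 0 → b ≠ 0 → E f → f.2 a.1 ≠ 0 → f.2 b.1 = 0 → E (a + b) :=
    fun a b f ha hb e0 a0 b0 hf f1 f2 => by
      obtain ⟨e, he, e1, e2, e4⟩ : ∃ e, E e ∧ e.2 a.1 ≠ 0 ∧ e.2 b.1 ≠ 0 ∧ f.2 e.1 ≠ 0 := by
        obtain ⟨e, he, e1, e2⟩ := dd a b ha hb a0 b0
        by_cases e4 : f.2 e.1 = 0
        · exact ⟨_, ad a e ha he (sy _ _ he ha e1) 1, by simpa [ha.2.1.1], by simpa [e0], by simpa [e4]⟩
        · exact ⟨e, he, e1, e2, e4⟩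
      by_cases e3 : e.2 (a.1 + b.1) = 0
      · obtain ⟨c, c0, c1⟩ := h.big
        refine fin a b _ ha hb e0 (ad f e hf he e4 (-c * e.2 a.1 / f.2 a.1)) ?_ (by simpa [f2]) ?_
        · simp only [Prod.snd_add, Prod.smul_snd, LinearMap.add_apply, LinearMap.smul_apply, smul_eq_mul,
            div_mul_cancel₀ _ f1]
          intro e5
          exact c1 (mul_right_cancel₀ e1 (by linear_combination -e5))
        · rw [Prod.snd_add, LinearMap.add_apply, e3]; simp [f1, f2, c0, e1]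
      · exact fin a b e ha hb e0 he e1 e2 e3
  have LW : ∀ l ∈ span F C₀, l.1 ∈ W C ∧ l.2 ∈ Φ C := fun l hl =>
    (span_le (p := (W C).prod (Φ C))).2 (fun a ha => ⟨mem_W (h0 ha), mem_Φ (h0 ha)⟩) hl
  have add : ∀ a b, E a → E b → E (a + b) := fun a b ha hb => by
    by_cases a0 : a = 0
    · simpa [a0]
    by_cases b0 : b = 0
    · simpa [b0]
    by_cases e0 : a.2 b.1 = 0
    swap
    · simpa [add_comm] using ad a b ha hb e0 1
    have e0' : b.2 a.1 = 0 := by simp [sk b hb.1 a ha.1, e0]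
    by_cases rad : ∃ m ∈ span F C₀, m.2 (a.1 + b.1) ≠ 0
    · obtain ⟨f, hf, e⟩ := ex _ rad
      by_cases f1 : f.2 a.1 = 0
      · exact add_comm a b ▸ hard b a f hb ha e0' b0 a0 (E0 f hf) (by simpa [f1] using e) f1
      by_cases f2 : f.2 b.1 = 0
      · exact hard a b f ha hb e0 a0 b0 (E0 f hf) f1 f2
      · exact fin a b f ha hb e0 (E0 f hf) f1 f2 e
    push Not at rad
    have z : a.1 + b.1 ∈ Z C := mem_Z.2 fun u hu => by
      obtain ⟨c, c0, hc⟩ := h2 u hu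
      simpa [c0, -map_add] using rad _ hc
    have z' : ∀ w ∈ W C, b.2 w = -a.2 w := fun w hw => by
      have := zero_W (φ := a.2 + b.2) (fun u hu => by
        obtain ⟨c, c0, hc⟩ := h2 u hu
        simpa [rad _ hc, -map_add] using sk _ (add_mem ha.1 hb.1) _ hc) hw
      rw [LinearMap.add_apply] at this
      linear_combination this
    obtain ⟨g, hg, e⟩ := ha.2.1.2
    obtain ⟨g', hg', e'⟩ := hb.2.1.2
    have ev : ∀ v, (g * g'⁻¹) v - v = a.2 v • a.1 - b.2 v • b.1 := fun v => by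
      rw [LinearEquiv.mul_apply, inv_apply hb.2.1.1 e', e]; simp [e0]; abel
    have := h.N _ (W C ⊓ Z C) hC.invW (fun x φ r v hv => ⟨hC.invW x φ r v hv.1, hC.invZ x φ r v hv.2⟩) _
      (mul_mem hg (inv_mem hg')) (fun v => ev v ▸ sub_mem (smul_mem _ _ (LW a ha.1).1) (smul_mem _ _ (LW b hb.1).1))
      (fun v hv => ⟨ev v ▸ sub_mem (smul_mem _ _ (LW a ha.1).1) (smul_mem _ _ (LW b hb.1).1), by
        rw [ev, z' v hv, neg_smul, sub_neg_eq_add, ← smul_add]; exact smul_mem _ _ z⟩)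
      fun v hv => by rw [← sub_eq_zero, ev, mem_Z'.1 hv.2 _ (LW a ha.1).2, mem_Z'.1 hv.2 _ (LW b hb.1).2]; simp
    simp only [this, LinearEquiv.coe_one, id, sub_self] at ev
    obtain ⟨m, hm, e1⟩ := ha.2.2.resolve_left a0
    have e2 : a.2 m.1 ≠ 0 := by rw [sk a ha.1 m hm]; simpa
    have e3 : a.1 + b.1 = 0 := by
      have := ev m.1
      rw [z' _ (LW m hm).1, neg_smul, sub_neg_eq_add, ← smul_add] at this
      exact (smul_eq_zero.1 this.symm).resolve_left e2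
    have e4 : a.2 + b.2 = 0 := LinearMap.ext fun v => by
      have := ev v
      rw [eq_neg_of_add_eq_zero_right e3, smul_neg, sub_neg_eq_add, ← add_smul] at this
      exact (smul_eq_zero.1 this.symm).resolve_right fun e => e1 (by simp [e])
    have : a + b = 0 := Prod.ext e3 e4
    exact this ▸ ⟨zero_mem _, R.zl _, Or.inl rfl⟩
  intro l hl
  refine And.right (?_ : E l)
  induction hl using span_induction with
  | mem u hu => exact E0 u hu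
  | zero => exact ⟨zero_mem _, R.zl _, Or.inl rfl⟩
  | add u v _ _ hu hv => exact add u v hu hv
  | smul c u _ hu =>
    by_cases c0 : c = 0
    · exact c0 ▸ (zero_smul F u).symm ▸ ⟨zero_mem _, R.zl _, Or.inl rfl⟩
    exact ⟨smul_mem _ _ hu.1, T.sl c (T.sr c hu.2.1), hu.2.2.imp (fun e => by simp [e])
      fun ⟨m, hm, e⟩ => ⟨m, hm, by simp [c0, e]⟩⟩

theorem good (h : Hyp H) : Good H C := by
  rcases C.eq_empty_or_nonempty with rfl | ⟨o, ho⟩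
  · exact hC.good_blk h fun w hw φ _ _ => by simpa [show w = 0 by simpa [W] using hw] using R.zl φ
  by_cases tri : ∀ a ∈ C, ∀ b ∈ C, ∀ c ∈ C, a.2 b.1 * b.2 c.1 * c.2 a.1 + a.2 c.1 * b.2 a.1 * c.2 b.1 = 0
  swap
  · push Not at tri
    obtain ⟨a, ha, b, hb, c, hc, e⟩ := tri
    exact hC.good_blk h (hC.blk h ha hb hc e)
  obtain ⟨C₀, h0, ho, h1, sk, h2⟩ := hC.exists_L h ho tri
  have al := hC.L_all h h0 ho h1 sk h2
  have LW : ∀ l ∈ span F C₀, l.1 ∈ W C ∧ l.2 ∈ Φ C := fun l hl =>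
    (span_le (p := (W C).prod (Φ C))).2 (fun a ha => ⟨mem_W (h0 ha), mem_Φ (h0 ha)⟩) hl
  have s1 : W C ≤ (span F C₀).map (LinearMap.fst F _ _) := span_le.2 (by
    rintro _ ⟨a, ha, rfl⟩; obtain ⟨c, -, hc⟩ := h2 a ha; exact ⟨_, hc, rfl⟩)
  have s2 : Φ C ≤ (span F C₀).map (LinearMap.snd F _ _) := span_le.2 (by
    rintro _ ⟨a, ha, rfl⟩; obtain ⟨c, c0, hc⟩ := h2 a ha; exact ⟨_, smul_mem _ c⁻¹ hc, by simp [c0]⟩)
  have d1 : ∀ l ∈ span F C₀, l.1 ∈ Z C → l = 0 := fun l hl hz =>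
    (al l hl).2.resolve_right fun ⟨m, hm, e⟩ => e (mem_Z'.1 hz _ (LW m hm).2)
  have d2 : ∀ l ∈ span F C₀, (∀ w ∈ W C, l.2 w = 0) → l = 0 := fun l hl hz =>
    (al l hl).2.resolve_right fun ⟨m, hm, e⟩ => e (by rw [sk m hm l hl, hz _ (LW m hm).1, neg_zero])
  obtain ⟨g, hg⟩ := (((LinearMap.fst F V (Dual F V)).domRestrict (span F C₀)).codRestrict (W C)
    fun l => (LW _ l.2).1).exists_rightInverse_of_surjective (LinearMap.range_eq_top.2 fun w =>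
      let ⟨l, hl, e⟩ := s1 w.2; ⟨⟨l, hl⟩, Subtype.ext e⟩)
  have hg : ∀ w, (g w).1.1 = w := fun w => congrArg Subtype.val (LinearMap.congr_fun hg w)
  refine ⟨fun w hw hz => ?_, fun φ hφ hz => ?_, Or.inr ⟨LinearMap.snd F _ _ ∘ₗ (span F C₀).subtype ∘ₗ g,
    fun w => hg w ▸ (al _ (g w).2).1, fun w w' => ?_, fun w hw => Subtype.ext ?_, fun a ha => ?_⟩⟩
  · obtain ⟨l, hl, rfl⟩ := s1 hw; exact congrArg Prod.fst (d1 l hl hz)
  · obtain ⟨l, hl, rfl⟩ := s2 hφ; exact congrArg Prod.snd (d2 l hl hz)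
  · simpa [hg] using sk _ (g w).2 _ (g w').2
  · rw [← hg, d2 _ (g w).2 fun w' h' => hw ⟨w', h'⟩]; rfl
  · obtain ⟨c, c0, hc⟩ := h2 a ha
    have := congrArg Prod.snd (d1 _ (sub_mem hc (g ⟨a.1, mem_W ha⟩).2) (by simp [hg]))
    exact ⟨c⁻¹, by simp [← sub_eq_zero.1 this, c0]⟩

end Comp

end H20.McL
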