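import Cfsg.Agent.H20.McL

/-! McLaughlin's theorem, part 2: the groups `K C` of the components, their action on `W C` (`range_SL`, `range_Sp`),
and the direct decomposition (`mcl`). -/

set_option autoImplicit false
set_option linter.unusedSectionVars false
set_option linter.unusedVariables false

namespace H20.McL
open Module Submodule H11

variable {F V : Type*} [Field F] [AddCommGroup V] [Module F V] [FiniteDimensional F V]
  {H : Subgroup (V ≃ₗ[F] V)} {C C' : Set (V × Dual F V)} {a b : V × Dual F V} {x y : V} {φ ψ : Dual F V}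
  {g : V ≃ₗ[F] V}

theorem sl_le {K : Subgroup (V ≃ₗ[F] V)} (h : ∀ x (φ : Dual F V) (e : φ x = 0), LinearEquiv.transvection e ∈ K)
    (hg : LinearMap.det (g : V →ₗ[F] V) = 1) : g ∈ K := by
  classical
  let b := finBasis F V
  obtain ⟨A, hA⟩ := (Matrix.SpecialLinearGroup.toLin_equiv b).surjective ⟨g, Units.ext (by simpa)⟩
  rw [show g = (Matrix.SpecialLinearGroup.toLin_equiv b A).1 by rw [hA]]
  rcases subsingleton_or_nontrivial (Fin (finrank F V)) with e | e
  · rw [Subsingleton.elim A 1, map_one]; exact one_mem _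
  refine H10.SL_transvection_induction (fun A => (Matrix.SpecialLinearGroup.toLin_equiv b A).1 ∈ K) (fun i j e c => ?_)
    (fun A B h h' => by rw [map_mul]; exact mul_mem h h') A
  convert h (b i) (c • b.coord j) (by simp [e]) using 1
  refine LinearEquiv.toLinearMap_injective (b.ext fun k => ?_)
  change Matrix.toLin b b (Matrix.transvection i j c) (b k) = _
  simp [Matrix.transvection, LinearMap.transvection.apply, Matrix.toLin_self, Matrix.single, Finsupp.single_apply,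
    ite_and, eq_comm]

/-- the group of a component -/
def K (C : Set (V × Dual F V)) : Subgroup (V ≃ₗ[F] V) := Subgroup.closure {g | ∃ a ∈ C, ∀ v, g v = v + a.2 v • a.1}

theorem K_fix (hg : g ∈ K C) {v : V} (hv : v ∈ Z C) : g v = v := by
  induction hg using Subgroup.closure_induction with
  | mem g h => obtain ⟨a, ha, e⟩ := h; simp [e, mem_Z.1 hv a ha]
  | one => rfl
  | mul g g' _ _ h h' => simp [h, h']
  | inv g _ h => exact g.injective (by simp [h])
theorem K_sub (hg : g ∈ K C) (v : V) : g v - v ∈ W C := by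
  induction hg using Subgroup.closure_induction generalizing v with
  | mem g h => obtain ⟨a, ha, e⟩ := h; simpa [e] using smul_mem _ _ (mem_W ha)
  | one => simp
  | mul g g' _ _ h h' => simpa using add_mem (h (g' v)) (h' v)
  | inv g _ h => simpa using neg_mem (h (g⁻¹ v))
theorem K_mem (hg : g ∈ K C) {v : V} (hv : v ∈ W C) : g v ∈ W C := by simpa using add_mem (K_sub hg v) hv
theorem map_eq {X : Submodule F V} (h : ∀ g ∈ H, ∀ v ∈ X, g v ∈ X) (hg : g ∈ H) : X.map (g : V →ₗ[F] V) = X :=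
  le_antisymm (by rintro _ ⟨v, hv, rfl⟩; exact h g hg v hv) fun v hv => ⟨_, h _ (inv_mem hg) v hv, by simp⟩

/-- the action of `K C` on `W C` -/
def res (C : Set (V × Dual F V)) : K C →* (W C ≃ₗ[F] W C) where
  toFun g := g.1.ofSubmodules _ _ (map_eq (fun _ h _ => K_mem h) g.2)
  map_one' := by ext; rfl
  map_mul' _ _ := by ext; rfl
theorem res_apply (g : K C) (v : W C) : (res C g v : V) = g.1 v := rfl

theorem Good.sup (h : Good H C) : W C ⊔ Z C = ⊤ := by
  rw [← dualAnnihilator_eq_bot_iff, dualAnnihilator_sup_eq, Z, Subspace.dualCoannihilator_dualAnnihilator_eq,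
    eq_bot_iff]
  exact fun φ hφ => h.d2 φ hφ.2 ((mem_dualAnnihilator φ).1 hφ.1)

theorem Good.ext (h : Good H C) (φ : Dual F (W C)) : ∃ ψ ∈ Φ C, ∀ w : W C, ψ w = φ w := by
  have c : IsCompl (W C) (Z C) := ⟨disjoint_def.2 h.d1, codisjoint_iff.2 h.sup⟩
  refine ⟨φ ∘ₗ (W C).projectionOnto _ c, ?_, by simp⟩
  rw [← Subspace.dualCoannihilator_dualAnnihilator_eq (W := Φ C), mem_dualAnnihilator]
  exact fun w hw => by simp [(projectionOnto_apply_eq_zero_iff c).2 hw]

theorem Comp.K_le (hC : Comp H C) : K C ≤ H := (Subgroup.closure_le _).2 fun g ⟨a, ha, e⟩ =>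
  let ⟨g', hg, e'⟩ := (hC.sub a ha).1.2; (LinearEquiv.ext fun v => (e' v).trans (e v).symm : g' = g) ▸ hg

theorem Comp.mem_K (hC : Comp H C) (h : Good H C) (r : R H x φ) (hx : x ∈ W C) (e : ∀ v, g v = v + φ v • x) :
    g ∈ K C := by
  by_cases x0 : x = 0
  · exact (LinearEquiv.ext fun v => by simp [e, x0] : 1 = g) ▸ one_mem _
  by_cases p0 : φ = 0
  · exact (LinearEquiv.ext fun v => by simp [e, p0] : 1 = g) ▸ one_mem _
  exact Subgroup.subset_closure ⟨(x, φ), by_contra fun e => x0 (h.d1 x hx (hC.orth ⟨r, x0, p0⟩ e).2), e⟩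

theorem res_ind {S : Subgroup (W C ≃ₗ[F] W C)}
    (h : ∀ a (ha : a ∈ C) (f : W C ≃ₗ[F] W C), (∀ v, f v = v + a.2 v • ⟨a.1, mem_W ha⟩) → f ∈ S) :
    (res C).range ≤ S := by
  rintro _ ⟨⟨g, hg⟩, rfl⟩
  induction hg using Subgroup.closure_induction with
  | mem g e => obtain ⟨a, ha, e⟩ := e; exact h a ha _ fun v => Subtype.ext (e v)
  | one => exact (map_one (res C)).symm ▸ one_mem S
  | mul g g' h1 h2 h h' => exact (map_mul (res C) ⟨g, h1⟩ ⟨g', h2⟩).symm ▸ mul_mem h h'
  | inv g h1 h => exact (map_inv (res C) ⟨g, h1⟩).symm ▸ inv_mem h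

theorem Comp.mem_range (hC : Comp H C) (h : Good H C) {x : W C} (r : R H x φ) {f : W C ≃ₗ[F] W C}
    (e : ∀ v, f v = v + φ v • x) : f ∈ (res C).range :=
  let ⟨g, _, e'⟩ := r.2; ⟨⟨g, hC.mem_K h r x.2 e'⟩, LinearEquiv.ext fun v => Subtype.ext (by simp [res_apply, e, e'])⟩

theorem Comp.range (hC : Comp H C) (hH : Hyp H) :
    ((res C).range : Set (W C ≃ₗ[F] W C)) = {f : W C ≃ₗ[F] W C | LinearMap.det (f : W C →ₗ[F] W C) = 1} ∨
      ∃ B : LinearMap.BilinForm F (W C), B.IsAlt ∧ B.Nondegenerate ∧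
        ((res C).range : Set (W C ≃ₗ[F] W C)) = {f | ∀ x y, B (f x) (f y) = B x y} := by
  have h := hC.good hH
  refine h.ty.imp (fun B => Set.Subset.antisymm (fun f hf => ?_) fun f hf => sl_le (fun x φ e => ?_) hf) ?_
  · have := res_ind (S := LinearEquiv.det.ker) (fun a ha f e => ?_) hf
    · exact (LinearEquiv.coe_det f).symm.trans (congrArg Units.val this)
    · rw [show f = LinearEquiv.transvection (f := a.2 ∘ₗ (W C).subtype) (v := ⟨a.1, mem_W ha⟩) (hC.sub a ha).1.1 from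
        LinearEquiv.ext e]
      exact LinearEquiv.transvection.det_eq_one _
  · obtain ⟨ψ, h1, h2⟩ := h.ext φ
    exact hC.mem_range h (B _ x.2 ψ h1 ((h2 x).trans e)) fun v => by simp [h2, LinearMap.transvection.apply]
  · rintro ⟨f, f1, f2, f3, f4⟩
    let B : LinearMap.BilinForm F (W C) := f.compl₂ (W C).subtype
    have A : B.IsAlt := fun w => (f1 w).1
    have N : B.Nondegenerate := ⟨f3, fun w hw => f3 w fun w' => (f2 w w').trans (neg_eq_zero.2 (hw w'))⟩
    refine ⟨B, A, N, Set.Subset.antisymm (fun g hg => ?_) fun g hg => ?_⟩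
    · refine (res_ind (S := (sympS B A).Isom) (fun a ha g e => PForm.symp_isIsom fun x y => ?_) hg).h_eq
      obtain ⟨c, hc⟩ := f4 a ha
      have := A ⟨a.1, mem_W ha⟩
      have h2 := f2 x ⟨a.1, mem_W ha⟩
      simp only [e, hc, sympS_h, map_add, map_smul, LinearMap.add_apply, LinearMap.smul_apply, this, smul_eq_mul]
      simp only [B, LinearMap.compl₂_apply, subtype_apply, h2]
      ring
    · have : (sympS B A).T ≤ (res C).range.comap (sympS B A).Isom.subtype := PForm.T_le_iff.2 fun u c _ _ _ =>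
        hC.mem_range h (hH.tvs.sr c (f1 u)) fun v => PForm.symp_transv_apply u c v
      exact this (x := ⟨g, PForm.symp_isIsom hg⟩) ((sympS_nondeg A N).symp_T_eq_top ▸ trivial)

theorem Comp.comm (hC : Comp H C) (hC' : Comp H C') (e : C ≠ C') {g' : V ≃ₗ[F] V} (hg : g ∈ K C) (hg' : g' ∈ K C') :
    g * g' = g' * g := LinearEquiv.ext fun v => by
  have h1 := K_fix hg (hC'.W_le_Z hC e.symm (K_sub hg' v))
  have h2 := K_fix hg' (hC.W_le_Z hC' e (K_sub hg v))
  simp only [map_sub, LinearEquiv.mul_apply] at h1 h2 ⊢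
  linear_combination (norm := abel1) h1 - h2

theorem mcl [Finite F] (hH : Hyp H) (gen : H ≤ Subgroup.closure {g | ∃ x φ, R H x φ ∧ ∀ v, g v = v + φ v • x}) :
    ∃ (n : ℕ) (W : Fin (n + 1) → Submodule F V) (K : Fin n → Subgroup (V ≃ₗ[F] V)),
      1 ≤ n ∧ DirectSum.IsInternal W ∧
      (∀ h ∈ H, ∀ i, (W i).map (h : V →ₗ[F] V) = W i) ∧
      (∀ j, K j ≤ H ∧ ((K j).subgroupOf H).Normal) ∧ ⨆ j, K j = H ∧
      (∀ j, K j ⊓ (⨆ j' ∈ {j' : Fin n | j' ≠ j}, K j') = ⊥) ∧
      (∀ j j', j ≠ j' → ∀ a ∈ K j, ∀ b ∈ K j', a * b = b * a) ∧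
      (∀ j, ∀ h ∈ K j, ∀ i : Fin (n + 1), i ≠ j.succ → ∀ v ∈ W i, h v = v) ∧
      (∀ j, ∃ ρ : ↥(K j) →* (↥(W j.succ) ≃ₗ[F] ↥(W j.succ)),
        (∀ (h : ↥(K j)) (v : ↥(W j.succ)), ((ρ h v : ↥(W j.succ)) : V) = (h : V ≃ₗ[F] V) (v : V)) ∧
        ((ρ.range : Set (↥(W j.succ) ≃ₗ[F] ↥(W j.succ))) =
            {f : ↥(W j.succ) ≃ₗ[F] ↥(W j.succ) | LinearMap.det (f : ↥(W j.succ) →ₗ[F] ↥(W j.succ)) = 1} ∨
          ∃ B : LinearMap.BilinForm F ↥(W j.succ), B.IsAlt ∧ B.Nondegenerate ∧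
            (ρ.range : Set (↥(W j.succ) ≃ₗ[F] ↥(W j.succ))) =
              {f : ↥(W j.succ) ≃ₗ[F] ↥(W j.succ) | ∀ x y, B (f x) (f y) = B x y})) := by
  have := Module.finite_of_finite F (M := V)
  have := Module.finite_of_finite F (M := Dual F V)
  obtain ⟨n, ⟨e⟩⟩ := Finite.exists_equiv_fin {C : Set (V × Dual F V) // Comp H C}
  let c : Fin n → Set (V × Dual F V) := fun j => (e.symm j).1
  have hc : ∀ j, Comp H (c j) := fun j => (e.symm j).2
  have ne : ∀ {j j'}, j ≠ j' → c j ≠ c j' := fun h h' => h (e.symm.injective (Subtype.ext h'))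
  let U : Fin (n + 1) → Submodule F V := Fin.cons (⨅ j, Z (c j)) fun j => W (c j)
  have hU : ∀ j i, i ≠ j.succ → U i ≤ Z (c j) := fun j i =>
    Fin.cases (fun _ => iInf_le _ j) (fun i h => (hc i).W_le_Z (hc j) (ne fun e => h (by rw [e]))) i
  have fx : ∀ j, ∀ h ∈ K (c j), ∀ i : Fin (n + 1), i ≠ j.succ → ∀ v ∈ U i, h v = v :=
    fun j g hg i hi v hv => K_fix hg (hU j i hi hv)
  have top : ⨆ j, K (c j) = H := le_antisymm (iSup_le fun j => (hc j).K_le) (gen.trans ((Subgroup.closure_le _).2 (by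
    rintro g ⟨x, φ, r, h⟩
    by_cases x0 : x = 0
    · exact (LinearEquiv.ext fun v => by simp [h, x0] : 1 = g) ▸ one_mem _
    by_cases p0 : φ = 0
    · exact (LinearEquiv.ext fun v => by simp [h, p0] : 1 = g) ▸ one_mem _
    obtain ⟨C, hC, ha⟩ := exists_comp (a := (x, φ)) ⟨r, x0, p0⟩
    exact Subgroup.mem_iSup_of_mem (e ⟨C, hC⟩) (Subgroup.subset_closure ⟨(x, φ), by simpa [c] using ha, h⟩))))
  have cm := fun j j' (h : j ≠ j') a ha b hb => (hc j).comm (g := a) (g' := b) (hc j') (ne h) ha hb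
  refine ⟨n, U, fun j => K (c j), (e ⟨∅, comp_empty⟩).pos, ?_, fun g hg i => map_eq (fun g hg v hv => ?_) hg,
    fun j => ⟨(hc j).K_le, ?_⟩, top, fun j => eq_bot_iff.2 fun g hg => LinearEquiv.ext fun v => ?_, cm, fx,
    fun j => ⟨res (c j), res_apply, (hc j).range hH⟩⟩
  · refine DirectSum.isInternal_submodule_of_iSupIndep_of_iSup_eq_top ?_ (eq_top_iff.2 fun v _ => ?_)
    · rw [iSupIndep_iff_finsetSum_eq_zero_imp_eq_zero]
      intro s v hv h0
      have h1 : ∀ j : Fin n, j.succ ∈ s → v j.succ = 0 := fun j hj => ((hc j).good hH).d1 _ (hv _ hj) (by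
        rw [← Finset.add_sum_erase _ _ hj, add_eq_zero_iff_eq_neg] at h0
        exact h0 ▸ neg_mem (sum_mem fun i hi => hU j i (Finset.ne_of_mem_erase hi) (hv i (Finset.mem_of_mem_erase hi))))
      refine Fin.cases (fun h => ?_) h1
      rwa [Finset.sum_eq_single_of_mem 0 h (Fin.cases (by simp) fun j hj _ => h1 j hj)] at h0
    · choose w hw z hz hwz using fun j => mem_sup.1 (((hc j).good hH).sup.ge (mem_top (x := v)))
      rw [← sub_add_cancel v (∑ j, w j)]
      refine add_mem (mem_iSup_of_mem 0 ((mem_iInf _).2 fun j => ?_)) (sum_mem fun j _ => mem_iSup_of_mem j.succ (hw j))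
      rw [← Finset.add_sum_erase _ _ (Finset.mem_univ j), ← sub_sub, ← hwz j, add_sub_cancel_left]
      exact sub_mem (hz j) (sum_mem fun i hi => (hc i).W_le_Z (hc j) (ne (Finset.ne_of_mem_erase hi)) (hw i))
  · rw [← top] at hg
    induction hg using Subgroup.iSup_induction' generalizing v with
    | hp j g hg =>
      by_cases h : i = j.succ
      · subst h; exact K_mem hg hv
      · rwa [fx j g hg i h v hv]
    | h1 => exact hv
    | hmul g g' _ _ h h' => exact h _ (h' _ hv)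
  · rw [Subgroup.normal_subgroupOf_iff_le_normalizer (hc j).K_le, ← top]
    refine iSup_le fun j' => ?_
    by_cases h : j' = j
    · exact h ▸ Subgroup.le_normalizer
    · exact le_trans (fun g hg => Subgroup.mem_centralizer_iff.2 fun b hb => cm j j' (Ne.symm h) b hb g hg)
        (Subgroup.centralizer_le_normalizer _)
  · obtain ⟨w, hw, z, hz, rfl⟩ := mem_sup.1 (((hc j).good hH).sup.ge (mem_top (x := v)))
    have : g ∈ MulAction.stabilizer (V ≃ₗ[F] V) w := (iSup₂_le fun j' (h : j' ≠ j) g hg =>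
      fx j' g hg j.succ (by simpa using h.symm) w hw : _ ≤ MulAction.stabilizer (V ≃ₗ[F] V) w) hg.2
    rw [map_add, K_fix hg.1 hz, show g w = w from this]; rfl

end H20.McL
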