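import Cfsg.Agent.H5.Jor

/-! Overgroups of product action wreath products: definitions (`co`, `Hy`, `Ok`, `Eqv`, `Com`) and the
statements of the pieces of the proof. -/

set_option autoImplicit false
set_option linter.unusedSectionVars false

namespace H20.Pw

open Equiv Function

section
variable {ι U : Type} [Fintype ι] [DecidableEq ι] [Fintype U] [DecidableEq U]

/-- `σ` acting on the coordinate `i` -/
def co (i : ι) : Perm U →* Perm (ι → U) where
  toFun σ :=
    { toFun := fun f => update f i (σ (f i))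
      invFun := fun f => update f i (σ.symm (f i))
      left_inv := fun f => by simp
      right_inv := fun f => by simp }
  map_one' := Equiv.ext fun f => by simp
  map_mul' σ τ := Equiv.ext fun f => by simp

theorem co_apply (i : ι) (σ : Perm U) (f : ι → U) : co i σ f = update f i (σ (f i)) := rfl

@[simp] theorem co_same (i : ι) (σ : Perm U) (f : ι → U) : co i σ f i = σ (f i) := by simp [co_apply]

theorem co_ne {i j : ι} (h : j ≠ i) (σ : Perm U) (f : ι → U) : co i σ f j = f j := by simp [co_apply, h]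

theorem co_fix {i : ι} {σ : Perm U} {f : ι → U} : co i σ f = f ↔ σ (f i) = f i :=
  ⟨fun h => by simpa using congrFun h i, fun h => by simp [co_apply, h]⟩

theorem co_comm {i j : ι} (h : i ≠ j) (σ τ : Perm U) : co i σ * co j τ = co j τ * co i σ :=
  Equiv.ext fun f => by simp [co_apply, h, h.symm, update_comm h]

/-- an overgroup of the even part of the wreath product not containing the alternating group -/
structure Hy (H : Subgroup (Perm (ι → U))) : Prop where
  five : 5 ≤ Fintype.card U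
  two : ∀ i : ι, ∃ j, j ≠ i
  ev : ∀ i, ∀ σ ∈ alternatingGroup U, co i σ ∈ H
  sw : ∀ j j' : ι, ∃ h ∈ H, ∃ τ : Perm U, ∀ f, h f = co j τ (f ∘ swap j j')
  na : ¬ alternatingGroup (ι → U) ≤ H

/-- `x ∈ H` keeps the `i`-th coordinate and commutes with its permutations -/
def Nm (H : Subgroup (Perm (ι → U))) (i : ι) (x : Perm (ι → U)) : Prop :=
  x ∈ H ∧ (∀ f, x f i = f i) ∧ ∀ σ, x * co i σ = co i σ * x

end

section
variable (G : Type) {X U W : Type} [Group G] [MulAction G X] [Fintype U] [DecidableEq U]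

variable {G} in
/-- `g` acts as `σ` on the first factor -/
def Act (s : U × W ≃ X) (g : G) (σ : Perm U) : Prop := ∀ u w, g • s (u, w) = s (σ u, w)

/-- three-cycles on the first factor are induced by `G`; elements fixing a slice act on the first factor -/
def Ok (s : U × W ≃ X) : Prop := (∀ σ : Perm U, σ.IsThreeCycle → ∃ g : G, Act s g σ) ∧
  ∀ (g : G) d, (∀ w, g • s (d, w) = s (d, w)) → ∃ σ, Act s g σ

/-- the same product structure -/
def Eqv (s s' : U × W ≃ X) : Prop := ∃ (α : Perm U) (ρ : Perm W), ∀ u w, s' (u, w) = s (α u, ρ w)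

/-- commuting product structures -/
def Com (s s' : U × W ≃ X) : Prop := ∀ (x y : G) (σ τ : Perm U), σ.IsThreeCycle → τ.IsThreeCycle →
  Act s x σ → Act s' y τ → ∀ p : X, x • y • p = y • x • p

end

def PGood : Prop := ∀ (G X U W : Type) [Group G] [MulAction G X] [Fintype U] [DecidableEq U] [Fintype W],
  5 ≤ Fintype.card U → ∀ s s' : U × W ≃ X, Ok G s → Ok G s' → Eqv s s' ∨ Com G s s'

def PRel : Prop := ∀ (ι U : Type) [Fintype ι] [DecidableEq ι] [Fintype U] [DecidableEq U]
  (H : Subgroup (Perm (ι → U))), Hy H → ∀ (i j : ι) (r : (ι → U) → (ι → U) → Prop), Equivalence r →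
  (∀ x, Nm H i x → ∀ f g, r f g → r (x f) (x g)) → ∀ f g, r f g → j ≠ i → f j ≠ g j →
  ∀ f' g', f' i = g i → g' i = g i → r f' g'

def P4 : Prop := ∀ (ι U : Type) [Fintype ι] [DecidableEq ι] [Fintype U] [DecidableEq U]
  (H : Subgroup (Perm (ι → U))), Hy H → ∀ (i : ι) (d : U), ∀ h ∈ H, (∀ f, f i ≠ d → h f = f) → h = 1

def P3 : Prop := ∀ (ι U : Type) [Fintype ι] [DecidableEq ι] [Fintype U] [DecidableEq U]
  (H : Subgroup (Perm (ι → U))), Hy H → ∀ i : ι, ∀ h ∈ H, (∀ f j, j ≠ i → h f j = f j) → ∃ σ, h = co i σ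

def P5 : Prop := ∀ (ι U : Type) [Fintype ι] [DecidableEq ι] [Fintype U] [DecidableEq U]
  (H : Subgroup (Perm (ι → U))), Hy H → ∀ (i : ι) (a b c : U), ∀ z ∈ H, (∀ f, z f i = f i) →
  (∀ f, f i ≠ a → f i ≠ b → f i ≠ c → z f = f) → z = 1

def P6 : Prop := ∀ (ι U : Type) [Fintype ι] [DecidableEq ι] [Fintype U] [DecidableEq U]
  (H : Subgroup (Perm (ι → U))), Hy H → ∀ (i : ι) (d a b a' b' : U), a ≠ d → b ≠ d → a ≠ b → a' ≠ b' →
  ∀ g ∈ H, (∀ f, f i = d → g f = f) → (∀ f, f i = a → g f i = a') → (∀ f, f i = b → g f i = b') →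
  ∀ f, f i = a → g f = update f i a'

def PN2 : Prop := ∀ (ι U : Type) [Fintype ι] [DecidableEq ι] [Fintype U] [DecidableEq U]
  (H : Subgroup (Perm (ι → U))), Hy H → 6 ≤ Fintype.card U → ∀ (i : ι) (d e : U), d ≠ e → ∀ g ∈ H,
  (∀ f, f i = d ∨ f i = e → g f = f) → ∃ σ, g = co i σ

def PN5 : Prop := ∀ (ι U : Type) [Fintype ι] [DecidableEq ι] [Fintype U] [DecidableEq U]
  (H : Subgroup (Perm (ι → U))), Hy H → Fintype.card U = 5 → ∀ (i : ι) (d : U), ∀ g ∈ H,
  (∀ f, f i = d → g f = f) → ∃ σ, g = co i σ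

def PN6 : Prop := ∀ (ι U : Type) [Fintype ι] [DecidableEq ι] [Fintype U] [DecidableEq U]
  (H : Subgroup (Perm (ι → U))), Hy H → 6 ≤ Fintype.card U → ∀ (i : ι) (d : U), ∀ g ∈ H,
  (∀ f, f i = d → g f = f) → ∃ σ, g = co i σ

def PW : Prop := ∀ (ι U : Type) [Fintype ι] [DecidableEq ι] [Fintype U] [DecidableEq U]
  (H : Subgroup (Perm (ι → U))), Hy H → ∀ g ∈ H,
  ∃ (π : Perm ι) (τ : ι → Perm U), ∀ f i, g f i = τ i (f (π.symm i))

end H20.Pw
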