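import Cfsg.Agent.H20.Pw0

/-! Product structures: labels `L`, positions `P`, shared slices give `Eqv`, three-cycles normalising a
structure (`iv`, `nrm`). -/

set_option autoImplicit false
set_option linter.unusedSectionVars false

namespace H20.Pw

open Equiv Function Finset

section
variable {U : Type} [Fintype U] [DecidableEq U]

theorem fresh (h : 5 ≤ Fintype.card U) (a b c d : U) : ∃ e, e ≠ a ∧ e ≠ b ∧ e ≠ c ∧ e ≠ d := by
  by_contra k
  have h1 : (univ : Finset U) ⊆ {a, b, c, d} := fun e _ => by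
    by_contra k'
    simp only [mem_insert, mem_singleton, not_or] at k'
    exact k ⟨e, k'⟩
  have h2 := card_le_card h1
  have h3 : ({a, b, c, d} : Finset U).card ≤ 4 := card_le_four
  rw [card_univ] at h2
  omega

theorem c3 {a b c : U} (ab : a ≠ b) (ac : a ≠ c) (bc : b ≠ c) : ∃ τ : Perm U, τ.IsThreeCycle ∧ τ a = b ∧
    τ b = c ∧ τ c = a ∧ ∀ u, u ≠ a → u ≠ b → u ≠ c → τ u = u :=
  ⟨swap a c * swap a b, Perm.isThreeCycle_swap_mul_swap_same ac ab bc.symm,
    by simp [swap_apply_of_ne_of_ne ab.symm bc], by simp,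
    by simp [swap_apply_of_ne_of_ne ac.symm bc.symm],
    fun u h1 h2 h3 => by simp [swap_apply_of_ne_of_ne h1 h2, swap_apply_of_ne_of_ne h1 h3]⟩

theorem mv (h : 5 ≤ Fintype.card U) {d f u : U} (h1 : u ≠ d) (h2 : u ≠ f) :
    ∃ τ : Perm U, τ.IsThreeCycle ∧ τ d = d ∧ τ f = f ∧ τ u ≠ u := by
  obtain ⟨b, b1, b2, b3, -⟩ := fresh h d f u u
  obtain ⟨c, c1, c2, c3', c4⟩ := fresh h d f u b
  obtain ⟨τ, t0, t1, -, -, t4⟩ := c3 b3.symm c3'.symm c4.symm
  exact ⟨τ, t0, t4 _ h1.symm b1.symm c1.symm, t4 _ h2.symm b2.symm c2.symm, t1 ▸ b3⟩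

theorem tr (h : 5 ≤ Fintype.card U) {d u v : U} (h1 : u ≠ d) (h2 : v ≠ d) (h3 : u ≠ v) :
    ∃ τ : Perm U, τ.IsThreeCycle ∧ τ d = d ∧ τ u = v := by
  obtain ⟨c, c1, c2, c3', -⟩ := fresh h d u v v
  obtain ⟨τ, t0, t1, -, -, t4⟩ := c3 h3 c2.symm c3'.symm
  exact ⟨τ, t0, t4 _ h1.symm h2.symm c1.symm, t1⟩

theorem fix_add (α : Perm U) : #{u | α u = u} + α.support.card = Fintype.card U := by
  rw [Perm.support, ← card_univ]
  exact card_filter_add_card_filter_not _

theorem three_le {α : Perm U} (h : α ^ 3 = 1) (h1 : α ≠ 1) : 3 ≤ α.support.card := by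
  have h2 := Perm.two_le_card_support_of_ne_one h1
  by_contra k
  obtain ⟨a, b, -, rfl⟩ := Perm.card_support_eq_two.1 (show α.support.card = 2 by omega)
  rw [pow_succ, sq, swap_mul_self, one_mul] at h
  exact h1 h

end

section
variable {G X U W : Type} [Group G] [MulAction G X] [Fintype U] [DecidableEq U] [Fintype W]

/-- label of a point -/
def L (s : U × W ≃ X) (p : X) : U := (s.symm p).1

/-- position of a point -/
def P (s : U × W ≃ X) (p : X) : W := (s.symm p).2

@[simp] theorem L_s (s : U × W ≃ X) (u : U) (w : W) : L s (s (u, w)) = u := by simp [L]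

@[simp] theorem P_s (s : U × W ≃ X) (u : U) (w : W) : P s (s (u, w)) = w := by simp [P]

theorem eta (s : U × W ≃ X) (p : X) : s (L s p, P s p) = p := by simp [L, P]

theorem ext' (s : U × W ≃ X) {p q : X} (h : L s p = L s q) (h' : P s p = P s q) : p = q := by
  rw [← eta s p, h, h', eta]

variable {s s' : U × W ≃ X} {x y : G} {σ τ : Perm U}

theorem Act.lab (h : Act s x σ) (p : X) : L s (x • p) = σ (L s p) := by
  conv_lhs => rw [← eta s p, h, L_s]

theorem Act.pos (h : Act s x σ) (p : X) : P s (x • p) = P s p := by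
  conv_lhs => rw [← eta s p, h, P_s]

theorem Act.fix (h : Act s x σ) (p : X) : x • p = p ↔ σ (L s p) = L s p :=
  ⟨fun k => by rw [← h.lab, k], fun k => ext' s (by rw [h.lab, k]) (h.pos p)⟩

theorem Act.inv (h : Act s x σ) : Act s x⁻¹ σ⁻¹ := fun u w => by
  rw [inv_smul_eq_iff, h]; simp

/-- transported structure -/
def cj (s : U × W ≃ X) (g : G) : U × W ≃ X := s.trans (MulAction.toPerm g)

theorem cj_apply (s : U × W ≃ X) (g : G) (z : U × W) : cj s g z = g • s z := rfl

theorem L_cj (s : U × W ≃ X) (g : G) (p : X) : L (cj s g) p = L s (g⁻¹ • p) := rfl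

theorem Ok.cj (h : Ok G s) (g : G) : Ok G (cj s g) := by
  refine ⟨fun σ hσ => ?_, fun k d hk => ?_⟩
  · obtain ⟨k, hk⟩ := h.1 σ hσ
    exact ⟨g * k * g⁻¹, fun u w => by simp [cj_apply, mul_smul, hk u w]⟩
  · obtain ⟨σ, hσ⟩ := h.2 (g⁻¹ * k * g) d fun w => by
      rw [mul_smul, mul_smul, inv_smul_eq_iff]; exact hk w
    refine ⟨σ, fun u w => ?_⟩
    have := hσ u w
    rwa [mul_smul, mul_smul, inv_smul_eq_iff] at this

theorem sh_act (hs : Ok G s) {d d' : U} (h : ∀ p, L s p = d → L s' p = d') (hy : Act s' y τ)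
    (e : τ d' = d') : ∃ σ, Act s y σ :=
  hs.2 y d fun w => (hy.fix _).2 (by rw [h _ (L_s _ _ _), e])

theorem sh_lab (m : 5 ≤ Fintype.card U) (hs : Ok G s) (hs' : Ok G s') {d d' : U}
    (h : ∀ p, L s p = d ↔ L s' p = d') (p q : X) (e : L s p = L s q) : L s' p = L s' q := by
  by_contra ne
  have q1 : L s' q ≠ d' := fun k => ne (((h p).1 (e.trans ((h q).2 k))).trans k.symm)
  obtain ⟨τ, t0, t1, t2, t3⟩ := mv m q1 (Ne.symm ne)
  obtain ⟨y, hy⟩ := hs'.1 τ t0
  obtain ⟨σ, hσ⟩ := sh_act hs (fun p => (h p).1) hy t1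
  exact t3 ((hy.fix q).1 ((hσ.fix q).2 (e ▸ (hσ.fix p).1 ((hy.fix p).2 t2))))

theorem sub_eq {c c' : U} (h : ∀ p, L s p = c → L s' p = c') (p : X) : L s p = c ↔ L s' p = c' := by
  refine ⟨h p, fun k => ?_⟩
  have inj : Injective fun w => P s' (s (c, w)) := fun w w' e => by
    have := ext' s' ((h _ (L_s _ _ _)).trans (h _ (L_s _ _ _)).symm) e
    simpa using this
  obtain ⟨w, hw⟩ := Finite.injective_iff_surjective.1 inj (P s' p)
  rw [← ext' s' ((h _ (L_s _ _ _)).trans k.symm) hw, L_s]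

theorem eqv_of_sub (m : 5 ≤ Fintype.card U) (hs : Ok G s) (hs' : Ok G s') {d d' : U}
    (h0 : ∀ p, L s p = d → L s' p = d') : Eqv s s' := by
  have h := sub_eq h0
  have h1 := sh_lab m hs hs' h
  have h2 := sh_lab m hs' hs fun p => (h p).symm
  have h3 : ∀ p q, P s' p = P s' q → P s p = P s q := fun p q e => by
    by_cases k : L s' p = L s' q
    · rw [ext' s' k e]
    obtain ⟨c, c1, c2, -⟩ := fresh m (L s' p) (L s' q) d d
    obtain ⟨τ, t0, t1, t2⟩ := tr m c1.symm c2.symm k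
    obtain ⟨y, hy⟩ := hs'.1 τ t0
    obtain ⟨σ, hσ⟩ := sh_act (d := L s (s' (c, P s' p))) hs (fun z hz => by rw [h1 _ _ hz, L_s]) hy t1
    rw [← hσ.pos p, ext' s' ((hy.lab p).trans t2) ((hy.pos p).trans e)]
  rcases isEmpty_or_nonempty W with k | ⟨⟨w0⟩⟩
  · exact ⟨1, 1, fun u w => k.elim w⟩
  have key : ∀ u w, s' (u, w) = s (L s (s' (u, w0)), P s (s' (d, w))) := fun u w =>
    ext' s (by rw [L_s]; exact h2 _ _ (by simp)) (by rw [P_s]; exact h3 _ _ (by simp))
  refine ⟨Equiv.ofBijective (fun u => L s (s' (u, w0))) (Finite.injective_iff_bijective.1 fun u v e => ?_),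
    Equiv.ofBijective (fun w => P s (s' (d, w))) (Finite.injective_iff_bijective.1 fun u v e => ?_), key⟩
  · have := key u w0
    rw [e, ← key] at this
    simpa using this
  · have := key d u
    rw [e, ← key] at this
    simpa using this

theorem com_lab (m : 5 ≤ Fintype.card U) (hs : Ok G s)
    (hc : ∀ (x : G) (σ : Perm U), σ.IsThreeCycle → Act s x σ → ∀ p : X, x • y • p = y • x • p) (p : X) :
    L s (y • p) = L s p := by
  by_contra k
  obtain ⟨τ, t0, t1, -, t3⟩ := mv m k k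
  obtain ⟨x, hx⟩ := hs.1 τ t0
  have := hc x τ t0 hx p
  rw [(hx.fix p).2 t1] at this
  exact t3 ((hx.fix _).1 this)

variable [Fintype X] [DecidableEq X] [DecidableEq W]

theorem cnt {α : Perm U} {ρ : Perm W} (h : ∀ u w, x • s (u, w) = s (α u, ρ w)) :
    #{p : X | x • p = p} = #{u | α u = u} * #{w | ρ w = w} := by
  rw [← card_product]
  refine (card_equiv s fun z => ?_).symm
  obtain ⟨u, w⟩ := z
  simp [h]

theorem cnt3 (h : Act s x τ) (t : τ.IsThreeCycle) :
    #{p : X | x • p = p} = (Fintype.card U - 3) * Fintype.card W := by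
  have := fix_add τ
  rw [cnt (α := τ) (ρ := 1) h, t.card_support] at *
  simp only [Perm.coe_one, id_eq, filter_true, card_univ]
  congr 1
  omega

theorem not_com (m : 5 ≤ Fintype.card U) [Nonempty W] (hs : Ok G s) (h : Act s' x τ) (t : τ.IsThreeCycle) :
    ¬ Com G s (cj s x) := fun hc => by
  have h1 : #{p : X | x • p = p} ≤ #(univ : Finset W) :=
    card_le_card_of_injOn (P s) (fun _ _ => mem_univ _) fun p hp q hq e => by
      simp only [coe_filter, mem_univ, true_and, Set.mem_setOf_eq] at hp hq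
      by_contra ne
      have k : L s p ≠ L s q := fun k => ne (ext' s k e)
      obtain ⟨c, c1, c2, -⟩ := fresh m (L s p) (L s q) (L s p) (L s p)
      obtain ⟨σ, t0, -, t2⟩ := tr m c1.symm c2.symm k
      obtain ⟨z, hz⟩ := hs.1 σ t0
      have := com_lab (y := z) m (hs.cj x) (fun y ρ hρ hy r => (hc z y σ ρ t0 hρ hz hy r).symm) p
      rw [ext' s ((hz.lab p).trans t2) ((hz.pos p).trans e), L_cj, L_cj, inv_smul_eq_iff.2 hp.symm,
        inv_smul_eq_iff.2 hq.symm] at this
      exact k this.symm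
  rw [cnt3 h t, card_univ] at h1
  have h2 : 0 < Fintype.card W := Fintype.card_pos
  have h3 : 2 * Fintype.card W ≤ (Fintype.card U - 3) * Fintype.card W := Nat.mul_le_mul_right _ (by omega)
  omega

theorem iv (m : 5 ≤ Fintype.card U) [Nonempty W] (hs : Ok G s) (h : Act s' x τ) (t : τ.IsThreeCycle)
    (hg : Eqv s (cj s x) ∨ Com G s (cj s x)) : (∃ σ : Perm U, σ.IsThreeCycle ∧ Act s x σ) ∨
    ∃ ρ : Perm W, (∀ u w, x • s (u, w) = s (u, ρ w)) ∧
      Fintype.card U * #{w | ρ w = w} = (Fintype.card U - 3) * Fintype.card W := by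
  obtain ⟨α, ρ, k⟩ := hg.resolve_right (not_com m hs h t)
  have k' : ∀ u w, x • s (u, w) = s (α u, ρ w) := k
  have c := (cnt k').symm.trans (cnt3 h t)
  by_cases a1 : α = 1
  · subst a1
    exact Or.inr ⟨ρ, k', by simpa using c⟩
  left
  have t3 : τ ^ 3 = 1 := by rw [← t.orderOf, pow_orderOf_eq_one]
  have a3 : α ^ 3 = 1 := Equiv.ext fun u => by
    obtain ⟨w⟩ := ‹Nonempty W›
    have : x • x • x • s (u, w) = s (u, w) := ext' s' (by
      rw [h.lab, h.lab, h.lab]
      exact congrArg (fun p : Perm U => p _) t3) (by rw [h.pos, h.pos, h.pos])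
    rw [k', k', k'] at this
    exact (Prod.ext_iff.1 (s.injective this)).1
  have b1 := three_le a3 a1
  have b2 := fix_add α
  have b3 := fix_add ρ
  have b4 : 0 < Fintype.card W := Fintype.card_pos
  obtain ⟨n, hn⟩ : ∃ n, Fintype.card U = n + 3 := ⟨Fintype.card U - 3, by omega⟩
  rw [hn, Nat.add_sub_cancel] at c
  have b5 : ρ.support.card = 0 := by
    by_contra k
    have e1 : #{u | α u = u} * #{w | ρ w = w} ≤ n * (Fintype.card W - 1) :=
      Nat.mul_le_mul (by omega) (by omega)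
    have e2 : n * (Fintype.card W - 1) < n * Fintype.card W :=
      Nat.mul_lt_mul_of_pos_left (by omega) (by omega)
    omega
  have b6 : ρ = 1 := Perm.support_eq_empty_iff.1 (card_eq_zero.1 b5)
  rw [show #{w | ρ w = w} = Fintype.card W by omega] at c
  have b7 := Nat.eq_of_mul_eq_mul_right b4 c
  subst b6
  exact ⟨α, card_support_eq_three_iff.1 (by omega), k'⟩

end

end H20.Pw
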