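import Cfsg.Agent.H20.Pw1
import Mathlib.Combinatorics.Pigeonhole

/-! Two `Ok` product structures are equal or commute: `pGood`. -/

set_option autoImplicit false
set_option linter.unusedSectionVars false

namespace H20.Pw

open Equiv Function Finset

section
variable {G X U W : Type} [Group G] [MulAction G X] [Fintype U] [DecidableEq U] [Fintype W]
  [Fintype X] [DecidableEq X] [DecidableEq W] {s s' : U × W ≃ X} {x y : G} {σ τ : Perm U}

theorem typC_comm {ρ : Perm W} (hx : ∀ u w, x • s (u, w) = s (u, ρ w)) (hy : Act s y σ) (p : X) :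
    x • y • p = y • x • p := by
  rw [← eta s p, hy, hx, hx, hy]

theorem nrm (m : 5 ≤ Fintype.card U) [Nonempty W] (hs : Ok G s) (hs' : Ok G s')
    (h : ∀ (y : G) (σ : Perm U), σ.IsThreeCycle → Act s y σ → Eqv s' (cj s' y) ∨ Com G s' (cj s' y)) :
    Eqv s s' ∨ Com G s s' := by
  by_cases k : ∃ (y : G) (σ σ' : Perm U), σ.IsThreeCycle ∧ Act s y σ ∧ Act s' y σ'
  swap
  · refine Or.inr fun x y σ τ h1 h2 h3 h4 p => ?_
    obtain ⟨σ', -, k1⟩ | ⟨ρ, k1, -⟩ := iv m hs' h3 h1 (h x σ h1 h3)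
    · exact (k ⟨x, σ, σ', h1, h3, k1⟩).elim
    · exact typC_comm k1 h4 p
  left
  obtain ⟨y, σ, σ', h1, h2, h3⟩ := k
  obtain ⟨w⟩ := ‹Nonempty W›
  obtain ⟨a, ha⟩ : ∃ a, σ a ≠ a := by
    by_contra k
    exact h1.ne_one (Equiv.ext fun a => not_not.1 fun k' => k ⟨a, k'⟩)
  have t3 : σ ^ 3 = 1 := by rw [← h1.orderOf, pow_orderOf_eq_one]
  have a3 : σ (σ (σ a)) = a := congrArg (fun p : Perm U => p a) t3
  have ac : σ (σ a) ≠ a := fun k => ha (by rw [k] at a3; exact a3)
  have bc : σ (σ a) ≠ σ a := fun k => ha (σ.injective k)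
  have sup : ∀ u, σ u ≠ u → u = a ∨ u = σ a ∨ u = σ (σ a) := fun u hu => by
    have : ({a, σ a, σ (σ a)} : Finset U) = σ.support := eq_of_subset_of_card_le (fun v hv => by
      simp only [mem_insert, mem_singleton] at hv
      rw [Perm.mem_support]
      rcases hv with rfl | rfl | rfl
      exacts [ha, bc, fun k => bc (σ.injective k)]) (by
      rw [h1.card_support, card_eq_three.2 ⟨_, _, _, ha.symm, ac.symm, bc.symm, rfl⟩])
    have h4 := Perm.mem_support.2 hu
    rw [← this] at h4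
    simpa using h4
  obtain ⟨f, f1, f2, f3, -⟩ := fresh m a (σ a) (σ (σ a)) a
  obtain ⟨τ, t0, t1, t2, -, t4⟩ := c3 ha.symm f1.symm f2.symm
  obtain ⟨z, hz⟩ := hs.1 τ t0
  obtain ⟨τ', -, k1⟩ | ⟨ρ, k1, -⟩ := iv m hs' hz t0 (h z τ t0 hz)
  · have key : ∀ p, L s' p = L s' (s (σ (σ a), w)) → L s p = σ (σ a) := fun p hp => by
      have e1 : y • p ≠ p := fun k => by
        have := (h2.fix _).1 ((h3.fix (s (σ (σ a), w))).2 (hp ▸ (h3.fix p).1 k))
        rw [L_s] at this
        exact bc (σ.injective this)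
      have e2 : z • p = p := (k1.fix p).2 (hp ▸ (k1.fix _).1 ((hz.fix _).2 (by
        rw [L_s]; exact t4 _ ac bc f3.symm)))
      have e3 := (hz.fix p).1 e2
      rcases sup _ fun k => e1 ((h2.fix p).2 k) with k | k | k
      · rw [k, t1] at e3; exact (ha e3).elim
      · rw [k, t2] at e3; exact (f2 e3).elim
      · exact k
    exact eqv_of_sub m hs hs' fun p => (sub_eq key p).2
  · have := congrArg (L s) (typC_comm k1 h3 (s (a, w)))
    rw [hz.lab, h2.lab, h2.lab, hz.lab, L_s, t1, t2] at this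
    exact (f3 this).elim

variable (G U W X) in
/-- pairs with a large intersection of slices are good -/
def IH (d : ℕ) : Prop := ∀ t t' : U × W ≃ X, Ok G t → Ok G t' → ∀ e e' : U,
  d ≤ #{p | L t p = e ∧ L t' p = e'} → Eqv t t' ∨ Com G t t'

theorem IH.fix {d : ℕ} (h : IH G X U W d) (hs : Ok G s) {e : U} (c : d ≤ #{p | L s p = e ∧ x • p = p}) :
    Eqv s (cj s x) ∨ Com G s (cj s x) :=
  h _ _ hs (hs.cj x) e e (c.trans (card_le_card fun p hp => by
    simp only [mem_filter, mem_univ, true_and] at hp ⊢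
    exact ⟨hp.1, by rw [L_cj, inv_smul_eq_iff.2 hp.2.symm, hp.1]⟩))

theorem ext1 (m : 5 ≤ Fintype.card U) [Nonempty W] {d : ℕ} (ih : IH G X U W (d + 1))
    (hd : (Fintype.card U - 3) * Fintype.card W ≤ Fintype.card U * d) (hs : Ok G s) {e e' : U}
    (c : d ≤ #{p | L s p = e ∧ L s' p = e'}) {p : X} (p1 : L s p = e) (p2 : L s' p ≠ e') (hx : Act s' x τ)
    (t0 : τ.IsThreeCycle) (t1 : τ e' = e') (t2 : τ (L s' p) = L s' p) :
    ∃ σ : Perm U, σ.IsThreeCycle ∧ Act s x σ := by
  have c1 : d + 1 ≤ #{p | L s p = e ∧ x • p = p} := by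
    refine le_trans ?_ (card_le_card (s := insert p (univ.filter fun p => L s p = e ∧ L s' p = e')) fun q hq => ?_)
    · rw [card_insert_of_notMem (by simp [p2])]; omega
    · simp only [mem_insert, mem_filter, mem_univ, true_and] at hq ⊢
      rcases hq with rfl | hq
      · exact ⟨p1, (hx.fix _).2 t2⟩
      · exact ⟨hq.1, (hx.fix _).2 (by rw [hq.2, t1])⟩
  refine (iv m hs hx t0 (ih.fix hs c1)).resolve_right ?_
  rintro ⟨ρ, k1, k2⟩
  have c2 : #{p | L s p = e ∧ x • p = p} ≤ #{w | ρ w = w} :=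
    card_le_card_of_injOn (P s) (fun q hq => by
      simp only [coe_filter, mem_univ, true_and, Set.mem_setOf_eq] at hq ⊢
      have := hq.2
      rw [← eta s q, k1] at this
      simpa using this) fun q hq r hr k => by
      simp only [coe_filter, mem_univ, true_and, Set.mem_setOf_eq] at hq hr
      exact ext' s (hq.1.trans hr.1.symm) k
  have c3 := Nat.mul_le_mul_left (Fintype.card U) (c1.trans c2)
  rw [mul_add] at c3
  omega

theorem ext2 (m : 5 ≤ Fintype.card U) [Nonempty W] {d : ℕ} (ih : IH G X U W (d + 1))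
    (hd : (Fintype.card U - 3) * Fintype.card W ≤ Fintype.card U * d) (hs : Ok G s) (hs' : Ok G s') {e e' : U}
    (c : d ≤ #{p | L s p = e ∧ L s' p = e'}) {p : X} (p1 : L s p = e) (p2 : L s' p ≠ e') {q r : X}
    (qr : L s q = L s r) (hq : L s' q = L s' p ∨ L s' q = e') : L s' r = L s' p ∨ L s' r = e' := by
  by_contra k
  rw [not_or] at k
  obtain ⟨τ, t0, t1, t2, t3⟩ := mv m k.1 k.2
  obtain ⟨x, hx⟩ := hs'.1 τ t0
  obtain ⟨σ, -, hσ⟩ := ext1 m ih hd hs c p1 p2 hx t0 t2 t1
  refine t3 ((hx.fix r).1 ((hσ.fix r).2 (qr ▸ (hσ.fix q).1 ((hx.fix q).2 ?_))))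
  rcases hq with k | k <;> rw [k] <;> assumption

theorem ext3 (m : 5 ≤ Fintype.card U) [Nonempty W] {d : ℕ} (ih : IH G X U W (d + 1))
    (hd : (Fintype.card U - 3) * Fintype.card W ≤ Fintype.card U * d) (hs : Ok G s) {e e' : U}
    (c : d ≤ #{p | L s p = e ∧ L s' p = e'}) {p : X} (p1 : L s p = e) (hy : Act s' y τ) (t1 : τ e' = e')
    (p2 : L s (y⁻¹ • p) ≠ e) {q : X} (q1 : y • q = q) (q2 : L s q = L s (y • p)) :
    L s q = L s (y⁻¹ • p) ∨ L s q = e := by
  have c' : d ≤ #{p | L s p = e ∧ L (cj s y) p = e} := c.trans (card_le_card fun p hp => by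
    simp only [mem_filter, mem_univ, true_and] at hp ⊢
    exact ⟨hp.1, by rw [L_cj, inv_smul_eq_iff.2 ((hy.fix p).2 (by rw [hp.2, t1])).symm, hp.1]⟩)
  have := ext2 m ih hd hs (hs.cj y) c' p1 p2 q2.symm (Or.inr (by rw [L_cj, inv_smul_smul, p1]))
  rwa [L_cj, L_cj, inv_smul_eq_iff.2 q1.symm] at this

theorem step (m : 5 ≤ Fintype.card U) [Nonempty W] {d : ℕ} (ih : IH G X U W (d + 1)) : IH G X U W d := by
  intro s s' hs hs' e e' c
  rcases lt_or_ge (Fintype.card U * d) ((Fintype.card U - 3) * Fintype.card W) with hd | hd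
  · refine nrm m hs hs' fun y σ h1 h2 => ?_
    rw [← cnt3 h2 h1, ← card_univ] at hd
    obtain ⟨v, -, hv⟩ := exists_lt_card_fiber_of_mul_lt_card_of_maps_to (f := L s')
      (fun _ _ => mem_univ _) hd
    refine ih.fix hs' (e := v) (le_trans hv (card_le_card fun p hp => ?_))
    simp only [mem_filter, mem_univ, true_and] at hp ⊢
    exact hp.symm
  left
  by_cases k : ∀ p, L s p = e → L s' p = e'
  · exact eqv_of_sub m hs hs' k
  push Not at k
  obtain ⟨p, p1, p2⟩ := k
  obtain ⟨a, a1, a2, -⟩ := fresh m (L s' p) e' e' e'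
  obtain ⟨b, b1, b2, b3, -⟩ := fresh m (L s' p) e' a a
  obtain ⟨c0, c1, c2, c3', c4⟩ := fresh m (L s' p) e' a b
  obtain ⟨τ, t0, t1, t2, t3, t4⟩ := c3 b3.symm c3'.symm c4.symm
  obtain ⟨ν, n0, n1, n2, n3, n4⟩ := c3 b3.symm a1 b1
  obtain ⟨x, hx⟩ := hs'.1 τ t0
  obtain ⟨y, hy⟩ := hs'.1 ν n0
  have ne := n4 _ a2.symm b2.symm p2.symm
  obtain ⟨σ, s0, hσ⟩ := ext1 m ih hd hs c p1 p2 hx t0 (t4 _ a2.symm b2.symm c2.symm)
    (t4 _ a1.symm b1.symm c1.symm)
  have la : L s' (y • p) = a := by rw [hy.lab, n3]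
  have lb : L s' (y⁻¹ • p) = b := by rw [hy.inv.lab, ← n2]; simp
  have sat : ∀ r, L s r = e → L s' r = L s' p ∨ L s' r = e' := fun r hr =>
    ext2 m ih hd hs hs' c p1 p2 (p1.trans hr.symm) (Or.inl rfl)
  have ea : L s (y • p) ≠ e := fun k => by
    rcases sat _ k with k | k <;> rw [la] at k <;> contradiction
  have eb : L s (y⁻¹ • p) ≠ e := fun k => by
    rcases sat _ k with k | k <;> rw [lb] at k <;> contradiction
  have xy : x • y • p = y⁻¹ • p := ext' s' (by rw [hx.lab, la, lb, t1]) (by rw [hx.pos, hy.pos, hy.inv.pos])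
  have mu : σ (L s (y • p)) ≠ L s (y • p) := fun k => by
    have := (hx.fix _).1 ((hσ.fix _).2 k)
    rw [la, t1] at this
    exact b3 this
  have uu : L s (y⁻¹ • p) = σ (L s (y • p)) := by rw [← xy, hσ.lab]
  generalize hu : L s (y • p) = u at *
  have s3 : σ ^ 3 = 1 := by rw [← s0.orderOf, pow_orderOf_eq_one]
  have a3 : σ (σ (σ u)) = u := congrArg (fun p : Perm U => p u) s3
  have ac : σ (σ u) ≠ u := fun k => mu (by rw [k] at a3; exact a3)
  have bc : σ (σ u) ≠ σ u := fun k => mu (σ.injective k)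
  have sup : ({u, σ u, σ (σ u)} : Finset U) = σ.support := eq_of_subset_of_card_le (fun v hv => by
    simp only [mem_insert, mem_singleton] at hv
    rw [Perm.mem_support]
    rcases hv with rfl | rfl | rfl
    exacts [mu, bc, fun k => bc (σ.injective k)]) (by
    rw [s0.card_support, card_eq_three.2 ⟨_, _, _, mu.symm, ac.symm, bc.symm, rfl⟩])
  have key : ∀ q, L s' q = c0 → L s q = σ (σ u) := fun q hq => by
    have q1 : y • q = q := (hy.fix q).2 (by rw [hq]; exact n4 _ c3' c4 c1)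
    have q2 : L s q ∈ σ.support := Perm.mem_support.2 fun k => by
      have := (hx.fix _).1 ((hσ.fix _).2 k)
      rw [hq, t3] at this
      exact c3' this.symm
    rw [← sup] at q2
    simp only [mem_insert, mem_singleton] at q2
    rcases q2 with k | k | k
    · rcases ext3 m ih hd hs c p1 hy ne eb q1 (k.trans hu.symm) with k' | k'
      · exact (mu (by rw [← uu, ← k', k])).elim
      · exact (ea (k.symm.trans k')).elim
    · rcases ext3 (y := y⁻¹) m ih hd hs c p1 hy.inv (by rw [Perm.inv_eq_iff_eq, ne]) (by rwa [inv_inv, hu])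
        (inv_smul_eq_iff.2 q1.symm) (k.trans uu.symm) with k' | k'
      · exact (mu (by rw [← k, k', inv_inv, hu])).elim
      · exact (eb (by rw [uu, ← k, k'])).elim
    · exact k
  exact eqv_of_sub m hs hs' fun p => (sub_eq key p).2

end

theorem pGood : PGood := by
  intro G X U W _ _ _ _ _ m s s' hs hs'
  classical
  rcases isEmpty_or_nonempty W with k | k
  · exact Or.inl ⟨1, 1, fun u w => k.elim w⟩
  haveI : Fintype X := Fintype.ofEquiv _ s
  have key : ∀ n d, d + n = Fintype.card X + 1 → IH G X U W d := fun n => by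
    induction n with
    | zero =>
      intro d hd t t' _ _ e e' c
      have := card_le_univ ({p | L t p = e ∧ L t' p = e'} : Finset X)
      omega
    | succ n ih => exact fun d hd => step m (ih _ (by omega))
  obtain ⟨e⟩ : Nonempty U := Fintype.card_pos_iff.1 (by omega)
  exact key _ 0 (zero_add _) s s' hs hs' e e (Nat.zero_le _)

end H20.Pw
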