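import Cfsg.Agent.H20.Pw2
import Cfsg.Agent.H27.PwN6
import Cfsg.Agent.L.Pw3
import Cfsg.Agent.H14.PwF
import Cfsg.Agent.H3.Pw5
import Cfsg.Agent.H13.PwR
import Cfsg.Agent.H18.PwN5
import Cfsg.Agent.H21.PwN2

/-! Overgroups of the even part of a product action wreath product lie in it or contain the alternating
group: `pW`. -/

set_option autoImplicit false
set_option linter.unusedSectionVars false

namespace H20.Pw

open Equiv Function Finset

theorem ex_str {ι U : Type} [Fintype ι] [DecidableEq ι] [Fintype U] [DecidableEq U] (i0 i : ι) :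
    ∃ s : U × ({j // j ≠ i0} → U) ≃ (ι → U), (∀ f, L s f = f i) ∧
      ∀ σ u w, co i σ (s (u, w)) = s (σ u, w) := by
  refine ⟨(piSplitAt i0 fun _ => U).symm.trans (arrowCongr (swap i0 i) (Equiv.refl U)), fun f => ?_,
    fun σ u w => funext fun j => ?_⟩
  · simp [L, arrowCongr]
  · by_cases h : j = i
    · subst h
      simp [arrowCongr]
    · have : swap i0 i j ≠ i0 := fun k => h (by rw [swap_apply_eq_iff, swap_apply_left] at k; exact k)
      rw [co_ne h]
      simp [arrowCongr, this]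

theorem pW_of (hG : PGood) (h5 : PN5) (h6 : PN6) : PW := by
  intro ι U _ _ _ _ H hH g hg
  have m := hH.five
  rcases isEmpty_or_nonempty ι with k | ⟨⟨i0⟩⟩
  · exact ⟨1, 1, fun f i => k.elim i⟩
  choose s s1 s2 using ex_str (U := U) i0
  have ok : ∀ i, Ok H (s i) := fun i => by
    refine ⟨fun σ hσ => ⟨⟨co i σ, hH.ev i σ hσ.mem_alternatingGroup⟩, s2 i σ⟩, fun x d hx => ?_⟩
    have k : ∀ f, f i = d → x.1 f = f := fun f hf => by
      have := hx (P (s i) f)
      rwa [← hf, ← s1 i f, eta] at this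
    obtain ⟨σ, hσ⟩ : ∃ σ, x.1 = co i σ := by
      rcases m.eq_or_lt with e | e
      · exact h5 ι U H hH e.symm i d _ x.2 k
      · exact h6 ι U H hH e i d _ x.2 k
    exact ⟨σ, fun u w => by rw [← s2, ← hσ]; rfl⟩
  have key : ∀ i, ∃ j, ∃ α : Perm U, ∀ f, g f j = α (f i) := fun i => by
    by_contra k
    have hc : ∀ j, Com H (s j) (cj (s i) (⟨g, hg⟩ : H)) := fun j =>
      (hG _ _ _ _ m _ _ (ok j) ((ok i).cj _)).resolve_left fun ⟨α, ρ, h⟩ => k ⟨j, α, fun f => by
        have := congrArg (L (s j)) (h (L (s i) f) (P (s i) f))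
        rwa [cj_apply, eta, L_s, s1, s1] at this⟩
    obtain ⟨a⟩ : Nonempty U := Fintype.card_pos_iff.1 (by omega)
    obtain ⟨b, b1, -⟩ := fresh m a a a a
    obtain ⟨τ, t0, -, -, t3⟩ := mv m b1 b1
    obtain ⟨y, hy⟩ := ((ok i).cj (⟨g, hg⟩ : H)).1 τ t0
    have := (hy.fix (cj (s i) (⟨g, hg⟩ : H) (b, fun _ => a))).1 (funext fun j => by
      exact (s1 j _).symm.trans ((com_lab m (ok j) (fun x σ h1 h2 => hc j x y σ τ h1 t0 h2 hy) _).trans
        (s1 j _)))
    rw [L_s] at this
    exact t3 this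
  choose φ α h using key
  have inj : Injective φ := fun i i' e => by
    by_contra ne
    obtain ⟨a⟩ : Nonempty U := Fintype.card_pos_iff.1 (by omega)
    obtain ⟨b, b1, -⟩ := fresh m a a a a
    have e1 := (h i fun _ => a).symm.trans (e ▸ h i' fun _ => a)
    have e2 := (h i (update (fun _ => a) i b)).symm.trans (e ▸ h i' (update (fun _ => a) i b))
    rw [update_self, update_of_ne (Ne.symm ne), ← e1] at e2
    exact b1 ((α i).injective e2)
  let π := Equiv.ofBijective φ (Finite.injective_iff_bijective.1 inj)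
  refine ⟨π, fun j => α (π.symm j), fun f j => ?_⟩
  rw [← h, show φ (π.symm j) = j from π.apply_symm_apply j]

theorem pW : PW :=
  have h3 := L.Pw.p3 H13.PwR.pRel H13.PwR.p4
  have h5 := H3.Pw5.p5 H13.PwR.pRel H13.PwR.p4
  have h6 := H3.Pw5.p6 h5
  pW_of pGood (H118.Pw.pN5 H13.PwR.pRel h3 h6) (H27.PwN6.pN6 pGood (H21.Pw.pN2 h3 h5) h6)

end H20.Pw
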