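import Cfsg.Agent.H20.Sq1
import Cfsg.Agent.H18.KpX
import Cfsg.Agent.S4931

/-! The sum of the squares of the degrees prime to `p` against the order of `N(P) / P'` (`H20.Sq.main`). -/

set_option autoImplicit false
set_option linter.unusedSectionVars false

namespace H20.Sq

open Finset Cfsg H5 H5.Cfsg
open scoped Classical commutatorElement

theorem sumN {H : Type*} [Group H] [Finite H] (p : ℕ) [hp : Fact p.Prime] (Q : Sylow p H)
    [hQ : (Q : Subgroup H).Normal] :
    ∑ η ∈ univ.filter (fun η : IrrCharacter H => ¬ p ∣ charDegree (η : H → ℂ)),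
      charDegree (η : H → ℂ) ^ 2 = (⁅(Q : Subgroup H), (Q : Subgroup H)⁆).index := by
  rw [← sumA]
  refine sum_congr (filter_congr fun η _ => ⟨fun h => ?_, fun h => ?_⟩) fun _ _ => rfl
  · have := H118.KpX.pX p Q ⊥ (bot_inf_eq _) η η.2 h
    rwa [bot_sup_eq, Subgroup.normalCore_eq_self] at this
  · obtain ⟨θ', hθ', e⟩ := η.2.exists_deflate _ h
    have hd := H6.ito_degree_dvd ((Q : Subgroup H).map
      (QuotientGroup.mk' ⁅(Q : Subgroup H), (Q : Subgroup H)⁆)) (by
        rintro _ ⟨a, ha, rfl⟩ _ ⟨b, hb, rfl⟩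
        rw [← commutatorElement_eq_one_iff_mul_comm, ← map_commutatorElement]
        exact (QuotientGroup.eq_one_iff _).2 (Subgroup.commutator_mem_commutator ha hb)) hθ'
    have e1 : charDegree (η : H → ℂ) = charDegree θ' := by
      simp only [charDegree, ← e 1]; rfl
    intro hh
    exact Q.not_dvd_index ((e1 ▸ hh).trans (hd.trans
      (Subgroup.index_map_dvd _ (QuotientGroup.mk'_surjective _))))

theorem main {G : Type*} [Group G] [Finite G] (p : ℕ) [hp : Fact p.Prime] (P : Sylow p G) :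
    Nat.card (Subgroup.normalizer ((P : Subgroup G) : Set G)) ≤ Nat.card (commutator ↥P) * (∑ᶠ χ : {χ : Cfsg.IrrCharacter G // ¬ p ∣ Cfsg.charDegree (χ : G → ℂ)}, Cfsg.charDegree (χ.1 : G → ℂ) ^ 2) ∧
    (Nat.card (Subgroup.normalizer ((P : Subgroup G) : Set G)) = Nat.card (commutator ↥P) * (∑ᶠ χ : {χ : Cfsg.IrrCharacter G // ¬ p ∣ Cfsg.charDegree (χ : G → ℂ)}, Cfsg.charDegree (χ.1 : G → ℂ) ^ 2) ↔
      ∃ K : Subgroup G, K.Normal ∧ K ⊓ Subgroup.normalizer ((P : Subgroup G) : Set G) = ⊥ ∧ K ⊔ Subgroup.normalizer ((P : Subgroup G) : Set G) = ⊤) := by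
  have hS := Cfsg.Agent.S4931.result p P
  have hPN : (P : Subgroup G) ≤ Subgroup.normalizer ((P : Subgroup G) : Set G) := Subgroup.le_normalizer
  have hCN : Subgroup.centralizer ((P : Subgroup G) : Set G) ≤
      Subgroup.normalizer ((P : Subgroup G) : Set G) := Subgroup.centralizer_le_normalizer _
  obtain ⟨Q, hQ, hmap⟩ : ∃ Q : Sylow p (Subgroup.normalizer ((P : Subgroup G) : Set G)),
      (Q : Subgroup (Subgroup.normalizer ((P : Subgroup G) : Set G))).Normal ∧
      (Q : Subgroup (Subgroup.normalizer ((P : Subgroup G) : Set G))).map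
        (Subgroup.normalizer ((P : Subgroup G) : Set G)).subtype = (P : Subgroup G) :=
    ⟨P.subtype hPN, Subgroup.normal_in_normalizer, Subgroup.map_subgroupOf_eq_of_le hPN⟩
  have hsum := sumN p Q
  have hcard := Subgroup.card_mul_index
    (⁅(Q : Subgroup (Subgroup.normalizer ((P : Subgroup G) : Set G))),
      (Q : Subgroup (Subgroup.normalizer ((P : Subgroup G) : Set G)))⁆)
  have hc : Nat.card (⁅(Q : Subgroup (Subgroup.normalizer ((P : Subgroup G) : Set G))),
      (Q : Subgroup (Subgroup.normalizer ((P : Subgroup G) : Set G)))⁆ :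
        Subgroup (Subgroup.normalizer ((P : Subgroup G) : Set G))) = Nat.card (commutator ↥P) := by
    rw [← Subgroup.card_map_of_injective (Subgroup.subtype_injective _), Subgroup.map_commutator, hmap,
      ← Subgroup.card_map_of_injective (K := commutator ↥P) (Subgroup.subtype_injective (P : Subgroup G)),
      commutator_def, Subgroup.map_commutator, ← MonoidHom.range_eq_map, Subgroup.range_subtype]
  rw [hc, ← hsum] at hcard
  have hidx : ¬ p ∣ (Subgroup.normalizer ((P : Subgroup G) : Set G)).index := fun h =>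
    P.not_dvd_index (h.trans (Subgroup.index_dvd_of_le hPN))
  set N := Subgroup.normalizer ((P : Subgroup G) : Set G) with hN
  obtain ⟨l1, l2⟩ := low p hp.out N hidx
    (univ.filter fun η : IrrCharacter N => ¬ p ∣ charDegree (η : N → ℂ)) fun η h => (mem_filter.1 h).2
  rw [finsum_eq_sum_of_fintype, ← Finset.sum_subtype
    (univ.filter fun χ : IrrCharacter G => ¬ p ∣ charDegree (χ : G → ℂ)) (by simp)
    (fun χ : IrrCharacter G => charDegree (χ : G → ℂ) ^ 2), ← hcard]
  refine ⟨Nat.mul_le_mul_left _ l1, fun h => ?_, ?_⟩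
  · obtain ⟨K, k1, k2, k3⟩ := hS.1 fun θ hθ =>
      l2 (Nat.eq_of_mul_eq_mul_left Nat.card_pos h) θ (mem_filter.2 ⟨mem_univ _, hθ⟩)
    exact ⟨K, k1, k3, k2⟩
  · rintro ⟨K, k1, k2, k3⟩
    congr 1
    refine le_antisymm l1 (up N K k3 _ _ (fun χ h => ?_) fun χ h η e => ?_)
    · exact H118.KpX.le_ker p P K (eq_bot_iff.2 ((inf_le_inf_left _ hCN).trans k2.le)) χ χ.2
        (mem_filter.1 h).2
    · refine mem_filter.2 ⟨mem_univ _, ?_⟩
      have := e 1
      simp only [OneMemClass.coe_one] at this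
      have h2 := (mem_filter.1 h).2
      simpa only [charDegree, this] using h2

end H20.Sq
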