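import Mathlib.GroupTheory.Sylow
import Mathlib.Algebra.Group.Action.Pointwise.Finset
import Mathlib.Algebra.Order.BigOperators.Group.Finset
import Mathlib.Combinatorics.Enumerative.DoubleCounting
import Mathlib.Tactic

/-! The proportion of the Sylow `p`-subgroups lying in a subgroup is one or at most
`(p - 1) / (2 * p - 1)` (`H20.Sr.ratio`). -/

set_option autoImplicit false
set_option linter.unusedSectionVars false

namespace H20.Sr

open Finset MulAction
open scoped Pointwise Classical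

variable {G : Type*} [Group G] [Fintype G] {p : ℕ} [hp : Fact p.Prime] [Fintype (Sylow p G)]

variable (p) in
/-- Sylow subgroups in `A` -/
noncomputable def S (A : Subgroup G) : Finset (Sylow p G) := univ.filter fun P => (P : Subgroup G) ≤ A

theorem mem_S {A : Subgroup G} {P : Sylow p G} : P ∈ S p A ↔ (P : Subgroup G) ≤ A := by simp [S]

/-- every member stabilises the set -/
def Gd (σ : Finset (Sylow p G)) : Prop := ∀ P ∈ σ, ∀ x ∈ (P : Subgroup G), x • σ = σ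

theorem smul_S {A : Subgroup G} {a : G} (h : a ∈ A) : a • S p A = S p A :=
  eq_of_subset_of_card_le (fun Q hQ => by
    obtain ⟨P, hP, rfl⟩ := mem_smul_finset.1 hQ
    exact mem_S.2 (Sylow.smul_le (mem_S.1 hP) ⟨a, h⟩)) (card_smul_finset _ _).ge

theorem gd_S (A : Subgroup G) : Gd (S p A) := fun _ hP _ hx => smul_S (mem_S.1 hP hx)

theorem Gd.inter {σ τ : Finset (Sylow p G)} (h : Gd σ) (h' : Gd τ) : Gd (σ ∩ τ) := fun P hP x hx => by
  rw [smul_finset_inter, h P (mem_inter.1 hP).1 x hx, h' P (mem_inter.1 hP).2 x hx]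

theorem mem_smul {g x : G} {P : Sylow p G} :
    x ∈ ((g • P : Sylow p G) : Subgroup G) ↔ g⁻¹ * x * g ∈ (P : Subgroup G) := by
  rw [Sylow.coe_subgroup_smul, Subgroup.mem_pointwise_smul_iff_inv_smul_mem]
  simp

theorem Gd.smul {σ : Finset (Sylow p G)} (h : Gd σ) (g : G) : Gd (g • σ) := fun Q hQ x hx => by
  obtain ⟨P, hP, rfl⟩ := mem_smul_finset.1 hQ
  have := h P hP _ (mem_smul.1 hx)
  rwa [mul_smul, mul_smul, inv_smul_eq_iff] at this

theorem conj_in {N R : Subgroup G} {Q : Sylow p G} (hQ : (Q : Subgroup G) ≤ N) (hR : IsPGroup p R)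
    (h : R ≤ N) : ∃ n ∈ N, R ≤ ((n • Q : Sylow p G) : Subgroup G) := by
  obtain ⟨T, hT⟩ := (hR.comap_subtype (K := N)).exists_le_sylow
  obtain ⟨n, hn⟩ := exists_smul_eq N (Q.subtype hQ) T
  refine ⟨n, n.2, fun x hx => ?_⟩
  have : (⟨x, h hx⟩ : N) ∈ (T : Subgroup N) := hT hx
  rw [← hn, Sylow.smul_subtype] at this
  exact this

theorem trans {N : Subgroup G} {P Q : Sylow p G} (hP : (P : Subgroup G) ≤ N) (hQ : (Q : Subgroup G) ≤ N) :
    ∃ n ∈ N, n • Q = P := by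
  obtain ⟨n, h1, h2⟩ := conj_in hQ P.2 hP
  exact ⟨n, h1, Sylow.ext (P.3 (n • Q).2 h2)⟩

theorem Gd.eq {σ : Finset (Sylow p G)} (h : Gd σ) (hn : σ.Nonempty) : S p (stabilizer G σ) = σ := by
  obtain ⟨Q, hQ⟩ := hn
  refine Finset.ext fun P => ⟨fun k => ?_, fun k => mem_S.2 (h P k)⟩
  obtain ⟨n, h1, rfl⟩ := trans (mem_S.1 k) (h Q hQ)
  rw [← mem_stabilizer_iff.1 h1]
  exact smul_mem_smul_finset hQ

theorem Gd.cyc {σ : Finset (Sylow p G)} (h : Gd σ) (hn : σ.Nonempty) {P : Sylow p G} (hP : P ∉ σ) :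
    ∃ z ∈ (P : Subgroup G), z • σ ≠ σ ∧ z ^ p • σ = σ := by
  by_contra k
  push Not at k
  refine hP (h.eq hn ▸ mem_S.2 fun g hg => ?_)
  by_contra k0
  have : ∀ n : ℕ, g ^ p ^ n • σ ≠ σ := fun n => by
    induction n with
    | zero => simpa using k0
    | succ n ih => rw [pow_succ, pow_mul]; exact k _ (pow_mem hg _) ih
  obtain ⟨n, hn⟩ := P.2 ⟨g, hg⟩
  exact this n (by rw [show g ^ p ^ n = 1 from congrArg Subtype.val hn, one_smul])

/-- orbit of a set of Sylow subgroups -/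
noncomputable def orb (A : Subgroup G) (σ : Finset (Sylow p G)) : Finset (Finset (Sylow p G)) :=
  (univ.filter (· ∈ A)).image (· • σ)

theorem mem_orb {A : Subgroup G} {σ τ : Finset (Sylow p G)} : τ ∈ orb A σ ↔ ∃ a ∈ A, a • σ = τ := by
  simp [orb]

theorem cnt_eq {A : Subgroup G} (σ : Finset (Sylow p G)) {P Q : Sylow p G} (hP : P ∈ S p A)
    (hQ : Q ∈ S p A) : #{τ ∈ orb A σ | Q ∈ τ} ≤ #{τ ∈ orb A σ | P ∈ τ} := by
  obtain ⟨n, h1, rfl⟩ := trans (mem_S.1 hP) (mem_S.1 hQ)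
  refine card_le_card_of_injOn (n • ·) (fun τ hτ => ?_) fun _ _ _ _ e => MulAction.injective n e
  simp only [coe_filter, Set.mem_setOf_eq, mem_orb] at hτ ⊢
  obtain ⟨⟨a, ha, rfl⟩, h2⟩ := hτ
  exact ⟨⟨n * a, mul_mem h1 ha, mul_smul _ _ _⟩, smul_mem_smul_finset h2⟩

theorem dc (X : Finset (Finset (Sylow p G))) (α : Finset (Sylow p G)) :
    ∑ τ ∈ X, #(τ ∩ α) = ∑ Q ∈ α, #{τ ∈ X | Q ∈ τ} := by
  have := sum_card_bipartiteAbove_eq_sum_card_bipartiteBelow (s := X) (t := α) (r := fun τ Q => Q ∈ τ)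
  simp only [bipartiteAbove, bipartiteBelow] at this
  rw [← this]
  exact sum_congr rfl fun τ _ => by rw [inter_comm, filter_mem_eq_inter]

theorem cnt {A : Subgroup G} {σ α : Finset (Sylow p G)} (h : σ ⊆ S p A) (hα : α ⊆ S p A) :
    (∑ τ ∈ orb A σ, #(τ ∩ α)) * #(S p A) = #α * (#(orb A σ) * #σ) := by
  have h1 : ∑ τ ∈ orb A σ, #(τ ∩ S p A) = #(orb A σ) * #σ := sum_const_nat fun τ hτ => by
    obtain ⟨a, ha, rfl⟩ := mem_orb.1 hτ
    rw [← smul_S ha, ← smul_finset_inter, card_smul_finset, inter_eq_left.2 h]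
  rw [← h1, dc, dc, sum_mul, ← smul_eq_mul (#α), ← sum_const]
  refine sum_congr rfl fun Q hQ => ?_
  rw [mul_comm]
  exact (sum_const_nat fun P hP => le_antisymm (cnt_eq σ (hα hQ) hP) (cnt_eq σ hP (hα hQ))).symm

/-- the defect -/
noncomputable def D (A : Subgroup G) (σ : Finset (Sylow p G)) : ℚ :=
  #(orb A σ) * ((p - 1) - (2 * p - 1) * (#σ / #(S p A)))

variable (p) in
/-- the inequality inside `A` -/
def T (A : Subgroup G) : Prop := ∀ σ : Finset (Sylow p G), Gd σ → σ ⊆ S p A → σ ≠ S p A →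
  (2 * p - 1 : ℚ) * #σ ≤ (p - 1) * #(S p A)

theorem step {A B : Subgroup G} (hB : B ≤ A) (ne : (S p B).Nonempty) (ih : T p B) {σ : Finset (Sylow p G)}
    (g : Gd σ) (n : σ.Nonempty) (s : σ ⊆ S p A) (c1 : #σ ≤ #(S p B)) {c : ℕ} (hc : c + 2 ≤ p)
    (hD : D A σ < c * p) : (σ ∩ S p B).Nonempty ∧ D B (σ ∩ S p B) < (c + 1 : ℕ) * p := by
  have p0 : (0 : ℚ) < p := by exact_mod_cast hp.out.pos
  have b0 : (0 : ℚ) < #(S p B) := by exact_mod_cast ne.card_pos
  have BA : S p B ⊆ S p A := fun P hP => mem_S.2 ((mem_S.1 hP).trans hB)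
  have a0 : (0 : ℚ) < #(S p A) := by exact_mod_cast (ne.mono BA).card_pos
  by_cases e : σ = S p B
  · rw [e, inter_self]
    refine ⟨ne, ?_⟩
    rw [D, div_self b0.ne']
    have : (0 : ℚ) ≤ #(orb B (S p B)) := by positivity
    push_cast
    nlinarith [mul_nonneg this p0.le, mul_nonneg (Nat.cast_nonneg (α := ℚ) c) p0.le]
  obtain ⟨w, hw⟩ : ∃ w : Finset (Sylow p G) → ℚ,
      ∀ τ, w τ = (p - 1) - (2 * p - 1) * (#(τ ∩ S p B) / #(S p B)) := ⟨_, fun _ => rfl⟩
  have w1 : ∑ τ ∈ orb A σ, w τ = D A σ := by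
    have := congrArg (Nat.cast (R := ℚ)) (cnt s BA)
    push_cast at this
    simp only [hw, D, sum_sub_distrib, ← mul_sum, ← sum_div, sum_const, nsmul_eq_mul]
    rw [show ∑ τ ∈ orb A σ, (#(τ ∩ S p B) : ℚ) = #(S p B) * (#(orb A σ) * #σ) / #(S p A) by
      rw [← this]; field_simp]
    field_simp
  have w2 : ∀ τ ∈ orb A σ, τ ≠ S p B → 0 ≤ w τ := fun τ hτ k => by
    obtain ⟨a, ha, rfl⟩ := mem_orb.1 hτ
    have := ih _ ((g.smul a).inter (gd_S B)) inter_subset_right fun k' =>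
      k (eq_of_subset_of_card_le (inter_eq_right.1 k') (by rwa [card_smul_finset])).symm
    rw [hw, sub_nonneg, ← mul_div_assoc, div_le_iff₀ b0]
    exact this
  have YX : orb B σ ⊆ orb A σ := fun τ hτ => by
    obtain ⟨a, ha, k⟩ := mem_orb.1 hτ
    exact mem_orb.2 ⟨a, hB ha, k⟩
  have w3 : ∑ τ ∈ orb B σ, w τ = #(orb B σ) * w σ := by
    rw [← nsmul_eq_mul, ← sum_const]
    refine sum_congr rfl fun τ hτ => ?_
    obtain ⟨a, ha, rfl⟩ := mem_orb.1 hτ
    rw [hw, hw, show a • σ ∩ S p B = a • (σ ∩ S p B) by rw [smul_finset_inter, smul_S ha], card_smul_finset]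
  have w4 : -(p : ℚ) ≤ ∑ τ ∈ orb A σ \ orb B σ, w τ := by
    have : ∑ τ ∈ orb A σ \ orb B σ, (if τ = S p B then -(p : ℚ) else 0) ≤ _ :=
      sum_le_sum (g := w) fun τ hτ => by
        split_ifs with k
        · rw [k, hw, inter_self, div_self b0.ne']; linarith
        · exact w2 τ (mem_sdiff.1 hτ).1 k
    rw [sum_ite_eq'] at this
    split_ifs at this <;> linarith
  have w5 : #(orb B σ) * w σ < (c + 1 : ℕ) * p := by
    rw [← w1, ← sum_sdiff YX, w3] at hD
    push_cast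
    linarith
  have w0 := w2 σ (mem_orb.2 ⟨1, one_mem _, one_smul _ _⟩) e
  constructor
  · by_contra k
    rw [not_nonempty_iff_eq_empty] at k
    obtain ⟨P, hP⟩ := ne
    obtain ⟨z, z1, z2, z3⟩ := g.cyc n (P := P) fun k' => by
      have := mem_inter.2 ⟨k', hP⟩
      rw [k] at this
      exact notMem_empty _ this
    have m : Function.minimalPeriod (z • ·) σ = p :=
      Function.minimalPeriod_eq_prime (by rw [Function.IsPeriodicPt, smul_iterate]; exact z3) z2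
    have : #(range p) ≤ #(orb B σ) := card_le_card_of_injOn (fun j => (z • ·)^[j] σ) (fun j _ => by
      rw [mem_coe, mem_orb]
      exact ⟨z ^ j, pow_mem (mem_S.1 hP z1) _, by simp only [smul_iterate]⟩) (by
      have := Function.iterate_injOn_Iio_minimalPeriod (f := (z • ·)) (x := σ)
      rwa [m, ← coe_range] at this)
    rw [card_range] at this
    have h1 : (p : ℚ) ≤ #(orb B σ) := by exact_mod_cast this
    have h2 : (c + 2 : ℚ) ≤ p := by exact_mod_cast hc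
    rw [hw, k, card_empty] at w5
    push_cast at w5
    have h3 : (0 : ℚ) ≤ c := by positivity
    rw [zero_div, mul_zero, sub_zero] at w5
    nlinarith
  · refine lt_of_le_of_lt ?_ w5
    rw [D, ← hw]
    refine mul_le_mul_of_nonneg_right ?_ w0
    have : orb B (σ ∩ S p B) ⊆ (orb B σ).image (· ∩ S p B) := fun τ hτ => by
      obtain ⟨a, ha, rfl⟩ := mem_orb.1 hτ
      exact mem_image.2 ⟨_, mem_orb.2 ⟨a, ha, rfl⟩, by rw [smul_finset_inter, smul_S ha]⟩
    exact_mod_cast (card_le_card this).trans card_image_le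

theorem chain {N : ℕ} (ih : ∀ B : Subgroup G, #(S p B) < N → T p B) (r : ℕ) :
    ∀ (I : Finset (Finset (Sylow p G))) (A : Subgroup G) (c : ℕ), #I = r + 1 → c + r + 1 ≤ p →
      (∀ σ ∈ I, Gd σ ∧ #σ < N ∧ (σ ∩ S p A).Nonempty ∧ D A (σ ∩ S p A) < c * p) →
      ∃ Q ∈ S p A, ∀ σ ∈ I, Q ∈ σ := by
  induction r with
  | zero =>
    intro I A c h1 _ h
    obtain ⟨σ, rfl⟩ := card_eq_one.1 h1
    obtain ⟨Q, hQ⟩ := (h σ (mem_singleton_self _)).2.2.1
    exact ⟨Q, (mem_inter.1 hQ).2, fun τ hτ => mem_singleton.1 hτ ▸ (mem_inter.1 hQ).1⟩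
  | succ r k =>
    intro I A c h1 h2 h
    obtain ⟨τ, hτ, mx⟩ := exists_max_image I (fun σ => #(σ ∩ S p A)) (card_pos.1 (by omega))
    obtain ⟨t1, t2, t3, -⟩ := h τ hτ
    have e : S p (A ⊓ stabilizer G τ) = τ ∩ S p A := Finset.ext fun P => by
      rw [mem_S, le_inf_iff, ← mem_S, ← mem_S, t1.eq (t3.mono inter_subset_left), mem_inter, and_comm]
    obtain ⟨Q, q1, q2⟩ := k (I.erase τ) (A ⊓ stabilizer G τ) (c + 1) (by rw [card_erase_of_mem hτ]; omega)
      (by omega) fun σ hσ => by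
        obtain ⟨s1, s2, s3, s4⟩ := h σ (mem_of_mem_erase hσ)
        have := step (B := A ⊓ stabilizer G τ) inf_le_left (e ▸ t3)
          (ih _ (e ▸ (card_le_card inter_subset_left).trans_lt t2)) (s1.inter (gd_S A)) s3 inter_subset_right
          (e ▸ mx σ (mem_of_mem_erase hσ)) (by omega) s4
        rw [inter_assoc, show S p A ∩ S p (A ⊓ stabilizer G τ) = S p (A ⊓ stabilizer G τ) from
          inter_eq_right.2 (e ▸ inter_subset_right)] at this
        exact ⟨s1, s2, this⟩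
    rw [e, mem_inter] at q1
    refine ⟨Q, q1.2, fun σ hσ => ?_⟩
    by_cases k' : σ = τ
    · exact k' ▸ q1.1
    · exact q2 σ (mem_erase.2 ⟨k', hσ⟩)

theorem main (N : ℕ) : ∀ A : Subgroup G, #(S p A) = N → T p A := by
  induction N using Nat.strong_induction_on with
  | _ N ih =>
  intro A hA σ g s ne
  by_contra k
  rw [not_le] at k
  have p1 : (1 : ℚ) < p := by exact_mod_cast hp.out.one_lt
  have ss : σ ⊂ S p A := ssubset_of_subset_of_ne s ne
  have n : σ.Nonempty := card_pos.1 (Nat.pos_of_ne_zero fun e => by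
    rw [e] at k
    have : (0 : ℚ) ≤ #(S p A) := by positivity
    push_cast at k
    nlinarith)
  have a0 : (0 : ℚ) < #(S p A) := by exact_mod_cast (n.mono s).card_pos
  obtain ⟨P, P1, P2⟩ := exists_of_ssubset ss
  obtain ⟨z, z1, z2, z3⟩ := g.cyc n P2
  have zA : z ∈ A := mem_S.1 P1 z1
  obtain ⟨r, hr⟩ : ∃ r, #((range p).image fun j => z ^ j • σ) = r + 1 :=
    Nat.exists_eq_succ_of_ne_zero (card_pos.2 (Nonempty.image ⟨0, mem_range.2 hp.out.pos⟩ _)).ne'
  obtain ⟨Q, -, hQ⟩ := chain (N := N) (fun B hB => ih _ hB B rfl) r _ A 0 hr (by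
      have := card_image_le (s := range p) (f := fun j => z ^ j • σ)
      rw [card_range] at this
      omega) fun τ hτ => by
    obtain ⟨j, -, rfl⟩ := mem_image.1 hτ
    have e : z ^ j • σ ∩ S p A = z ^ j • σ := by
      rw [← smul_S (pow_mem zA j), ← smul_finset_inter, inter_eq_left.2 s]
    refine ⟨g.smul _, by rw [card_smul_finset, ← hA]; exact card_lt_card ss, by rw [e]; exact n.smul_finset, ?_⟩
    rw [e, D, card_smul_finset, Nat.cast_zero, zero_mul]
    refine mul_neg_of_pos_of_neg ?_ ?_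
    · exact_mod_cast card_pos.2 ⟨_, mem_orb.2 ⟨1, one_mem _, one_smul _ _⟩⟩
    · rw [sub_neg, ← mul_div_assoc, lt_div_iff₀ a0]
      exact k
  obtain ⟨ρ, hρ⟩ : ∃ ρ : Finset (Sylow p G), ∀ R, R ∈ ρ ↔ ∀ j : ℕ, R ∈ z ^ j • σ :=
    ⟨univ.filter fun R => ∀ j : ℕ, R ∈ z ^ j • σ, by simp⟩
  have Q1 : ∀ j : ℕ, Q ∈ z ^ j • σ := fun j => by
    have : (z ^ p) ^ (j / p) • σ = σ := pow_mem (mem_stabilizer_iff.2 z3) _
    rw [← Nat.mod_add_div j p, pow_add, pow_mul, mul_smul, this]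
    exact hQ _ (mem_image.2 ⟨_, mem_range.2 (Nat.mod_lt _ hp.out.pos), rfl⟩)
  have Q2 : (Q : Subgroup G) ≤ stabilizer G ρ := fun x hx => Finset.ext fun R => by
    rw [← inv_smul_mem_iff, hρ, hρ]
    exact forall_congr' fun j => by rw [inv_smul_mem_iff, g.smul _ Q (Q1 j) x hx]
  have z4 : z⁻¹ ∈ stabilizer G ρ := eq_of_subset_of_card_le (fun R hR => by
    obtain ⟨R, h1, rfl⟩ := mem_smul_finset.1 hR
    refine (hρ _).2 fun j => ?_
    rw [inv_smul_mem_iff, ← mul_smul, ← pow_succ']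
    exact (hρ _).1 h1 _) (card_smul_finset _ _).ge
  obtain ⟨m, m1, m2⟩ := conj_in (R := Subgroup.zpowers z) Q2 (P.2.to_le (Subgroup.zpowers_le.2 z1))
    (Subgroup.zpowers_le.2 (inv_mem_iff.1 z4))
  have : m • Q ∈ ρ := by
    rw [← mem_stabilizer_iff.1 m1]
    exact smul_mem_smul_finset ((hρ _).2 Q1)
  have := (hρ _).1 this 0
  rw [pow_zero, one_smul] at this
  exact z2 (g _ this z (m2 (Subgroup.mem_zpowers z)))

omit [Fintype G] [Fintype (Sylow p G)] in
theorem ratio [Finite G] (K : Subgroup G)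
    (h : Nat.card {P : Sylow p G // (P : Subgroup G) ≤ K} < Nat.card (Sylow p G)) :
    (2 * p - 1) * Nat.card {P : Sylow p G // (P : Subgroup G) ≤ K} ≤ (p - 1) * Nat.card (Sylow p G) := by
  haveI := Fintype.ofFinite G
  haveI := Fintype.ofFinite (Sylow p G)
  have e1 : Nat.card {P : Sylow p G // (P : Subgroup G) ≤ K} = #(S p K) := by
    rw [Nat.card_eq_fintype_card, Fintype.card_subtype]; rfl
  have e2 : Nat.card (Sylow p G) = #(S p (⊤ : Subgroup G)) := by
    rw [Nat.card_eq_fintype_card]; simp [S]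
  rw [e1, e2] at h ⊢
  have := main _ ⊤ rfl (S p K) (gd_S K) (fun P _ => mem_S.2 le_top) fun e => by rw [e] at h; omega
  have p1 := hp.out.one_lt
  have a : ((2 * p - 1 : ℕ) : ℚ) = 2 * p - 1 := by rw [Nat.cast_sub (by omega)]; push_cast; ring
  have b : ((p - 1 : ℕ) : ℚ) = p - 1 := by rw [Nat.cast_sub (by omega)]; push_cast; ring
  rw [← a, ← b] at this
  exact_mod_cast this

end H20.Sr
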