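import Cfsg.Agent.H20.G3
import Cfsg.Agent.H9.GBF

/-! Invariant subgroups of the Sylow `2`-subgroup `T` of a simple group of Bender type: abelian ones lie in `U`
(`bt_ab`), of two commuting ones one lies in `U` (`bt_cc`); a perfect group normalizing `L` and centralizing `U`
centralizes `L` (`bt_perf`, `gt_perf`); the perfect residual `pr`. -/

set_option autoImplicit false
set_option linter.unusedSectionVars false
set_option linter.unusedVariables false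

namespace H20.G3
open Subgroup Cfsg H18 H4.Gs
open H17 hiding Subn card_cj card_mul_relIndex cj cj_bot cj_cj_inv cj_fit cj_inf cj_inv_cj cj_mono cj_mul cj_one
  cj_sup conj_mem_cj elem_iff elem_zpowers fit_le fit_top le_phi mem_cj mim_cj mim_fit_le phi phi_le
open scoped commutatorElement

universe u
variable {G : Type u} [Group G] [Finite G]
  {A B D E H J K L M N P Q R S T U V W X Y Z : Subgroup G} {a b e g k t w x y z ζ : G}

theorem ab_zeta (h : GT L T U K) (sq : ∀ x ∈ T, x * x ∈ U) (hζ : ζ ∈ C(U)) (o : Odd (orderOf ζ))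
    (e : T ⊓ C1(ζ) = U) (hY : Y ≤ T) (hn : ζ ∈ N(Y)) (ab : Abel Y) : Y ≤ U := by
  have z := zpowers_le.2 hζ
  refine le_trans (le_inf hY ((H1.cent_of_comm_le (U := U) (commutator_le.2 fun y hy w hw => ?_)
    (cent_symm z) (coprime_card_of_pgroup (h.syl.pgroup.to_le h.le) (od_zp.2 o)).symm).trans C_zpowers.le)) e.le
  have m := conj_mem (zpowers_le.2 hn) hw (inv_mem hy)
  have e1 := comm_of_cent ab hy m
  have e2 := mem_C.1 (z hw) _ (sq _ (inv_mem (hY hy)))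
  rw [commutatorElement_def, mul_assoc y, mul_assoc y]
  refine h.memU.2 ⟨hY (mul_mem hy m), ?_⟩
  calc y * (w * y⁻¹ * w⁻¹) * (y * (w * y⁻¹ * w⁻¹)) = y * (w * y⁻¹ * w⁻¹ * y) * (w * y⁻¹ * w⁻¹) := by group
    _ = y * y * (w * (y⁻¹ * y⁻¹) * w⁻¹) := by rw [← e1]; group
    _ = 1 := by rw [← e2]; group

theorem bt_ab [GBF.{u}] (h : BT L T U K) (hY : Y ≤ T) (hn : L ⊓ N(T) ≤ N(Y)) (ab : Abel Y) : Y ≤ U := by
  obtain rfl | ⟨na, sq, ⟨-, -, tr⟩ | ⟨z, hz, o, e, -⟩⟩ := GBF.cases h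
  · exact hY
  · by_contra c
    obtain ⟨x, hx, hx'⟩ := SetLike.not_le_iff_exists.1 c
    refine na ((ab.sup (h.1.le.trans (cent_symm h.1.cent) |> fun e => cent_mono h.1.cent le_rfl h.1.le)
      (hY.trans (cent_symm h.1.cent))).mono fun y hy => ?_)
    by_cases e : y ∈ U
    · exact mem_sup_right e
    obtain ⟨k, hk, e'⟩ := tr x (hY hx) hx' y hy e
    exact mul_inv_cancel_left (k * x * k⁻¹) y ▸ mul_mem (mem_sup_left (conj_mem hn (h.1.leK hk) hx)) (mem_sup_right e')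
  · exact ab_zeta h.1 sq hz.2 o e hY (hn hz.1) ab

theorem bt_cc [GBF.{u}] (h : BT L T U K) (h1 : X ≤ T) (h2 : Y ≤ T) (n1 : L ⊓ N(T) ≤ N(X)) (n2 : L ⊓ N(T) ≤ N(Y))
    (c : X ≤ C(Y)) : X ≤ U ∨ Y ≤ U := by
  by_contra k; push Not at k
  obtain ⟨x, hx, hx'⟩ := SetLike.not_le_iff_exists.1 k.1
  obtain ⟨y, hy, hy'⟩ := SetLike.not_le_iff_exists.1 k.2
  obtain ⟨-, sq, -⟩ := (GBF.cases h).resolve_left fun e => k.1 (e ▸ h1)
  obtain ⟨k, hk, e⟩ := h.1.trans _ (sq y (h2 hy)) (fun e => hy' (h.1.memU.2 ⟨h2 hy, e⟩)) _ (sq x (h1 hx))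
    fun e => hx' (h.1.memU.2 ⟨h1 hx, e⟩)
  have m := conj_mem n2 (h.1.leK hk) hy
  have e1 := comm_of_cent c hx m
  have : x * (k * y * k⁻¹) ∈ U := h.1.memU.2 ⟨mul_mem (h1 hx) (h2 m), by
    calc x * (k * y * k⁻¹) * (x * (k * y * k⁻¹)) = x * (k * y * k⁻¹ * x) * (k * y * k⁻¹) := by group
      _ = x * x * (k * (y * y) * k⁻¹) := by rw [← e1]; group
      _ = 1 := by rw [e]; exact (h.1.memU.1 (sq x (h1 hx))).2⟩
  refine hx' (bt_ab h (Y := X ⊓ (U ⊔ Y)) (inf_le_left.trans h1) (norm_inf n1 (norm_sup (inf_le_right.trans h.1.nU) n2))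
    (cent_mono (cent_sup (h1.trans (cent_symm h.1.cent)) c) inf_le_left inf_le_right) ⟨hx, ?_⟩)
  exact mul_inv_cancel_right x (k * y * k⁻¹) ▸ mul_mem (mem_sup_left this) (mem_sup_right (inv_mem m))

theorem perf_le (hD : ⁅D, D⁆ = D) (hP : IsSyl 2 P D) (hN : D ≤ N(N)) (h : P ≤ N) : D ≤ N := by
  obtain ⟨Y, hY, o, e⟩ := exists_odd hP (nml_inf_of_norm hN) (le_inf hP.le h)
  exact le_of_perfect_of_le_sup_solvable hD (od_solv o) (hY.trans hN) (e.trans (sup_le_sup_right inf_le_right _))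

theorem gt_perf (h : GT L T U K) (hD : ⁅D, D⁆ = D) (h1 : D ≤ N(L)) (h2 : D ≤ C(U)) (h3 : D ≤ N(T))
    (h4 : ∀ y ∈ D, IsPGroup 2 (zpowers y) → ⁅T, zpowers y⁆ ≤ U) : D ≤ C(L) := by
  obtain ⟨P, hP⟩ := exists_isSyl 2 D
  refine le_of_perfect_of_le_sup_solvable hD (pg_pi h.syl.pgroup).solv (norm_C (le_norm h.syl.le))
    (perf_le hD hP (norm_sup (norm_C h1) h3) fun y hy => ?_)
  have p := pg_mem hP.pgroup hy
  obtain ⟨t, ht, e⟩ := h.inner y ⟨⟨h1 (hP.le hy), h3 (hP.le hy)⟩, h2 (hP.le hy)⟩ p (h4 y (hP.le hy) p)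
  exact mul_inv_cancel_left t y ▸ mul_mem (mem_sup_right ht) (mem_sup_left e)

theorem bt_perf (h' : BT L T U K) (hD : ⁅X, X⁆ = X) (h1 : X ≤ N(L)) (h2 : X ≤ C(U)) : X ≤ C(L) := by
  obtain ⟨H, D, V, W, t, s, h⟩ := H9.bs_of h'
  have nT : X ≤ N(T) := (le_inf h1 (cent_norm h2)).trans h.nT
  have cU : T ≤ C(U) := cent_symm h'.1.cent
  refine gt_perf h'.1 hD h1 h2 nT fun y hy p => ?_
  have z := zpowers_le.2 hy
  rcases (H19.concl h.toSuz h.lt).2 with ⟨c, -⟩ | ⟨c, na, o⟩ | ⟨c, na, o, ω, -, ζ, hζ, ne, -⟩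
  · exact (comm_le_left (z.trans nT)).trans (eq_of_card_eq h.leQ₀ c.symm).ge
  · have sq := H19.sq_mem h.toSuz h.lt h.two na
    refine commutator_le.2 fun x hx w hw => ?_
    have hw := z hw
    suffices x⁻¹ * (w * x * w⁻¹) ∈ U by
      simpa [commutatorElement_def, mul_assoc] using conj_mem (cent_norm cU) hx (inv_mem this)
    by_cases e : x ∈ U
    · exact mul_mem (inv_mem e) (conj_mem (cent_norm h2) hw e)
    have m := conj_mem nT hw hx
    obtain ⟨k, hk, e'⟩ := h.trans_quo c hx e m fun e' => e (by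
      simpa [mul_assoc] using conj_mem' (cent_norm h2) hw e')
    by_cases k1 : k = 1
    · simpa [k1] using e'
    refine (e (h'.1.memU.2 ⟨hx, eq_one_of_eq_bot (h.semireg k hk k1) ⟨mul_mem hx hx, mem_C1.2 ?_⟩⟩)).elim
    have e1 := comm_of_cent cU (conj_mem h.nQD (h.leK hk) hx) e'
    have e2 := (h'.1.memU.1 e').2
    have e3 := mem_C.1 (h2 hw) _ (sq x hx)
    generalize hu : (k * x * k⁻¹)⁻¹ * (w * x * w⁻¹) = u at e1 e2
    have e4 : w * x * w⁻¹ = k * x * k⁻¹ * u := by rw [← hu, mul_inv_cancel_left]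
    refine Eq.symm ?_
    calc k * (x * x) = k * (x * x) * k⁻¹ * (u * u) * k := by rw [e2]; group
      _ = k * x * k⁻¹ * (k * x * k⁻¹ * u) * u * k := by group
      _ = w * x * w⁻¹ * (w * x * w⁻¹) * k := by rw [e1, e4]; group
      _ = w * (x * x) * w⁻¹ * k := by group
      _ = x * x * k := by rw [← e3]; group
  · have sq := H19.sq_mem h.toSuz h.lt h.two na
    have z1 : ζ ≠ 1 := by rintro rfl; simp at ne
    have e := H19.cent_W h.toSuz h.ker h.lt (H19.suzIH h.toSuz) c o hζ z1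
    have cy := (H19.lemma5 h.toSuz h.ker h.lt (H19.suzIH h.toSuz) h.two na c o).1
    have zD := h.leWD hζ
    have zT := zpowers_le.2 (h.nQD zD)
    have zU := h.W_cent₀ hζ
    have F1 : L ⊓ C(U) ≤ H := (inf_le_inf_left _ (C_le_C1 h.sQ₀)).trans (h.cent_le h.sQ h.s_ne)
    have F2 : L ⊓ C(U) ≤ W ⊔ T := by
      rw [sup_comm, h.W_eq, ← Nrm2.modular (Or.inr h.nQD) cU, h.sd.sup]; exact le_inf F1 inf_le_right
    have F3 : ⁅X, L ⊓ C(U)⁆ ≤ T := by
      rw [comm_le_iff_quo nT (F1.trans h.nQ), ← hD, mim_comm nT nT]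
      exact (cy.mim.of_le ((quo_le_quo_iff (F1.trans h.nQ) (h.leWD.trans h.nQD)).2 F2)).der_cent
        (mim_norm (norm_inf h1 (le_norm h2)))
    have nP : zpowers ζ ≤ N(zpowers y ⊔ T) := norm_of_comm_le (comm_sup_le' (le_sup_of_le_right
      (H18.comm_comm.le.trans ((H18.comm_mono z (zpowers_le.2 (mem_inf.2 ⟨h.leDL zD, zU⟩))).trans F3)))
      (le_sup_of_le_right (comm_le_right zT)) (le_norm le_sup_left) (le_norm le_sup_right))
    have cP : zpowers y ⊔ T ≤ C(U) := sup_le (z.trans h2) cU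
    have iff : ∀ {Z}, Z ≤ T → (Z ≤ T ⊓ qpre U C((zpowers y ⊔ T) ⫽ U) ↔ ⁅Z, zpowers y ⊔ T⁆ ≤ U) := fun {Z} hZ => by
      rw [le_inf_iff, comm_le_iff_quo (cent_norm (hZ.trans cU)) (cent_norm cP), mim_le_iff (cent_norm (hZ.trans cU)),
        and_iff_right hZ]
    refine (H18.comm_mono le_rfl le_sup_left).trans ((iff le_rfl).1 (by_contra fun k => ?_))
    obtain ⟨M, hM, k, -, l⟩ := exists_not_le_commutator_le h'.1.syl.pgroup
      (isPGroup_sup (z.trans nT) p h'.1.syl.pgroup) (sup_le (z.trans nT) le_N) k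
    refine k ((iff hM).2 (le_trans (le_inf l (comm_eq_bot_iff.1 (three_subgroup ?_ ?_)))
      (ab_zeta h'.1 sq zU (h.oddD zD) e (inf_le_left.trans inf_le_left) (zpowers_le.1 (norm_Z (norm_inf zT
        (norm_mpre (cent_norm (zpowers_le.2 zU)) (norm_C (mim_norm nP)))))) abel_Z)))
    · exact comm_eq_bot_iff.2 ((H18.comm_comm.le.trans ((iff inf_le_left).1 le_rfl)).trans (cent_symm (hM.trans cU)))
    · exact comm_eq_bot_iff.2 ((comm_le_der inf_le_left hM).trans ((der_le_of_sq sq).trans (cent_symm cP)))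

/-- the perfect residual -/
def pr (X : Subgroup G) : Subgroup G := sSup {D | D ≤ X ∧ ⁅D, D⁆ = D}

theorem le_pr (h : D ≤ X) (hD : ⁅D, D⁆ = D) : D ≤ pr X := le_sSup ⟨h, hD⟩
theorem pr_le : pr X ≤ X := sSup_le fun _ h => h.1
theorem pr_perf : ⁅pr X, pr X⁆ = pr X :=
  le_antisymm der_le (sSup_le fun D h => h.2.ge.trans (der_mono (le_pr h.1 h.2)))
theorem perf_cj (hD : ⁅D, D⁆ = D) (g : G) : ⁅H18.cj g D, H18.cj g D⁆ = H18.cj g D := by rw [← cj_comm, hD]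
theorem N_le_pr : N(X) ≤ N(pr X) := fun g hg => mem_N_of_cj_le (le_pr (cj_le_of_mem_N pr_le hg) (perf_cj pr_perf g))

end H20.G3
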