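import Cfsg.Agent.H20.Spe

set_option autoImplicit false

/-! Graphs of groups inside `FreeGroup E ⋊ Γ` (`pathGrp`, finite subgroups fix a vertex: `exists_conj_left`);
every fusion system is realized by a virtually free group (`exists_vfree`). -/
namespace H20
open FreeGroup hiding map_mul map_inv map_one
open Subgroup Equiv Cfsg SemidirectProduct
open scoped Pointwise
universe u

section tree
variable {Γ E V : Type*} [Group Γ] [MulAction Γ E] [MulAction Γ V]

/-- the action of `Γ` on the free group on a `Γ`-set -/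
def fgAct (Γ E : Type*) [Group Γ] [MulAction Γ E] : Γ →* MulAut (FreeGroup E) :=
  MonoidHom.mk' (fun g => freeGroupCongr (MulAction.toPerm g)) fun a b => MulEquiv.ext fun x =>
    (congrArg (FreeGroup.map · x) (funext (mul_smul a b))).trans (FreeGroup.map.comp _ _ x).symm

theorem fgAct_mk (g : Γ) (L : List (E × Bool)) :
    fgAct Γ E g (.mk L) = .mk (L.map fun x => (g • x.1, x.2)) := rfl

theorem toWord_fgAct [DecidableEq E] (g : Γ) (x : FreeGroup E) :
    (fgAct Γ E g x).toWord = x.toWord.map fun x => (g • x.1, x.2) := by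
  conv_lhs => rw [← mk_toWord (x := x), fgAct_mk, toWord_mk]
  exact IsReduced.reduce_eq (List.isChain_map _ |>.2 (isReduced_toWord.imp fun _ _ h e =>
    h (smul_left_cancel g e)))

theorem norm_fgAct [DecidableEq E] (g : Γ) (x : FreeGroup E) : (fgAct Γ E g x).norm = x.norm := by
  simp [FreeGroup.norm, toWord_fgAct]

theorem norm_inv_mul [DecidableEq E] {x y : FreeGroup E} {a b : E × Bool} {A B : List (E × Bool)}
    (hx : x.toWord = a :: A) (hy : y.toWord = b :: B) (h : a ≠ b) : (x⁻¹ * y).norm = x.norm + y.norm := by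
  have : IsReduced (x⁻¹.toWord ++ y.toWord) := List.isChain_append.2 ⟨isReduced_toWord, isReduced_toWord, by
    rw [toWord_inv, hx, hy, invRev_cons]
    simp only [invRev, List.map_cons, List.map_nil, List.reverse_cons, List.reverse_nil, List.nil_append,
      List.getLast?_concat, List.head?_cons, Option.mem_def, Option.some.injEq]
    rintro _ rfl _ rfl e
    exact Bool.not_eq_iff.2 fun d => h (Prod.ext e d)⟩
  rw [FreeGroup.norm, toWord_mul, this.reduce_eq, List.length_append, toWord_inv, invRev_length]; rfl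

/-- an equivariant graph: `R l v w` says that the letter `l` is an edge from `v` to `w` -/
structure Gr (Γ : Type*) [Group Γ] [MulAction Γ E] [MulAction Γ V] (R : E × Bool → V → V → Prop) : Prop where
  symm : ∀ {l v w}, R l v w → R (l.1, !l.2) w v
  uniq : ∀ {l v w v' w'}, R l v w → R l v' w' → w = w'
  smul : ∀ (g : Γ) {l v w}, R l v w → R (g • l.1, l.2) (g • v) (g • w)

/-- paths in a graph -/
inductive Pth (R : E × Bool → V → V → Prop) : V → List (E × Bool) → V → Prop
  | nil (v) : Pth R v [] v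
  | cons {l v u W w} : R l v u → Pth R u W w → Pth R v (l :: W) w

variable {R : E × Bool → V → V → Prop} {u v w : V} {A B : List (E × Bool)}

theorem Pth.append (h : Pth R u A v) (h' : Pth R v B w) : Pth R u (A ++ B) w := by
  induction h with
  | nil => exact h'
  | cons a _ ih => exact .cons a (ih h')

theorem Pth.split (h : Pth R u (A ++ B) w) : ∃ v, Pth R u A v ∧ Pth R v B w := by
  induction A generalizing u with
  | nil => exact ⟨u, .nil u, h⟩
  | cons l A ih =>
    cases h with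
    | cons a b => exact let ⟨v, c, d⟩ := ih b; ⟨v, .cons a c, d⟩

theorem Pth.rev (hR : Gr Γ R) (h : Pth R u A v) : Pth R v (invRev A) u := by
  induction h with
  | nil => exact .nil _
  | cons a _ ih => rw [invRev_cons]; exact ih.append (.cons (hR.symm a) (.nil _))

theorem Pth.smul (hR : Gr Γ R) (g : Γ) (h : Pth R u A v) :
    Pth R (g • u) (A.map fun x => (g • x.1, x.2)) (g • v) := by
  induction h with
  | nil => exact .nil _
  | cons a _ ih => exact .cons (hR.smul g a) ih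

theorem Pth.red (hR : Gr Γ R) (h : Red A B) (h' : Pth R u A v) : Pth R u B v := by
  induction h with
  | refl => exact h'
  | tail _ s ih =>
    cases s
    obtain ⟨w, a, b⟩ := ih.split
    cases b with
    | cons b c =>
      cases c with
      | cons c d => exact a.append (hR.uniq c (hR.symm b) ▸ d)

/-- the group of pairs (path from `v` to `g • v`, `g`) -/
def pathGrp (hR : Gr Γ R) (v : V) : Subgroup (FreeGroup E ⋊[fgAct Γ E] Γ) where
  carrier := {g | ∃ L, .mk L = g.left ∧ Pth R v L (g.right • v)}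
  one_mem' := ⟨[], rfl, by simpa using .nil v⟩
  mul_mem' := by
    rintro a b ⟨A, c, d⟩ ⟨B, e, g⟩
    exact ⟨_, by rw [mul_left, ← c, ← e, fgAct_mk, mul_mk], by
      rw [mul_right, mul_smul]; exact d.append (g.smul hR _)⟩
  inv_mem' := by
    rintro a ⟨A, c, d⟩
    exact ⟨_, by rw [inv_left, ← c, inv_mk, fgAct_mk], by simpa using (d.rev hR).smul hR a.right⁻¹⟩

theorem pth_toWord [DecidableEq E] {hR : Gr Γ R} {g : FreeGroup E ⋊[fgAct Γ E] Γ} (h : g ∈ pathGrp hR v) :
    Pth R v g.left.toWord (g.right • v) :=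
  let ⟨_, a, b⟩ := h
  a ▸ b.red hR reduce.red

theorem exists_conj_left (hR : Gr Γ R) (ht : ∀ w, ∃ g : Γ, g • v = w) (H : Subgroup (pathGrp hR v))
    [Finite H] : ∃ g : pathGrp hR v, ∀ h ∈ H, (g * h * g⁻¹).1.left = 1 := by
  classical
  have := Fintype.ofFinite H
  obtain ⟨g, hg⟩ := exists_minimalFor_of_wellFoundedLT (fun _ => True)
    (fun g : pathGrp hR v => ∑ h : H, (g * h * g⁻¹).1.left.norm) ⟨1, trivial⟩
  let c : H →* FreeGroup E ⋊[fgAct Γ E] Γ :=
    (pathGrp hR v).subtype.comp ((MulAut.conj g).toMonoidHom.comp H.subtype)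
  obtain ⟨m, hm⟩ := Finite.exists_max fun h => (c h).left.norm
  refine ⟨g, fun h hh => by_contra fun a => ?_⟩
  obtain ⟨l, W, b⟩ := List.exists_cons_of_ne_nil (l := (c m).left.toWord) fun e => a (norm_eq_zero.1
    (Nat.le_zero.1 ((hm ⟨h, hh⟩).trans (congrArg List.length e).le)))
  have d : ∀ k, (c k).left ≠ 1 → ∃ X, (c k).left.toWord = l :: X := fun k d => by
    obtain ⟨l', X, e⟩ := List.exists_cons_of_ne_nil (mt toWord_eq_nil_iff.1 d)
    refine ⟨X, by_contra fun n => ?_⟩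
    have := hm (k⁻¹ * m)
    rw [map_mul, map_inv, mul_left, inv_left, inv_right, ← map_mul, norm_fgAct,
      norm_inv_mul e b fun o => n (o ▸ e)] at this
    exact d (norm_eq_zero.1 (by omega))
  have e := pth_toWord (g * m * g⁻¹).2
  change Pth R v (c m).left.toWord _ at e
  rw [b] at e
  obtain ⟨u, k⟩ : ∃ u, R l v u := by cases e with | cons a _ => exact ⟨_, a⟩
  obtain ⟨s, rfl⟩ := ht u
  let t : pathGrp hR v := ⟨⟨.mk [l], s⟩, [l], rfl, .cons k (.nil _)⟩
  have n : ∀ k : H, (t⁻¹ * g * k * (t⁻¹ * g)⁻¹).1.left.norm =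
      ((FreeGroup.mk [l])⁻¹ * (c k).left * fgAct Γ E (c k).right (.mk [l])).norm := fun k => by
    rw [show (t⁻¹ * g * k * (t⁻¹ * g)⁻¹).1 = t.1⁻¹ * (c k * t.1) by simp [c, mul_assoc], mul_left, inv_left,
      inv_right, ← map_mul, norm_fgAct, mul_left, mul_assoc]
  have o : ∀ k X, (c k).left.toWord = l :: X → (FreeGroup.mk [l])⁻¹ * (c k).left = .mk X := fun k X o => by
    rw [inv_mul_eq_iff_eq_mul, mul_mk, ← mk_toWord (x := (c k).left), o]; rfl
  refine hg.not_lt (j := t⁻¹ * g) trivial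
    (Finset.sum_lt_sum (fun k _ => (n k).le.trans ?_) ⟨m, Finset.mem_univ _, (n m).trans_lt ?_⟩)
  · change _ ≤ (c k).left.norm
    by_cases q : (c k).left = 1
    · obtain ⟨X, r⟩ := d (k * m) (by
        rw [map_mul, mul_left, q, one_mul, Ne, map_eq_one_iff _ (fgAct Γ E _).injective,
          ← toWord_eq_nil_iff, b]; simp)
      rw [map_mul, mul_left, q, one_mul, toWord_fgAct, b, List.map_cons, List.cons.injEq] at r
      rw [q, fgAct_mk, List.map_singleton, r.1, mul_one, inv_mul_cancel]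
    obtain ⟨X, r⟩ := d k q
    rw [o k X r, fgAct_mk, mul_mk, FreeGroup.norm, FreeGroup.norm, r]
    exact norm_mk_le.trans (by simp)
  · change _ < (c m).left.norm
    obtain ⟨Y, r⟩ := d m⁻¹ (by
      rw [map_inv, inv_left, Ne, map_eq_one_iff _ (fgAct Γ E _).injective, inv_eq_one, ← toWord_eq_nil_iff, b]
      simp)
    rw [map_inv, inv_left, toWord_fgAct, toWord_inv, b] at r
    have q := congrArg (List.map fun x => ((c m).right • x.1, x.2)) r
    simp only [List.map_map, Function.comp_def, smul_inv_smul, List.map_id', List.map_cons] at q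
    rcases W.eq_nil_or_concat with rfl | ⟨X, x, rfl⟩
    · simp [invRev] at q
    simp only [invRev, List.map_cons, List.concat_eq_append, List.map_append, List.map_nil, List.reverse_cons,
      List.reverse_append, List.reverse_nil, List.nil_append, List.cons_append, List.cons.injEq] at q
    rw [o m _ b, fgAct_mk, List.map_singleton, ← q.1, List.concat_eq_append, ← mul_mk, mul_assoc,
      show FreeGroup.mk [(x.1, !x.2)] = (FreeGroup.mk [x])⁻¹ from rfl, mul_inv_cancel, mul_one,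
      FreeGroup.norm, FreeGroup.norm, b]
    exact norm_mk_le.trans_lt (by simp)

end tree

theorem exists_perm_conj {X : Type*} [Group X] [Finite X] {P Q : Subgroup X} (e : P ≃* Q) :
    ∃ π : Perm X, ∀ (u : P) x, π (u * x) = e u * π x := by
  obtain ⟨T, a, -⟩ := P.exists_isComplement_right 1
  obtain ⟨U, b, -⟩ := Q.exists_isComplement_right 1
  have c := a.card_mul
  rw [← b.card_mul] at c
  obtain ⟨q⟩ := Finite.card_eq.1 (Nat.eq_of_mul_eq_mul_left Nat.card_pos
    (((congrArg (· * _) (Nat.card_congr e.toEquiv).symm).trans c)) : Nat.card T = Nat.card U)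
  refine ⟨a.equiv.trans ((e.toEquiv.prodCongr q).trans b.equiv.symm), fun u x => ?_⟩
  obtain ⟨⟨y, t⟩, rfl⟩ := a.equiv.symm.surjective x
  rw [show (u : X) * a.equiv.symm (y, t) = a.equiv.symm (⟨u * y, mul_mem u.2 y.2⟩, t) from
    (mul_assoc _ _ _).symm]
  simp only [trans_apply, apply_symm_apply]
  exact (congrArg (fun z : Q => (z : X) * q t) (e.map_mul u y)).trans (mul_assoc _ _ _)

theorem exists_vfree {Ω : Type u} [Group Ω] {S : Subgroup Ω} [Finite S] (F : FusionSystem S) :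
    ∃ (G : Type u) (_ : Group G) (ι : S →* G), F.IsRealizedBy ι ∧
      (∀ H : Subgroup G, Finite H → ∃ g : G, ∀ h ∈ H, g * h * g⁻¹ ∈ ι.range) ∧
      ∃ N : Subgroup G, N.Normal ∧ IsFreeGroup N ∧ N.index ∣ (Nat.card S).factorial := by
  classical
  let L := MulAction.toPermHom S S
  have hL : Function.Injective L := MulAction.toPerm_injective
  obtain ⟨f, hf, ef⟩ := exists_fun_of_hom L
  have hi : ∀ x ∈ S, ∀ y ∈ S, f x = f y → x = y := fun x a y b e => congrArg Subtype.val
    (hL (a₁ := ⟨x, a⟩) (a₂ := ⟨y, b⟩) (by rw [ef, ef, e]))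
  let I := {i : Subgroup Ω × Perm Ω // Mor F i.1 i.2}
  have : ∀ i : I, ∃ π : Perm S, ∀ x ∈ i.1.1, f (i.1.2 x) = π * f x * π⁻¹ := fun ⟨⟨P, σ⟩, h⟩ => by
    obtain ⟨π, a⟩ := exists_perm_conj ((subgroupOfEquivOfLe h.le).trans ((MonoidHom.ofInjective
      (f := h.hom.toHom) fun x y e => Subtype.ext (σ.injective e)).trans ((MulEquiv.subgroupCongr
        h.hom.img_eq_range.symm).trans (subgroupOfEquivOfLe h.img_le).symm)))
    refine ⟨π, fun x b => eq_mul_inv_of_mul_eq (Equiv.ext fun y => ?_)⟩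
    rw [← ef ⟨x, h.le b⟩, ← ef ⟨σ x, h.maps b⟩]
    exact (a ⟨⟨x, h.le b⟩, b⟩ y).symm
  choose π hπ using this
  let e : I → I → Set (Perm S) := fun i j => {c | j = i ∧ ∃ x ∈ i.1.1, c = f (i.1.2 x)}
  have he : ∀ (a b : Perm S) i j, a • e i = b • e j → i = j ∧ ∃ x ∈ i.1.1, b⁻¹ * a = f (i.1.2 x) :=
    fun a b i j h => by
      have : a ∈ (a • e i) i := ⟨1, ⟨rfl, 1, one_mem _, by rw [i.2.hom.one, hf.one]⟩, mul_one a⟩
      rw [h, Pi.smul_apply, Set.mem_smul_set_iff_inv_smul_mem] at this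
      obtain ⟨rfl, c⟩ := this
      exact ⟨rfl, c⟩
  have he' : ∀ i, ∀ x ∈ i.1.1, f (i.1.2 x) • e i = e i := fun i x a => funext fun j => Set.ext fun c => by
    rw [Pi.smul_apply, Set.mem_smul_set_iff_inv_smul_mem]
    refine and_congr_right fun _ => ⟨fun ⟨y, b, d⟩ => ⟨x * y, mul_mem a b, ?_⟩, fun ⟨y, b, d⟩ =>
      ⟨x⁻¹ * y, mul_mem (inv_mem a) b, ?_⟩⟩
    · rw [i.2.hom.mul a b, hf.mul (i.2.maps a) (i.2.maps b), ← d]; simp
    rw [i.2.hom.mul (inv_mem a) b, hf.mul (i.2.maps (inv_mem a)) (i.2.maps b), i.2.hom.inv a,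
      hf.inv (i.2.maps a), d, smul_eq_mul]
  let v : Perm S ⧸ L.range := (1 : Perm S)
  have hv : ∀ a b : Perm S, a • v = b • v ↔ ∃ s ∈ S, a⁻¹ * b = f s := fun a b => by
    simp only [v, MulAction.Quotient.smul_coe, smul_eq_mul, mul_one, QuotientGroup.eq]
    exact ⟨fun ⟨s, c⟩ => ⟨s, s.2, c ▸ ef s⟩, fun ⟨s, c, d⟩ => ⟨⟨s, c⟩, (ef _).trans d.symm⟩⟩
  let R : (I → Set (Perm S)) × Bool → _ → _ → Prop := fun l u w => ∃ (a : Perm S) (i : I), l.1 = a • e i ∧
    (if l.2 then u else w) = a • v ∧ (if l.2 then w else u) = (a * π i) • v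
  have hR : Gr (Perm S) R := ⟨fun {l _ _} h => by obtain ⟨x, _ | _⟩ := l <;> exact h,
    fun {l _ _ _ _} ⟨a, i, b, c, d⟩ ⟨a', j, b', c', d'⟩ => by
      obtain ⟨rfl, x, g, k⟩ := he _ _ _ _ (b.symm.trans b')
      have m := (hv a' a).2 ⟨_, i.2.maps g, k⟩
      have n := (hv (a' * π i) (a * π i)).2 ⟨x, i.2.le g, by
        rw [mul_inv_rev, mul_assoc, ← mul_assoc a'⁻¹, k, hπ i x g]; group⟩
      obtain ⟨x, _ | _⟩ := l
      exacts [c.trans (m.symm.trans c'.symm), d.trans (n.symm.trans d'.symm)],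
    fun g {l _ _} ⟨a, i, b, c, d⟩ => ⟨g * a, i, by rw [b, mul_smul], by
      rw [mul_assoc, mul_smul, mul_smul g, ← c, ← d]; cases l.2 <;> exact ⟨rfl, rfl⟩⟩⟩
  have hD : ∀ l u w, R l u w → ∃ (a b : Perm S) (Q : Subgroup Ω) (ρ : Perm Ω), u = a • v ∧ w = b • v ∧
      Mor F Q ρ ∧ ∀ c : Perm S, c • l.1 = l.1 → ∃ y ∈ Q, c = b * f y * b⁻¹ ∧ c = a * f (ρ y) * a⁻¹ := by
    rintro ⟨_, t⟩ u w ⟨a, i, rfl, c, d⟩
    have g : ∀ c : Perm S, c • a • e i = a • e i → ∃ y ∈ i.1.1, c = a * π i * f y * (a * π i)⁻¹ ∧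
        c = a * f (i.1.2 y) * a⁻¹ := fun c g => by
      obtain ⟨-, y, k, m⟩ := he _ _ _ _ ((mul_smul _ _ _).trans g)
      have : c = a * f (i.1.2 y) * a⁻¹ := by rw [← m]; group
      exact ⟨y, k, by rw [this, hπ i y k]; group, this⟩
    cases t
    · exact ⟨_, _, _, _, d, c, i.2.inv, fun c k => let ⟨y, m, n, o⟩ := g c k
        ⟨_, mem_img_of_mem _ m, o, by rwa [pm_inv_apply]⟩⟩
    exact ⟨_, _, _, _, c, d, i.2, g⟩
  have hH : ∀ u W w, Pth R u W w → ∀ (a b : Perm S) (P : Subgroup Ω) (τ : Perm Ω), u = a • v → w = b • v →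
      P ≤ S → (∀ x ∈ P, τ x ∈ S ∧ a * f (τ x) * a⁻¹ = b * f x * b⁻¹ ∧ ∀ l ∈ W, (b * f x * b⁻¹) • l.1 = l.1) →
        Mor F P τ := fun u W w h => by
    induction h with
    | nil u =>
      intro a b P τ c d g k
      obtain ⟨s, l, m⟩ := (hv a b).1 (c.symm.trans d)
      exact (mor_cj F g l).congr fun x n => hi _ (k x n).1 _ (mul_mem (mul_mem l (g n)) (inv_mem l)) (by
        rw [cj_apply, hf.conj l (g n), ← m, ← mul_left_cancel_iff (a := a), ← mul_right_cancel_iff (a := a⁻¹),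
          (k x n).2.1]; group)
    | cons c _ ih =>
      intro a b P τ d g k l
      obtain ⟨a', b', Q, ρ, m, n, o, q⟩ := hD _ _ _ c
      obtain ⟨s, r, t⟩ := (hv a a').1 (d.symm.trans m)
      have z : ∀ x ∈ P, ∃ y ∈ Q, (ρ⁻¹ * (cj s)⁻¹ * τ) x = y ∧ b * f x * b⁻¹ = b' * f y * b'⁻¹ := fun x h => by
        obtain ⟨y, h1, h2, h3⟩ := q _ ((l x h).2.2 _ List.mem_cons_self)
        refine ⟨y, h1, ?_, h2⟩
        rw [Perm.mul_apply, Perm.mul_apply, Perm.inv_eq_iff_eq, Perm.inv_eq_iff_eq]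
        exact hi _ (l x h).1 _ (mul_mem (mul_mem r (o.maps h1)) (inv_mem r)) (by
          rw [cj_apply, hf.conj r (o.maps h1), ← t, ← mul_left_cancel_iff (a := a),
            ← mul_right_cancel_iff (a := a⁻¹), (l x h).2.1, h3]; group)
      exact (((ih b' b P _ n g k fun x h => let ⟨y, h1, h2, h3⟩ := z x h
        ⟨h2 ▸ o.le h1, by rw [h2, h3], fun j h4 => (l x h).2.2 j (List.mem_cons_of_mem _ h4)⟩).comp o
          fun x h => let ⟨y, h1, h2, _⟩ := z x h; h2 ▸ h1).comp (mor_cj F le_rfl r) fun x h => by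
            obtain ⟨y, h1, h2, -⟩ := z x h
            rw [Perm.mul_apply, h2]; exact o.maps h1).congr fun x h => by simp [mul_assoc]
  let ι : S →* pathGrp hR v := (inr.comp L).codRestrict _ fun s => ⟨[], rfl, by
    rw [show (inr.comp L s).right • v = (1 : Perm S) • v from
      ((hv 1 (L s)).2 ⟨s, s.2, by rw [inv_one, one_mul, ef]⟩).symm, one_smul]; exact .nil v⟩
  have hι : ∀ x (h : x ∈ S), (ι ⟨x, h⟩).1 = inr (f x) := fun x h => congrArg inr (ef ⟨x, h⟩)
  refine ⟨pathGrp hR v, _, ι, ⟨fun x y h => hL (inr_injective (congrArg Subtype.val h)),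
    fun P hP φ hφ => ⟨fun h => ?_, fun ⟨g, h⟩ => ?_⟩⟩, fun H _ => ?_,
    (rightHom.comp (pathGrp hR v).subtype).ker, inferInstance, ?_, ?_⟩
  · obtain ⟨σ, a, b⟩ := exists_mor h
    refine ⟨⟨⟨.of (e ⟨(P, σ), a⟩), π ⟨(P, σ), a⟩⟩, [(_, true)], rfl, .cons ⟨1, _, (one_smul _ _).symm,
      (one_smul _ _).symm, by rw [one_mul]; rfl⟩ (.nil _)⟩, fun x => eq_mul_inv_of_mul_eq (Subtype.ext ?_)⟩
    have c := hπ ⟨(P, σ), a⟩ x x.2
    rw [coe_mul, coe_mul, hι, hι, b]
    refine SemidirectProduct.ext ?_ (mul_eq_of_eq_mul_inv c)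
    rw [mul_left, mul_left, left_inr, left_inr, right_inr, one_mul, map_one, mul_one]
    exact congrArg of (he' ⟨(P, σ), a⟩ x x.2)
  · have := fin_of_le hP
    have a : ∀ x : P, inr (f (φ x)) * g.1 = g.1 * inr (f x) := fun x => by
      rw [← hι _ (hφ x), ← hι _ (hP x.2)]
      exact congrArg Subtype.val (mul_eq_of_eq_mul_inv (h x))
    have b : ∀ x : P, f (φ x) = g.1.right * f x * g.1.right⁻¹ := fun x =>
      eq_mul_inv_of_mul_eq (congrArg SemidirectProduct.right (a x))
    obtain ⟨τ, c⟩ := exists_perm_hom φ ((injective_iff_map_eq_one φ).2 fun x c => Subtype.ext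
      (hi _ (hP x.2) _ (one_mem _) (by simpa [c, hf.one, eq_comm] using b x)))
    refine (hH _ _ _ (pth_toWord g.2) 1 _ P τ (one_smul _ _).symm rfl hP fun x d => ⟨c ⟨x, d⟩ ▸ hφ _, by
      rw [← c ⟨x, d⟩, b]; simp, fun l k => ?_⟩).mem_hom c
    have m := congrArg (fun z => z.left.toWord) (a ⟨x, d⟩)
    beta_reduce at m
    rw [mul_left, mul_left, left_inr, left_inr, right_inr, one_mul, map_one, mul_one, toWord_fgAct, b] at m
    exact congrArg Prod.fst (List.map_eq_map_iff.1 (m.trans (List.map_id _).symm) l k)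
  · obtain ⟨g, a⟩ := exists_conj_left hR (fun w => by
      obtain ⟨w, rfl⟩ := QuotientGroup.mk_surjective w
      exact ⟨w, by simp [v]⟩) H
    refine ⟨g, fun h b => ?_⟩
    have c := pth_toWord (g * h * g⁻¹).2
    rw [a h b, toWord_one] at c
    generalize hw : (g * h * g⁻¹).1.right • v = w at c
    cases c
    obtain ⟨s, d, k⟩ := (hv 1 _).1 ((one_smul _ _).trans hw.symm)
    exact ⟨⟨s, d⟩, Subtype.ext (SemidirectProduct.ext (a h b).symm ((ef _).trans (by rw [← k]; simp)))⟩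
  · exact IsFreeGroup.ofMulEquiv (MonoidHom.ofInjective (f := MonoidHom.mk'
      (fun n : (rightHom.comp (pathGrp hR v).subtype).ker => n.1.1.left) fun a b => by
        rw [coe_mul, coe_mul, mul_left, show a.1.1.right = 1 from a.2]; simp) fun a b h =>
          Subtype.ext (Subtype.ext (SemidirectProduct.ext h (a.2.trans b.2.symm)))).symm
  rw [index_ker, ← Nat.card_perm]
  exact card_subgroup_dvd_card _

end H20
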